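import Mathlib

set_option autoImplicit false
set_option linter.unusedSectionVars false

/-! # P(G,V): basic lemmas about fixed points of representations over `F_p` -/

open scoped commutatorElement

namespace Cfsg.Agent.H281.PGV

universe u v

variable {p : ℕ} {G : Type u} {V : Type v} [Group G] [AddCommGroup V] [Module (ZMod p) V]
variable (ρ : Representation (ZMod p) G V)

/-- the fixed points of a subgroup -/
def fx (B : Subgroup G) : Submodule (ZMod p) V where
  carrier := {v | ∀ b ∈ B, ρ b v = v}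
  add_mem' := fun {x y} hx hy b hb => by rw [map_add, hx b hb, hy b hb]
  zero_mem' := fun b _ => map_zero _
  smul_mem' := fun c x hx b hb => by rw [map_smul, hx b hb]

theorem mem_fx {B : Subgroup G} {v : V} : v ∈ fx ρ B ↔ ∀ b ∈ B, ρ b v = v := Iff.rfl

theorem fx_anti {A B : Subgroup G} (h : A ≤ B) : fx ρ B ≤ fx ρ A := fun _ hv b hb => hv b (h hb)

theorem mul_ap (a b : G) (v : V) : ρ (a * b) v = ρ a (ρ b v) := by
  rw [map_mul]; rfl

theorem one_ap (v : V) : ρ 1 v = v := by rw [map_one]; rfl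

theorem inv_ap_ap (a : G) (v : V) : ρ a⁻¹ (ρ a v) = v := by
  rw [← mul_ap, inv_mul_cancel, one_ap]

theorem ap_inv_ap (a : G) (v : V) : ρ a (ρ a⁻¹ v) = v := by
  rw [← mul_ap, mul_inv_cancel, one_ap]

theorem ap_inj (a : G) {v w : V} (h : ρ a v = ρ a w) : v = w := by
  rw [← inv_ap_ap ρ a v, h, inv_ap_ap]

/-- the stabiliser of a vector -/
def stab (v : V) : Subgroup G where
  carrier := {g | ρ g v = v}
  mul_mem' := fun {a b} ha hb => by
    change ρ (a * b) v = v
    change ρ a v = v at ha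
    change ρ b v = v at hb
    rw [mul_ap, hb, ha]
  one_mem' := one_ap ρ v
  inv_mem' := fun {a} ha => by
    change ρ a⁻¹ v = v
    change ρ a v = v at ha
    conv_lhs => rw [← ha]
    exact inv_ap_ap ρ a v

theorem mem_stab {v : V} {g : G} : g ∈ stab ρ v ↔ ρ g v = v := Iff.rfl

theorem fx_sup (B B' : Subgroup G) : fx ρ (B ⊔ B') = fx ρ B ⊓ fx ρ B' := by
  apply le_antisymm
  · exact le_inf (fx_anti ρ le_sup_left) (fx_anti ρ le_sup_right)
  · intro v hv
    have h : B ⊔ B' ≤ stab ρ v := sup_le (fun b hb => hv.1 b hb) (fun b hb => hv.2 b hb)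
    exact fun b hb => h hb

/-- a perfect group acting "commutatively" on a vector fixes it -/
theorem perfect_fix {K : Subgroup G} (hK : ⁅K, K⁆ = K) {v : V}
    (h : ∀ x ∈ K, ∀ y ∈ K, ρ x (ρ y v) = ρ y (ρ x v)) : ∀ x ∈ K, ρ x v = v := by
  have h1 : ⁅K, K⁆ ≤ stab ρ v := by
    rw [Subgroup.commutator_le]
    intro x hx y hy
    rw [mem_stab, commutatorElement_def, mul_ap, mul_ap, mul_ap, h x⁻¹ (inv_mem hx) y⁻¹ (inv_mem hy),
      ap_inv_ap, ap_inv_ap]
  intro x hx
  rw [hK] at h1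
  exact h1 hx

/-- quadratic action of a perfect group is trivial -/
theorem perfect_quad {K : Subgroup G} (hK : ⁅K, K⁆ = K) {v : V}
    (h : ∀ x ∈ K, ∀ y ∈ K, ρ x (ρ y v - v) = ρ y v - v) : ∀ x ∈ K, ρ x v = v := by
  apply perfect_fix ρ hK
  intro x hx y hy
  have h1 := h x hx y hy
  have h2 := h y hy x hx
  rw [map_sub, sub_eq_iff_eq_add] at h1 h2
  rw [h1, h2]; abel

section finite

variable [Finite V]

theorem card_sup_mul [Fact p.Prime] (Y Y' : Submodule (ZMod p) V) :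
    Nat.card ↥(Y ⊔ Y') * Nat.card ↥(Y ⊓ Y') = Nat.card Y * Nat.card Y' := by
  have : Module.Finite (ZMod p) V := Module.Finite.of_finite
  have h : ∀ Z : Submodule (ZMod p) V, Nat.card Z = p ^ Module.finrank (ZMod p) Z := by
    intro Z
    have := Module.natCard_eq_pow_finrank (K := ZMod p) (V := Z)
    rwa [Nat.card_zmod] at this
  rw [h, h, h, h, ← pow_add, ← pow_add, Submodule.finrank_sup_add_finrank_inf_eq]

theorem card_submodule_dvd [Fact p.Prime] (Z : Submodule (ZMod p) V) (hZ : Z ≠ ⊥) :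
    p ∣ Nat.card Z := by
  have : Module.Finite (ZMod p) V := Module.Finite.of_finite
  have h := Module.natCard_eq_pow_finrank (K := ZMod p) (V := Z)
  rw [Nat.card_zmod] at h
  rw [h]
  apply dvd_pow_self
  intro h0
  exact hZ (Submodule.finrank_eq_zero.1 h0)

/-- a `p`-group has a nonzero fixed vector on a nonzero quotient -/
theorem exists_fix_mod [Fact p.Prime] [Finite G] {C : Subgroup G} (hC : IsPGroup p C)
    (W : Submodule (ZMod p) V) (hW : ∀ c ∈ C, ∀ w ∈ W, ρ c w ∈ W) (hne : W ≠ ⊤) :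
    ∃ v, v ∉ W ∧ ∀ c ∈ C, ρ c v - v ∈ W := by
  classical
  have hfq : Finite (V ⧸ W) := Finite.of_surjective _ W.mkQ_surjective
  let act : MulAction C (V ⧸ W) :=
    { smul := fun c => W.mapQ W (ρ c.1) (fun w hw => hW c.1 c.2 w hw)
      one_smul := by
        intro b
        obtain ⟨v, rfl⟩ := W.mkQ_surjective b
        change W.mapQ W (ρ 1) _ (W.mkQ v) = _
        simp
      mul_smul := by
        intro a c b
        obtain ⟨v, rfl⟩ := W.mkQ_surjective b
        change W.mapQ W (ρ (a.1 * c.1)) _ (W.mkQ v) = W.mapQ W (ρ a.1) _ (W.mapQ W (ρ c.1) _ (W.mkQ v))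
        simp }
  have hsm : ∀ (c : C) (v : V), c • (W.mkQ v) = W.mkQ (ρ c.1 v) := fun c v => rfl
  have hmod := hC.card_modEq_card_fixedPoints (V ⧸ W)
  have hp : p ∣ Nat.card (V ⧸ W) := by
    have : Module.Finite (ZMod p) V := Module.Finite.of_finite
    have h := Module.natCard_eq_pow_finrank (K := ZMod p) (V := V ⧸ W)
    rw [Nat.card_zmod] at h
    rw [h]
    apply dvd_pow_self
    intro h0
    have hs : Subsingleton (V ⧸ W) := Module.finrank_zero_iff.1 h0
    exact hne (Submodule.Quotient.subsingleton_iff.1 hs)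
  have hfix : p ∣ Nat.card (MulAction.fixedPoints C (V ⧸ W)) :=
    (Nat.modEq_zero_iff_dvd).1 (hmod.symm.trans ((Nat.modEq_zero_iff_dvd).2 hp))
  have h0 : (0 : V ⧸ W) ∈ MulAction.fixedPoints C (V ⧸ W) := by
    intro c
    have := hsm c 0
    rwa [map_zero, map_zero, map_zero] at this
  obtain ⟨b, hb⟩ : ∃ b : MulAction.fixedPoints C (V ⧸ W), b.1 ≠ 0 := by
    by_contra hcon
    push Not at hcon
    have h1 : Nat.card (MulAction.fixedPoints C (V ⧸ W)) = 1 := by
      rw [Nat.card_eq_one_iff_unique]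
      refine ⟨⟨fun a b => Subtype.ext ((hcon a).trans (hcon b).symm)⟩, ⟨⟨0, h0⟩⟩⟩
    rw [h1] at hfix
    exact (Fact.out : p.Prime).one_lt.ne' (Nat.dvd_one.1 hfix)
  obtain ⟨v, hv⟩ := W.mkQ_surjective b.1
  refine ⟨v, ?_, ?_⟩
  · intro hvW
    apply hb
    rw [← hv]
    exact (Submodule.Quotient.mk_eq_zero W).2 hvW
  · intro c hc
    have h1 := b.2 ⟨c, hc⟩
    rw [← hv, hsm] at h1
    exact (Submodule.Quotient.eq W).1 h1

/-- Thompson's `A × B` lemma for a perfect group. -/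
theorem perfect_AxB [Fact p.Prime] [Finite G] {C K : Subgroup G} (hC : IsPGroup p C) (hK : ⁅K, K⁆ = K)
    (hCK : ∀ c ∈ C, ∀ x ∈ K, c * x = x * c) (h : ∀ v ∈ fx ρ C, ∀ x ∈ K, ρ x v = v) :
    ∀ v, ∀ x ∈ K, ρ x v = v := by
  by_contra hcon
  have hne : fx ρ K ≠ ⊤ := by
    intro h1
    apply hcon
    intro v x hx
    have : v ∈ fx ρ K := h1 ▸ Submodule.mem_top
    exact this x hx
  have hinv : ∀ c ∈ C, ∀ w ∈ fx ρ K, ρ c w ∈ fx ρ K := by
    intro c hc w hw x hx
    rw [← mul_ap, ← hCK c hc x hx, mul_ap, hw x hx]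
  obtain ⟨v, hv, hv2⟩ := exists_fix_mod ρ hC (fx ρ K) hinv hne
  apply hv
  -- `(x - 1) v` is fixed by `C`
  have h1 : ∀ x ∈ K, ρ x v - v ∈ fx ρ C := by
    intro x hx c hc
    have h2 := hv2 c hc x hx
    -- ρ x (ρ c v - v) = ρ c v - v
    rw [map_sub, ← mul_ap, ← hCK c hc x hx, mul_ap] at h2
    rw [map_sub]
    -- h2 : ρ c (ρ x v) - ρ x v = ρ c v - v
    have h3 : ρ c (ρ x v) = ρ x v + (ρ c v - v) := by rw [← h2]; abel
    rw [h3]; abel
  exact perfect_quad ρ hK (fun x hx y hy => h _ (h1 y hy) x hx)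

/-- a `p`-group acting on `V` with `V = [V, A] + C_V(A)` acts trivially -/
theorem trivial_of_comm [Fact p.Prime] [Finite G] {A : Subgroup G} (hA : IsPGroup p A)
    (h : Submodule.span (ZMod p) {w : V | ∃ a ∈ A, ∃ v, w = ρ a v - v} ⊔ fx ρ A = ⊤) :
    fx ρ A = ⊤ := by
  classical
  by_contra hne
  -- a maximal proper invariant submodule over `fx ρ A`
  let 𝒮 : Set (Submodule (ZMod p) V) := {H | H ≠ ⊤ ∧ fx ρ A ≤ H ∧ ∀ a ∈ A, ∀ w ∈ H, ρ a w ∈ H}
  have hfin : 𝒮.Finite := Set.toFinite _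
  have hnon : 𝒮.Nonempty := ⟨fx ρ A, hne, le_refl _, fun a ha w hw => by rw [hw a ha]; exact hw⟩
  obtain ⟨H, hH⟩ := hfin.exists_maximal hnon
  obtain ⟨⟨hH1, hH2, hH3⟩, hmax⟩ := hH
  obtain ⟨v, hv, hv2⟩ := exists_fix_mod ρ hA H hH3 hH1
  have h1 : H ⊔ Submodule.span (ZMod p) {v} = ⊤ := by
    by_contra hcon
    have hmem : H ⊔ Submodule.span (ZMod p) {v} ∈ 𝒮 := by
      refine ⟨hcon, hH2.trans le_sup_left, ?_⟩
      intro a ha w hw
      obtain ⟨y, hy, z, hz, rfl⟩ := Submodule.mem_sup.1 hw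
      obtain ⟨c, rfl⟩ := Submodule.mem_span_singleton.1 hz
      rw [map_add, map_smul]
      have : ρ a y + c • ρ a v = (ρ a y + c • (ρ a v - v)) + c • v := by
        rw [smul_sub]; abel
      rw [this]
      apply Submodule.add_mem_sup
      · exact H.add_mem (hH3 a ha y hy) (H.smul_mem _ (hv2 a ha))
      · exact Submodule.smul_mem _ _ (Submodule.mem_span_singleton_self v)
    have := hmax hmem le_sup_left
    exact hv (this (Submodule.mem_sup_right (Submodule.mem_span_singleton_self v)))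
  apply hH1
  rw [eq_top_iff, ← h]
  apply sup_le _ hH2
  rw [Submodule.span_le]
  rintro w ⟨a, ha, x, rfl⟩
  have hx : x ∈ H ⊔ Submodule.span (ZMod p) {v} := h1 ▸ Submodule.mem_top
  obtain ⟨y, hy, z, hz, rfl⟩ := Submodule.mem_sup.1 hx
  obtain ⟨c, rfl⟩ := Submodule.mem_span_singleton.1 hz
  rw [map_add, map_smul]
  have : ρ a y + c • ρ a v - (y + c • v) = (ρ a y - y) + c • (ρ a v - v) := by
    rw [smul_sub]; abel
  rw [this]
  exact H.add_mem (H.sub_mem (hH3 a ha y hy) hy) (H.smul_mem _ (hv2 a ha))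

end finite

end Cfsg.Agent.H281.PGV
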