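import Cfsg.Agent.H281.PGV.CaseOne

set_option autoImplicit false
set_option linter.unusedSectionVars false

/-! # P(G,V): the case of a simple submodule invariant under the quadratic elements normalising `K` -/

namespace Cfsg.Agent.H281.PGV

universe u v

variable {p : ℕ} {G : Type u} {U : Type v} [Group G] [AddCommGroup U] [Module (ZMod p) U]
variable (ρ : Representation (ZMod p) G U) [Finite G] [Finite U]

theorem exists_three {B Q : Subgroup G} (hBQ : B ≤ Q) (h3 : 3 ≤ B.relIndex Q) :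
    ∃ s ∈ Q, ∃ t ∈ Q, s ∉ B ∧ t ∉ B ∧ s * t ∉ B := by
  have h1 : ¬ Q ≤ B := by
    intro h
    rw [Subgroup.relIndex_eq_one.2 h] at h3
    omega
  obtain ⟨s, hs, hsB⟩ := SetLike.not_le_iff_exists.1 h1
  by_contra hcon
  push Not at hcon
  have h2 : (Q : Set G) ⊆ (B : Set G) ∪ ((fun x => s⁻¹ * x) '' (B : Set G)) := by
    intro t ht
    by_cases htB : t ∈ B
    · exact Or.inl htB
    · exact Or.inr ⟨s * t, hcon s hs t ht hsB htB, by simp⟩
  have h4 := (Set.ncard_le_ncard h2 (Set.toFinite _)).trans (Set.ncard_union_le _ _)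
  have h5 := Set.ncard_image_le (f := fun x => s⁻¹ * x) (s := (B : Set G)) (Set.toFinite _)
  have h6 : Nat.card Q ≤ Nat.card B + Nat.card B := h4.trans (Nat.add_le_add_left h5 _)
  have h7 := card_relIndex hBQ
  have h8 : 3 * Nat.card B ≤ Nat.card Q := by
    rw [← h7]; exact Nat.mul_le_mul_right _ h3
  have h9 : 0 < Nat.card B := Nat.card_pos
  omega

theorem mem_norm_of_comm {K : Subgroup G} {c : G} (h : ∀ x ∈ K, c * x = x * c) :
    c ∈ Subgroup.normalizer (K : Set G) := by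
  rw [Subgroup.mem_normalizer_iff]
  intro x
  constructor
  · intro hx
    rw [h x hx, mul_inv_cancel_right]; exact hx
  · intro hx
    have h1 := h _ hx
    have h2 : x = c * x * c⁻¹ := by
      have h3 : c⁻¹ * (c * (c * x * c⁻¹)) * c = c⁻¹ * (c * x * c⁻¹ * c) * c := by rw [h1]
      have h4 : c⁻¹ * (c * (c * x * c⁻¹)) * c = c * x := by group
      have h5 : c⁻¹ * (c * x * c⁻¹ * c) * c = x * c := by group
      rw [h4, h5] at h3
      rw [h3, mul_inv_cancel_right]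
    rw [h2]; exact hx

theorem conj_commute {K A Q C : Subgroup G} (h : Cfg ρ K A Q C) {a₀ : G} (ha₀ : a₀ ∈ A)
    (ha₀K : a₀ ∉ Subgroup.normalizer (K : Set G)) {k : G} (hk : k ∈ K) :
    ∀ s ∈ Sg ρ K, ρ (a₀ * k * a₀⁻¹) * s = s * ρ (a₀ * k * a₀⁻¹) := by
  apply commute_Sg
  intro x hx
  rw [← map_mul, ← map_mul, (h.conj a₀ ha₀).resolve_left ha₀K k hk x hx]

theorem inv_fix {a : G} {u : U} (h : ρ a u = u) : ρ a⁻¹ u = u := by
  conv_lhs => rw [← h]
  exact inv_ap_ap ρ a u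

/-- the second count -/
theorem count2 [Fact p.Prime] {K A Q C : Subgroup G} (h : Cfg ρ K A Q C) (M : Submodule (SgT ρ K) U)
    [IsSimpleModule (SgT ρ K) M] (hM : ∃ x ∈ K, ∃ m ∈ M, ρ x m ≠ m)
    {u : U} (hu : u ∈ M) (hu0 : u ≠ 0) (huA : ∀ a ∈ A, ρ a u = u) {a₀ : G} (ha₀ : a₀ ∈ A)
    (ha₀K : a₀ ∉ Subgroup.normalizer (K : Set G))
    (hBM : ∀ b ∈ Q ⊓ Subgroup.normalizer (K : Set G), ∀ m ∈ M, ρ b m ∈ M) :
    Nat.card (fx ρ Q) * (Nat.card M * Nat.card M) ≤
      Nat.card U * (Nat.card ↥(fx ρ (Q ⊓ Subgroup.normalizer (K : Set G)) ⊓ toSub ρ M) *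
        Nat.card ↥(fx ρ Q ⊓ toSub ρ M)) := by
  classical
  set B := Q ⊓ Subgroup.normalizer (K : Set G) with hB
  set Mf := toSub ρ M with hMf
  set F := fx ρ Q with hF
  obtain ⟨k, hk, hku⟩ : ∃ k ∈ K, ρ (a₀ * k * a₀⁻¹) u ∉ M := by
    by_contra hcon
    push Not at hcon
    have hE : ∀ k ∈ K, ∃ e : Module.End (SgT ρ K) M, ∀ m : M, (e m : U) = ρ (a₀ * k * a₀⁻¹) m :=
      fun k hk => restr ρ M hu hu0 (conj_commute ρ h ha₀ ha₀K hk) (hcon k hk)
    apply hu0
    apply no_fix ρ M hM hu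
    apply perfect_fix ρ h.perf
    intro x hx y hy
    obtain ⟨e, he⟩ := hE x hx
    obtain ⟨f, hf⟩ := hE y hy
    have hid : ∀ x y : G, ρ x (ρ y u) = ρ a₀⁻¹ (ρ (a₀ * x * a₀⁻¹) (ρ (a₀ * y * a₀⁻¹) u)) := by
      intro x y
      rw [← mul_ap, ← mul_ap, ← mul_ap]
      have : a₀⁻¹ * (a₀ * x * a₀⁻¹) * (a₀ * y * a₀⁻¹) = x * y * a₀⁻¹ := by group
      rw [this, mul_ap ρ (x * y), inv_fix ρ (huA a₀ ha₀)]
    rw [hid x y, hid y x]
    have h1 : ρ (a₀ * x * a₀⁻¹) (ρ (a₀ * y * a₀⁻¹) u) = e (f ⟨u, hu⟩) := by rw [he, hf]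
    have h2 : ρ (a₀ * y * a₀⁻¹) (ρ (a₀ * x * a₀⁻¹) u) = f (e ⟨u, hu⟩) := by rw [hf, he]
    rw [h1, h2, end_comm_ap]
  set g := a₀ * k * a₀⁻¹ with hg
  have hgc : ∀ s ∈ Sg ρ K, ρ g * s = s * ρ g := conj_commute ρ h ha₀ ha₀K hk
  have hdisj : Mf ⊓ Mf.map (ρ g) = ⊥ := by
    rcases le_or_disj M (M.map (toLin ρ (ρ g) hgc)) with h1 | h1
    · exfalso
      apply hku
      have h2 : Mf ≤ Mf.map (ρ g) := h1
      have h3 : Mf = Mf.map (ρ g) := by
        apply eq_of_le_of_card h2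
        apply Nat.card_le_card_of_surjective (fun m : Mf => (⟨ρ g m, Submodule.mem_map_of_mem m.2⟩ : Mf.map (ρ g)))
        rintro ⟨_, m, hm, rfl⟩
        exact ⟨⟨m, hm⟩, rfl⟩
      have h4 : ρ g u ∈ Mf.map (ρ g) := Submodule.mem_map_of_mem hu
      rw [← h3] at h4
      exact h4
    · rw [eq_bot_iff]
      intro x hx
      have h2 : x ∈ M ⊓ M.map (toLin ρ (ρ g) hgc) := hx
      rw [h1] at h2
      exact h2
  -- the commutator
  have hT : ∀ b ∈ B, ∀ m ∈ M, ρ (b * g * b⁻¹) m - ρ g m ∈ M := by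
    intro b hb
    have hbc : b * a₀ = a₀ * b := h.comm b (h.QA hb.1) a₀ ha₀
    have hkb : b * k * b⁻¹ ∈ K := (Subgroup.mem_normalizer_iff.1 hb.2 k).1 hk
    have e1 : b * g * b⁻¹ = a₀ * (b * k * b⁻¹) * a₀⁻¹ := by
      have e2 : b⁻¹ * a₀ = a₀ * b⁻¹ := by
        rw [inv_mul_eq_iff_eq_mul, ← mul_assoc, hbc, mul_inv_cancel_right]
      have e3 : a₀⁻¹ * b⁻¹ = b⁻¹ * a₀⁻¹ := by rw [← mul_inv_rev, ← mul_inv_rev, hbc]
      calc b * g * b⁻¹ = (b * a₀) * k * (a₀⁻¹ * b⁻¹) := by rw [hg]; group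
        _ = (a₀ * b) * k * (b⁻¹ * a₀⁻¹) := by rw [hbc, e3]
        _ = _ := by group
    have hTc : ∀ s ∈ Sg ρ K, (ρ (b * g * b⁻¹) - ρ g) * s = s * (ρ (b * g * b⁻¹) - ρ g) := by
      intro s hs
      rw [sub_mul, mul_sub, e1, conj_commute ρ h ha₀ ha₀K hkb s hs, hgc s hs]
    have hTu : (ρ (b * g * b⁻¹) - ρ g) u ∈ M := by
      have h1 : (ρ (b * g * b⁻¹) - ρ g) u = ρ b (ρ g u) - ρ g u := by
        rw [LinearMap.sub_apply, mul_ap, mul_ap, inv_fix ρ (huA b (h.QA hb.1))]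
      have h2 : ρ a₀⁻¹ ((ρ (b * g * b⁻¹) - ρ g) u) = (ρ (b * g * b⁻¹) - ρ g) u := by
        rw [h1]
        exact quad' ρ h hb.1 (inv_mem ha₀) _
      have h3 : ∀ x : G, ρ a₀⁻¹ (ρ (a₀ * x * a₀⁻¹) u) = ρ x u := by
        intro x
        rw [← mul_ap]
        have : a₀⁻¹ * (a₀ * x * a₀⁻¹) = x * a₀⁻¹ := by group
        rw [this, mul_ap, inv_fix ρ (huA a₀ ha₀)]
      rw [← h2, e1, LinearMap.sub_apply, map_sub, hg, h3, h3]
      exact M.sub_mem (rho_mem_of_mem ρ M hkb hu) (rho_mem_of_mem ρ M hk hu)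
    obtain ⟨e, he⟩ := restr ρ M hu hu0 hTc hTu
    intro m hm
    have := (e ⟨m, hm⟩).2
    rw [he] at this
    exact this
  set CM := fx ρ B ⊓ Mf with hCM
  set W := Mf ⊔ Mf.map (ρ g) with hW
  have hWF : F ⊓ W ≤ Mf ⊔ CM.map (ρ g) := by
    rintro w ⟨hwF, hwW⟩
    obtain ⟨m, hm, _, ⟨m', hm', rfl⟩, rfl⟩ := Submodule.mem_sup.1 hwW
    apply Submodule.add_mem_sup hm
    apply Submodule.mem_map_of_mem
    refine ⟨?_, hm'⟩
    intro b hb
    have h1 : ρ b (m + ρ g m') = m + ρ g m' := hwF b hb.1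
    have h2 : ρ b (ρ g m') = ρ (b * g * b⁻¹) (ρ b m') := by
      rw [← mul_ap, ← mul_ap, inv_mul_cancel_right]
    rw [map_add, h2] at h1
    have hbm' : ρ b m' ∈ M := hBM b hb m' hm'
    have h3 : ρ g (ρ b m' - m') = m - ρ b m - (ρ (b * g * b⁻¹) (ρ b m') - ρ g (ρ b m')) := by
      rw [map_sub]
      have : ρ (b * g * b⁻¹) (ρ b m') = m + ρ g m' - ρ b m := by rw [← h1]; abel
      rw [this]; abel
    have h4 : ρ g (ρ b m' - m') ∈ Mf ⊓ Mf.map (ρ g) := by
      constructor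
      · rw [h3]
        exact Mf.sub_mem (Mf.sub_mem hm (hBM b hb m hm)) (hT b hb _ hbm')
      · exact Submodule.mem_map_of_mem (Mf.sub_mem hbm' hm')
    rw [hdisj, Submodule.mem_bot] at h4
    have h5 : ρ b m' - m' = 0 := ap_inj ρ g (by rw [h4, map_zero])
    exact sub_eq_zero.1 h5
  have c1 := card_mod_le _ _ _ hWF
  have c2 := card_sup_mul F W
  have c3 := card_sup_mul Mf (Mf.map (ρ g))
  have c4 : ∀ Y : Submodule (ZMod p) U, Nat.card (Y.map (ρ g)) = Nat.card Y := fun Y =>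
    (Nat.card_congr (Submodule.equivMapOfInjective (ρ g) (fun a b hab => ap_inj ρ g hab) Y).toEquiv).symm
  rw [hdisj, c4, ← hW] at c3
  have c5 : Nat.card (⊥ : Submodule (ZMod p) U) = 1 := Nat.card_unique
  rw [c5, mul_one] at c3
  have c6 : Nat.card ↥(F ⊔ W) ≤ Nat.card U := Nat.card_le_card_of_injective Subtype.val Subtype.val_injective
  have c7 : Nat.card ↥(F ⊓ W ⊓ Mf) ≤ Nat.card ↥(F ⊓ Mf) := card_mono (inf_le_inf_right _ inf_le_left)
  rw [c4] at c1
  have c8 : Nat.card Mf = Nat.card M := rfl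
  calc Nat.card F * (Nat.card M * Nat.card M) = Nat.card F * Nat.card W := by rw [c3, c8]
    _ = Nat.card ↥(F ⊔ W) * Nat.card ↥(F ⊓ W) := c2.symm
    _ ≤ Nat.card U * (Nat.card CM * Nat.card ↥(F ⊓ Mf)) :=
      Nat.mul_le_mul c6 (c1.trans (Nat.mul_le_mul_left _ c7))

/-- a perfect group acts trivially on a module of order at most 4 -/
theorem small_trivial {K : Subgroup G} (hK : ⁅K, K⁆ = K) (Y : Submodule (ZMod p) U)
    (hY : ∀ x ∈ K, ∀ y ∈ Y, ρ x y ∈ Y) (h4 : Nat.card Y ≤ 4) : ∀ x ∈ K, ∀ y ∈ Y, ρ x y = y := by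
  let f : K →* Equiv.Perm Y :=
    { toFun := fun x =>
        { toFun := fun y => ⟨ρ x.1 y.1, hY _ x.2 _ y.2⟩
          invFun := fun y => ⟨ρ x.1⁻¹ y.1, hY _ (inv_mem x.2) _ y.2⟩
          left_inv := fun y => Subtype.ext (inv_ap_ap ρ x.1 y.1)
          right_inv := fun y => Subtype.ext (ap_inv_ap ρ x.1 y.1) }
      map_one' := by
        ext y
        exact one_ap ρ y.1
      map_mul' := by
        intro a b
        ext y
        exact mul_ap ρ a.1 b.1 y.1 }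
  intro x hx y hy
  have h1 := hom_trivial (comm_top hK) (perm_solvable h4) f ⟨x, hx⟩
  have h2 := Equiv.congr_fun h1 ⟨y, hy⟩
  exact congrArg Subtype.val h2

/-- **case (β1)** -/
theorem beta1 [Fact p.Prime] {K A Q C : Subgroup G} (h : Cfg ρ K A Q C) (M : Submodule (SgT ρ K) U)
    [IsSimpleModule (SgT ρ K) M] (hM : ∃ x ∈ K, ∃ m ∈ M, ρ x m ≠ m) {a₀ : G} (ha₀ : a₀ ∈ A)
    (ha₀K : a₀ ∉ Subgroup.normalizer (K : Set G))
    (hBM : ∀ b ∈ Q ⊓ Subgroup.normalizer (K : Set G), ∀ m ∈ M, ρ b m ∈ M)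
    {b₀ : G} (hb₀ : b₀ ∈ Q ⊓ Subgroup.normalizer (K : Set G)) (hb₀C : b₀ ∉ C) : False := by
  classical
  set B := Q ⊓ Subgroup.normalizer (K : Set G) with hB
  have hCB : C ≤ B := by
    intro c hc
    exact ⟨h.CQ hc, mem_norm_of_comm (h.cK c hc)⟩
  obtain ⟨m, hm, hne⟩ : ∃ m ∈ M, ρ b₀ m ≠ m := by
    by_contra hcon
    push Not at hcon
    exact hb₀C (h.faith b₀ hb₀.1 hb₀.2 (toSub ρ M) (fun x hx m hm => rho_mem_of_mem ρ M hx hm) hM hcon)
  set u := ρ b₀ m - m with hu_def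
  have hu0 : u ≠ 0 := sub_ne_zero.2 hne
  have hu : u ∈ M := M.sub_mem (hBM b₀ hb₀ m hm) hm
  have huA : ∀ a ∈ A, ρ a u = u := fun a ha => quad' ρ h hb₀.1 ha m
  by_cases h3 : 3 ≤ B.relIndex Q
  · obtain ⟨s, hs, t, ht, hsB, htB, hstB⟩ := exists_three (inf_le_left : B ≤ Q) h3
    apply hu0
    apply zero_of_J1 ρ h.perf M hM hu
    intro y x
    exact J1 ρ h hs ht (fun h' => hsB ⟨hs, h'⟩) (fun h' => htB ⟨ht, h'⟩)
      (fun h' => hstB ⟨mul_mem hs ht, h'⟩) (huA s (h.QA hs)) (huA t (h.QA ht)) y x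
  · have c1 := count1 ρ h M hM hu hu0 huA ha₀ ha₀K hBM
    have c2 := count2 ρ h M hM hu hu0 huA ha₀ ha₀K hBM
    rw [← hB] at c1 c2
    have c3 := h.off
    have c4 := card_relIndex hCB
    have c5 := card_relIndex (inf_le_left : B ≤ Q)
    have c6 : Nat.card M ≤ B.relIndex Q * Nat.card ↥(fx ρ Q ⊓ toSub ρ M) := by
      have hpos : 0 < Nat.card C * Nat.card (fx ρ Q) * Nat.card M :=
        Nat.mul_pos (Nat.mul_pos Nat.card_pos Nat.card_pos) Nat.card_pos
      apply Nat.le_of_mul_le_mul_right _ hpos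
      generalize Nat.card M = x1 at *
      generalize Nat.card (fx ρ Q) = x2 at *
      generalize Nat.card ↥(fx ρ B ⊓ toSub ρ M) = x3 at *
      generalize Nat.card ↥(fx ρ Q ⊓ toSub ρ M) = x4 at *
      generalize Nat.card C = x5 at *
      generalize Nat.card U = x6 at *
      generalize Nat.card Q = x7 at *
      generalize Nat.card B = x8 at *
      generalize B.relIndex Q = x9 at *
      generalize C.relIndex B = x10 at *
      calc x1 * (x5 * x2 * x1) = x5 * (x2 * (x1 * x1)) := by ring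
        _ ≤ x5 * (x6 * (x3 * x4)) := Nat.mul_le_mul_left _ c2
        _ = (x5 * x6) * (x3 * x4) := by ring
        _ ≤ (x7 * x2) * (x3 * x4) := Nat.mul_le_mul_right _ c3
        _ = (x10 * x3) * (x9 * x5 * x2 * x4) := by rw [← c5, ← c4]; ring
        _ ≤ x1 * (x9 * x5 * x2 * x4) := Nat.mul_le_mul_right _ c1
        _ = _ := by ring
    have hrpos : B.relIndex Q ≠ 0 := by
      intro h0
      rw [h0, zero_mul] at c5
      exact (Nat.card_pos (α := Q)).ne c5
    by_cases h1 : B.relIndex Q = 1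
    · -- `M ≤ fx Q`
      rw [h1, one_mul] at c6
      have h2 : fx ρ Q ⊓ toSub ρ M = toSub ρ M := eq_of_le_of_card inf_le_right c6
      have h4 : m ∈ fx ρ Q ⊓ toSub ρ M := by rw [h2]; exact hm
      exact hne (h4.1 b₀ hb₀.1)
    · have h2 : B.relIndex Q = 2 := by omega
      obtain ⟨a, haQ, haB⟩ : ∃ a ∈ Q, a ∉ B := by
        by_contra hcon
        push Not at hcon
        exact h1 (Subgroup.relIndex_eq_one.2 hcon)
      have haN : a ∉ Subgroup.normalizer (K : Set G) := fun h' => haB ⟨haQ, h'⟩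
      have hfE : Finite (Module.End (SgT ρ K) M) := DFunLike.finite _
      have c7 : Nat.card ↥(fx ρ Q ⊓ toSub ρ M) ≤ Nat.card (Module.End (SgT ρ K) M) := by
        have hex : ∀ z : ↥(fx ρ Q ⊓ toSub ρ M), ∃ e : Module.End (SgT ρ K) M, (e ⟨u, hu⟩ : U) = z :=
          fun z => fix_in_Eu ρ M hu hu0 ((h.conj a (h.QA haQ)).resolve_left haN)
            (huA a (h.QA haQ)) z.2.2 (z.2.1 a haQ)
        choose f hf using hex
        apply Nat.card_le_card_of_injective f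
        intro z z' hzz
        apply Subtype.ext
        rw [← hf z, ← hf z', hzz]
      have c8 : Nat.card (Module.End (SgT ρ K) M) * Nat.card (Module.End (SgT ρ K) M) ≤ Nat.card M := by
        obtain ⟨w, hw⟩ := exists_not_Eu ρ h.perf M hM hu hu0
        rw [← Nat.card_prod]
        apply Nat.card_le_card_of_injective
          (fun ef : Module.End (SgT ρ K) M × Module.End (SgT ρ K) M => ef.1 ⟨u, hu⟩ + ef.2 w)
        rintro ⟨e, f⟩ ⟨e', f'⟩ heq
        simp only at heq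
        have hff : f = f' := by
          by_contra hff
          obtain ⟨g, hg, _⟩ := end_surj (sub_ne_zero.2 hff)
          apply hw (g * (e' - e))
          have k1 : (e' - e) ⟨u, hu⟩ = (f - f') w := by
            rw [LinearMap.sub_apply, LinearMap.sub_apply, sub_eq_sub_iff_add_eq_add, ← heq, add_comm]
          have k2 : g ((f - f') w) = w := LinearMap.congr_fun hg w
          change g ((e' - e) ⟨u, hu⟩) = w
          rw [k1, k2]
        subst hff
        have k3 : e ⟨u, hu⟩ = e' ⟨u, hu⟩ := add_right_cancel heq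
        have k4 : e = e' := by
          by_contra hee
          obtain ⟨g, hg, _⟩ := end_surj (sub_ne_zero.2 hee)
          have k5 : g ((e - e') ⟨u, hu⟩) = ⟨u, hu⟩ := LinearMap.congr_fun hg _
          rw [LinearMap.sub_apply, k3, sub_self, map_zero] at k5
          exact hu0 (congrArg Subtype.val k5.symm)
        rw [k4]
      have c9 : Nat.card (Module.End (SgT ρ K) M) ≤ 2 := by
        rw [h2] at c6
        have hpos : 0 < Nat.card (Module.End (SgT ρ K) M) := Nat.card_pos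
        apply Nat.le_of_mul_le_mul_right _ hpos
        exact c8.trans (c6.trans (Nat.mul_le_mul_left _ c7))
      have c10 : Nat.card M ≤ 4 := by
        rw [h2] at c6
        refine c6.trans ?_
        have := c7.trans c9
        omega
      obtain ⟨x, hx, m', hm', hne'⟩ := hM
      exact hne' (small_trivial ρ h.perf (toSub ρ M) (fun x hx m hm => rho_mem_of_mem ρ M hx hm)
        c10 x hx m' hm')

end Cfsg.Agent.H281.PGV
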