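import Cfsg.Agent.H281.PGV.BetaOne

set_option autoImplicit false
set_option linter.unusedSectionVars false

/-! # P(G,V): the case of non-isomorphic conjugate submodules -/

namespace Cfsg.Agent.H281.PGV

universe u v

section generic

variable {R : Type*} [Ring R] {U : Type*} [AddCommGroup U] [Module R U]

theorem no_ann (M N : Submodule R U) [IsSimpleModule R M] [IsSimpleModule R N]
    (hn : ¬ Nonempty (M ≃ₗ[R] N)) {z w : U} (hz : z ∈ M) (hz0 : z ≠ 0) (hw : w ∈ N) (hw0 : w ≠ 0) :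
    ∃ y : R, y • z = 0 ∧ y • w ≠ 0 := by
  by_contra hcon
  push Not at hcon
  obtain ⟨φ, hφ⟩ := exists_hom (R := R) (M := M) (N := N) ⟨z, hz⟩ (fun m => by
    obtain ⟨s, hs⟩ := exists_smul_eq M hz hz0 m.2
    exact ⟨s, Subtype.ext hs⟩) ⟨w, hw⟩ (fun y hy => Subtype.ext (hcon y (congrArg Subtype.val hy)))
  have hne : φ ≠ 0 := by
    intro h0
    have := hφ 1
    rw [h0, LinearMap.zero_apply, one_smul] at this
    exact hw0 (congrArg Subtype.val this.symm)
  exact hn ⟨LinearEquiv.ofBijective φ (LinearMap.bijective_of_ne_zero hne)⟩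

theorem disj_of_not_iso (M N : Submodule R U) [IsSimpleModule R M] [IsSimpleModule R N]
    (hn : ¬ Nonempty (M ≃ₗ[R] N)) : M ⊓ N = ⊥ := by
  rcases le_or_disj M N with h | h
  · exfalso
    have hN : IsAtom N := isSimpleModule_iff_isAtom.1 inferInstance
    have hM : IsAtom M := isSimpleModule_iff_isAtom.1 inferInstance
    rcases hN.le_iff.1 h with h1 | h1
    · exact hM.1 h1
    · subst h1
      exact hn ⟨LinearEquiv.refl R M⟩
  · exact h

/-- a simple submodule of `M ⊕ N`, `M` and `N` simple and not isomorphic -/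
theorem simple_le (M N X : Submodule R U) [IsSimpleModule R M] [IsSimpleModule R N] [IsSimpleModule R X]
    (hn : ¬ Nonempty (M ≃ₗ[R] N)) (hX : X ≤ M ⊔ N) : X ≤ M ∨ X ≤ N := by
  have hn' : ¬ Nonempty (N ≃ₗ[R] M) := fun ⟨e⟩ => hn ⟨e.symm⟩
  have hXa : IsAtom X := isSimpleModule_iff_isAtom.1 inferInstance
  obtain ⟨x, hx, hx0⟩ := (Submodule.ne_bot_iff X).1 hXa.1
  obtain ⟨m, hm, n, hnN, hmn⟩ := Submodule.mem_sup.1 (hX hx)
  have key : ∀ Y : Submodule R U, ∀ y ∈ X, y ∈ Y → y ≠ 0 → X ≤ Y := by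
    intro Y y hyX hyY hy0
    rcases le_or_disj X Y with h | h
    · exact h
    · exfalso
      have : y ∈ X ⊓ Y := ⟨hyX, hyY⟩
      rw [h] at this
      exact hy0 ((Submodule.mem_bot _).1 this)
  by_cases hm0 : m = 0
  · right
    rw [hm0, zero_add] at hmn
    exact key N x hx (hmn ▸ hnN) hx0
  by_cases hn0 : n = 0
  · left
    rw [hn0, add_zero] at hmn
    exact key M x hx (hmn ▸ hm) hx0
  obtain ⟨y, hy1, hy2⟩ := no_ann M N hn hm hm0 hnN hn0
  right
  apply key N (y • x) (X.smul_mem _ hx)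
  · rw [← hmn, smul_add, hy1, zero_add]; exact N.smul_mem _ hnN
  · rw [← hmn, smul_add, hy1, zero_add]; exact hy2

end generic

variable {p : ℕ} {G : Type u} {U : Type v} [Group G] [AddCommGroup U] [Module (ZMod p) U]
variable (ρ : Representation (ZMod p) G U)

/-- the conjugate of a submodule -/
def tw {K : Subgroup G} (b : G) (hb : b ∈ Subgroup.normalizer (K : Set G))
    (M : Submodule (SgT ρ K) U) : Submodule (SgT ρ K) U :=
  ofInv ρ ((toSub ρ M).map (ρ b)) (by
    rintro x hx _ ⟨m, hm, rfl⟩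
    have h1 : b⁻¹ * x * b ∈ K := by
      have := (Subgroup.mem_normalizer_iff.1 (inv_mem hb) x).1 hx
      rwa [inv_inv] at this
    refine ⟨ρ (b⁻¹ * x * b) m, rho_mem_of_mem ρ M h1 hm, ?_⟩
    rw [← mul_ap, ← mul_ap]
    congr 2
    group)

theorem mem_tw {K : Subgroup G} {b : G} {hb : b ∈ Subgroup.normalizer (K : Set G)}
    {M : Submodule (SgT ρ K) U} {y : U} : y ∈ tw ρ b hb M ↔ ∃ m ∈ M, ρ b m = y := Iff.rfl

theorem tw_mono {K : Subgroup G} {b : G} {hb : b ∈ Subgroup.normalizer (K : Set G)}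
    {M N : Submodule (SgT ρ K) U} (h : M ≤ N) : tw ρ b hb M ≤ tw ρ b hb N := by
  rintro _ ⟨m, hm, rfl⟩
  exact ⟨m, h hm, rfl⟩

theorem tw_tw {K : Subgroup G} {b c : G} {hb : b ∈ Subgroup.normalizer (K : Set G)}
    {hc : c ∈ Subgroup.normalizer (K : Set G)} (M : Submodule (SgT ρ K) U) :
    tw ρ b hb (tw ρ c hc M) = tw ρ (b * c) (mul_mem hb hc) M := by
  ext y
  constructor
  · rintro ⟨_, ⟨m, hm, rfl⟩, rfl⟩
    exact ⟨m, hm, mul_ap ρ b c m⟩
  · rintro ⟨m, hm, rfl⟩
    exact ⟨ρ c m, ⟨m, hm, rfl⟩, (mul_ap ρ b c m).symm⟩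

theorem tw_one {K : Subgroup G} (M : Submodule (SgT ρ K) U) (h1 : (1 : G) ∈ Subgroup.normalizer (K : Set G)) :
    tw ρ 1 h1 M = M := by
  ext y
  constructor
  · rintro ⟨m, hm, rfl⟩
    rw [one_ap]; exact hm
  · intro hy
    exact ⟨y, hy, one_ap ρ y⟩

/-- the twist as an order isomorphism -/
def twIso {K : Subgroup G} (b : G) (hb : b ∈ Subgroup.normalizer (K : Set G)) :
    Submodule (SgT ρ K) U ≃o Submodule (SgT ρ K) U where
  toFun := tw ρ b hb
  invFun := tw ρ b⁻¹ (inv_mem hb)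
  left_inv := fun M => by
    rw [tw_tw]
    simp only [inv_mul_cancel]
    exact tw_one ρ M _
  right_inv := fun M => by
    rw [tw_tw]
    simp only [mul_inv_cancel]
    exact tw_one ρ M _
  map_rel_iff' := by
    intro M N
    constructor
    · intro h m hm
      obtain ⟨n, hn, hmn⟩ := h ⟨m, hm, rfl⟩
      rw [← ap_inj ρ b hmn]; exact hn
    · intro h; exact tw_mono ρ (hb := hb) h

theorem tw_simple {K : Subgroup G} (b : G) (hb : b ∈ Subgroup.normalizer (K : Set G))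
    (M : Submodule (SgT ρ K) U) [hM : IsSimpleModule (SgT ρ K) M] :
    IsSimpleModule (SgT ρ K) (tw ρ b hb M) := by
  rw [isSimpleModule_iff_isAtom] at hM ⊢
  exact ((twIso ρ b hb).isAtom_iff M).2 hM

variable [Finite G] [Finite U]

/-- **case (β2)** -/
theorem beta2 [Fact p.Prime] {K A Q C : Subgroup G} (h : Cfg ρ K A Q C) (M : Submodule (SgT ρ K) U)
    [IsSimpleModule (SgT ρ K) M] (hM : ∃ x ∈ K, ∃ m ∈ M, ρ x m ≠ m)
    {b : G} (hb : b ∈ Q ⊓ Subgroup.normalizer (K : Set G))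
    (hn : ¬ Nonempty (M ≃ₗ[SgT ρ K] tw ρ b hb.2 M)) : False := by
  classical
  have hNs : IsSimpleModule (SgT ρ K) (tw ρ b hb.2 M) := tw_simple ρ b hb.2 M
  set N := tw ρ b hb.2 M with hN
  have hn' : ¬ Nonempty (N ≃ₗ[SgT ρ K] M) := fun ⟨e⟩ => hn ⟨e.symm⟩
  have hMa : IsAtom M := isSimpleModule_iff_isAtom.1 inferInstance
  obtain ⟨z, hz, hz0⟩ := (Submodule.ne_bot_iff M).1 hMa.1
  set w := ρ b z with hw_def
  have hw : w ∈ N := ⟨z, hz, rfl⟩
  have hw0 : w ≠ 0 := fun h0 => hz0 (ap_inj ρ b (by rw [← hw_def, h0, map_zero]))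
  have hdisj : M ⊓ N = ⊥ := disj_of_not_iso M N hn
  have hzero : ∀ x, x ∈ M → x ∈ N → x = 0 := by
    intro x h1 h2
    have : x ∈ M ⊓ N := ⟨h1, h2⟩
    rw [hdisj] at this
    exact (Submodule.mem_bot _).1 this
  set u := w - z with hu_def
  have huA : ∀ a ∈ A, ρ a u = u := fun a ha => quad' ρ h hb.1 ha z
  set B := Q ⊓ Subgroup.normalizer (K : Set G) with hB
  -- elements preserving `M`
  have hfixM : ∀ b' ∈ B, (∀ m ∈ M, ρ b' m ∈ M) → b' ∈ C := by
    intro b' hb' hb'M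
    apply h.faith b' hb'.1 hb'.2 (toSub ρ M) (fun x hx m hm => rho_mem_of_mem ρ M hx hm) hM
    intro m hm
    have h1 : ρ b' (ρ b m - m) = ρ b m - m := quad' ρ h hb.1 (h.QA hb'.1) m
    rw [map_sub, ← mul_ap, h.comm b' (h.QA hb'.1) b (h.QA hb.1), mul_ap] at h1
    have h2 : ρ b (ρ b' m) - ρ b m = ρ b' m - m := by
      rw [sub_eq_sub_iff_add_eq_add] at h1 ⊢
      rw [h1, add_comm]
    have h3 : ρ b' m - m = 0 := by
      apply hzero
      · exact M.sub_mem (hb'M m hm) hm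
      · rw [← h2, ← map_sub]
        exact ⟨ρ b' m - m, M.sub_mem (hb'M m hm) hm, rfl⟩
    exact sub_eq_zero.1 h3
  -- generation
  have hgenM : ∀ m ∈ M, ∃ s : SgT ρ K, s • u = m := by
    intro m hm
    obtain ⟨y, hy1, hy2⟩ := no_ann N M hn' hw hw0 hz hz0
    have h1 : y • u = -(y • z) := by rw [hu_def, smul_sub, hy1, zero_sub]
    obtain ⟨s, hs⟩ := exists_smul_eq M (M.neg_mem (M.smul_mem y hz)) (neg_ne_zero.2 hy2) hm
    exact ⟨s * y, by rw [mul_smul, h1, hs]⟩
  have htwle : ∀ b' (hb' : b' ∈ B), tw ρ b' hb'.2 M ≤ M ⊔ N := by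
    rintro b' hb' _ ⟨m, hm, rfl⟩
    obtain ⟨s, rfl⟩ := hgenM m hm
    have hs := conj_Sg ρ hb'.2 (s.op ρ) s.op_mem
    have h1 : ρ b' (s • u) = SgT.mk ρ _ hs • u := by
      rw [SgT.mk_smul, SgT.smul_def]
      change ρ b' (s.op ρ u) = ρ b' (s.op ρ (ρ b'⁻¹ u))
      rw [inv_fix ρ (huA b' (h.QA hb'.1))]
    rw [h1]
    apply Submodule.smul_mem
    rw [hu_def]
    exact Submodule.sub_mem _ (Submodule.mem_sup_right hw) (Submodule.mem_sup_left hz)
  have hdich : ∀ b' ∈ B, b' ∈ C ∨ b⁻¹ * b' ∈ C := by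
    intro b' hb'
    have hXs : IsSimpleModule (SgT ρ K) (tw ρ b' hb'.2 M) := tw_simple ρ b' hb'.2 M
    rcases simple_le M N (tw ρ b' hb'.2 M) hn (htwle b' hb') with h1 | h1
    · left
      exact hfixM b' hb' (fun m hm => h1 ⟨m, hm, rfl⟩)
    · right
      apply hfixM _ (mul_mem (inv_mem hb) hb')
      intro m hm
      obtain ⟨m', hm', he⟩ : ρ b' m ∈ N := h1 ⟨m, hm, rfl⟩
      rw [mul_ap, ← he, inv_ap_ap]
      exact hm'
  have hrel : C.relIndex B ≤ 2 := by
    have h1 := relIndex_le_of_fib (B := B) (C := C) (fun b' => decide (b' ∈ C)) (by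
      intro b' hb' b'' hb'' heq
      by_cases h1 : b' ∈ C
      · have h2 : b'' ∈ C := by
          simp only [h1, decide_true] at heq
          exact of_decide_eq_true heq.symm
        exact mul_mem (inv_mem h1) h2
      · have h2 : b'' ∉ C := by
          simp only [h1, decide_false] at heq
          exact of_decide_eq_false heq.symm
        have h3 := (hdich b' hb').resolve_left h1
        have h4 := (hdich b'' hb'').resolve_left h2
        have h5 : b'⁻¹ * b'' = (b⁻¹ * b')⁻¹ * (b⁻¹ * b'') := by group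
        rw [h5]
        exact mul_mem (inv_mem h3) h4)
    rwa [Nat.card_eq_fintype_card, Fintype.card_bool] at h1
  by_cases h3 : 3 ≤ B.relIndex Q
  · obtain ⟨s, hs, t, ht, hsB, htB, hstB⟩ := exists_three (inf_le_left : B ≤ Q) h3
    have hJ : ∀ y x : SgT ρ K, y • u = 0 → y • x • u = 0 := by
      intro y x
      exact J1 ρ h hs ht (fun h' => hsB ⟨hs, h'⟩) (fun h' => htB ⟨ht, h'⟩)
        (fun h' => hstB ⟨mul_mem hs ht, h'⟩) (huA s (h.QA hs)) (huA t (h.QA ht)) y x
    have hJ' : ∀ y x : SgT ρ K, y • u = 0 → y • x • z = 0 := by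
      intro y x hy
      have h1 := hJ y x hy
      rw [hu_def, smul_sub, smul_sub, sub_eq_zero] at h1
      apply hzero
      · exact M.smul_mem _ (M.smul_mem _ hz)
      · rw [← h1]; exact N.smul_mem _ (N.smul_mem _ hw)
    obtain ⟨y₀, hy1, hy2⟩ := no_ann N M hn' hw hw0 hz hz0
    obtain ⟨y₁, hy₁⟩ := exists_smul_eq M (M.smul_mem y₀ hz) hy2 hz
    set e := y₁ * y₀ with he
    have hez : e • z = z := by rw [he, mul_smul, hy₁]
    have hew : e • w = 0 := by rw [he, mul_smul, hy1, smul_zero]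
    have h1e : ∀ x : SgT ρ K, e • x • z = x • z := by
      intro x
      by_contra hne
      have h5 : (1 - e) • x • z ≠ 0 := by
        rw [sub_smul, one_smul]
        exact sub_ne_zero.2 (Ne.symm hne)
      obtain ⟨f, hf1, hf2⟩ := no_ann N M hn' hw hw0 (M.smul_mem (1 - e) (M.smul_mem x hz)) h5
      apply hf2
      rw [← mul_smul f (1 - e)]
      apply hJ'
      rw [mul_smul, hu_def, smul_sub, sub_smul, sub_smul, one_smul, one_smul, hez, hew, sub_self,
        sub_zero, sub_zero, hf1]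
    apply hz0
    apply zero_of_J1 ρ h.perf M hM hz
    intro y x hy
    have h6 : (y * e) • u = 0 := by
      rw [mul_smul, hu_def, smul_sub, hez, hew, zero_sub, smul_neg, hy, neg_zero]
    have h7 := hJ' _ x h6
    rwa [mul_smul, h1e] at h7
  · -- the small case
    have hMF : toSub ρ M ⊓ fx ρ Q = ⊥ := by
      rw [eq_bot_iff]
      rintro x ⟨h1, h2⟩
      have h4 : ρ b x = x := h2 b hb.1
      exact hzero x h1 (h4 ▸ ⟨x, h1, rfl⟩)
    have hCB : C ≤ B := fun c hc => ⟨h.CQ hc, mem_norm_of_comm (h.cK c hc)⟩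
    have c1 := card_sup_mul (toSub ρ M) (fx ρ Q)
    have c2 : Nat.card (⊥ : Submodule (ZMod p) U) = 1 := Nat.card_unique
    rw [hMF, c2, mul_one] at c1
    have c3 : Nat.card ↥(toSub ρ M ⊔ fx ρ Q) ≤ Nat.card U :=
      Nat.card_le_card_of_injective Subtype.val Subtype.val_injective
    rw [c1] at c3
    have c4 := h.off
    have c5 := card_relIndex hCB
    have c6 := card_relIndex (inf_le_left : B ≤ Q)
    have c7 : Nat.card (toSub ρ M) ≤ 4 := by
      have hpos : 0 < Nat.card C * Nat.card (fx ρ Q) := Nat.mul_pos Nat.card_pos Nat.card_pos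
      apply Nat.le_of_mul_le_mul_right _ hpos
      calc Nat.card (toSub ρ M) * (Nat.card C * Nat.card (fx ρ Q)) =
          Nat.card C * (Nat.card (toSub ρ M) * Nat.card (fx ρ Q)) := by ring
        _ ≤ Nat.card C * Nat.card U := Nat.mul_le_mul_left _ c3
        _ ≤ Nat.card Q * Nat.card (fx ρ Q) := c4
        _ = (B.relIndex Q * C.relIndex B) * (Nat.card C * Nat.card (fx ρ Q)) := by
          rw [← c6, ← c5]; ring
        _ ≤ (2 * 2) * (Nat.card C * Nat.card (fx ρ Q)) :=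
          Nat.mul_le_mul_right _ (Nat.mul_le_mul (by omega) hrel)
        _ = _ := by norm_num
    obtain ⟨x, hx, m', hm', hne'⟩ := hM
    exact hne' (small_trivial ρ h.perf (toSub ρ M) (fun x hx m hm => rho_mem_of_mem ρ M hx hm)
      c7 x hx m' hm')

end Cfsg.Agent.H281.PGV
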