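import Cfsg.Agent.H281.PGV.Env

set_option autoImplicit false
set_option linter.unusedSectionVars false

/-! # P(G,V): quadratic elements normalising `K` -/

namespace Cfsg.Agent.H281.PGV

universe u v

variable {p : ℕ} {G : Type u} {U : Type v} [Group G] [AddCommGroup U] [Module (ZMod p) U]
variable (ρ : Representation (ZMod p) G U)

theorem quad' {K A Q C : Subgroup G} (h : Cfg ρ K A Q C) {b a : G} (hb : b ∈ Q) (ha : a ∈ A) (v : U) :
    ρ a (ρ b v - v) = ρ b v - v := by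
  have h1 := h.quad b hb a ha v
  rw [map_sub, ← mul_ap] at h1 ⊢
  rw [h.comm a ha b (h.QA hb)]
  rw [sub_eq_sub_iff_add_eq_add] at h1 ⊢
  rw [add_comm (ρ (b * a) v), add_comm v] at *
  rw [h1, add_comm]

variable [Finite G] [Finite U]

/-- the annihilator of a vector fixed by three non-normalising elements is two-sided -/
theorem J1 {K A Q C : Subgroup G} (h : Cfg ρ K A Q C) {s t : G} (hs : s ∈ Q) (ht : t ∈ Q)
    (hs' : s ∉ Subgroup.normalizer (K : Set G)) (ht' : t ∉ Subgroup.normalizer (K : Set G))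
    (hst : s * t ∉ Subgroup.normalizer (K : Set G)) {u : U} (hus : ρ s u = u) (hut : ρ t u = u)
    (y x : SgT ρ K) (hy : y • u = 0) : y • x • u = 0 := by
  have hyS := y.op_mem
  have hxS := x.op_mem
  rw [SgT.smul_def] at hy ⊢
  rw [SgT.smul_def]
  generalize y.op ρ = y at *
  generalize x.op ρ = x at *
  have hinv : ∀ {a : G}, ρ a u = u → ρ a⁻¹ u = u := by
    intro a ha
    conv_lhs => rw [← ha]
    exact inv_ap_ap ρ a u
  have hust : ρ (s * t) u = u := by rw [mul_ap, hut, hus]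
  have key : ∀ a ∈ A, a ∉ Subgroup.normalizer (K : Set G) → ρ a u = u → y (ρ a (x u)) = 0 := by
    intro a ha haN hau
    have h1 := conj_comm ρ ((h.conj a ha).resolve_left haN) x hxS y hyS
    have h2 := LinearMap.congr_fun h1 u
    change ρ a (x (ρ a⁻¹ (y u))) = y (ρ a (x (ρ a⁻¹ u))) at h2
    rw [hinv hau, hy, map_zero, map_zero, map_zero] at h2
    exact h2.symm
  have k1 := key s (h.QA hs) hs' hus
  have k2 := key t (h.QA ht) ht' hut
  have k3 := key (s * t) (h.QA (mul_mem hs ht)) hst hust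
  -- (s - 1)(t - 1) x u = 0
  have h3 := h.quad s hs t (h.QA ht) (x u)
  rw [map_sub, ← mul_ap] at h3
  have h4 : x u = ρ s (x u) + ρ t (x u) - ρ (s * t) (x u) := by
    have : ρ (s * t) (x u) = ρ t (x u) - x u + ρ s (x u) := by rw [← h3]; abel
    rw [this]; abel
  rw [h4, map_sub, map_add, k1, k2, k3]
  simp

/-- a vector of a simple nontrivial module with the two-sided annihilator property vanishes -/
theorem zero_of_J1 {K : Subgroup G} (hK : ⁅K, K⁆ = K) (M : Submodule (SgT ρ K) U)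
    [IsSimpleModule (SgT ρ K) M] (hM : ∃ x ∈ K, ∃ m ∈ M, ρ x m ≠ m) {u : U} (hu : u ∈ M)
    (hJ : ∀ y x : SgT ρ K, y • u = 0 → y • x • u = 0) : u = 0 := by
  by_contra hu0
  apply hu0
  apply no_fix ρ M hM hu
  apply perfect_fix ρ hK
  intro x hx y hy
  exact comm_of_J1 M hu hu0 hJ (SgT.mk ρ (ρ x) (rho_mem ρ hx)) (SgT.mk ρ (ρ y) (rho_mem ρ hy))

theorem fix_in_Eu {K : Subgroup G} (M : Submodule (SgT ρ K) U) [IsSimpleModule (SgT ρ K) M]
    {u : U} (hu : u ∈ M) (hu0 : u ≠ 0) {a : G}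
    (ha : ∀ x ∈ K, ∀ y ∈ K, (a * x * a⁻¹) * y = y * (a * x * a⁻¹)) (hau : ρ a u = u) {z : U}
    (hz : z ∈ M) (haz : ρ a z = z) : ∃ e : Module.End (SgT ρ K) M, (e ⟨u, hu⟩ : U) = z := by
  obtain ⟨s', hsu⟩ := exists_smul_eq M hu hu0 hz
  have hs := s'.op_mem
  rw [SgT.smul_def] at hsu
  generalize s'.op ρ = s at *
  have hinv : ρ a⁻¹ u = u := by
    conv_lhs => rw [← hau]
    exact inv_ap_ap ρ a u
  have hTu : (ρ a * s * ρ a⁻¹) u = z := by
    change ρ a (s (ρ a⁻¹ u)) = z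
    rw [hinv, hsu, haz]
  obtain ⟨e, he⟩ := restr ρ M hu hu0 (T := ρ a * s * ρ a⁻¹)
    (fun t ht => conj_comm ρ ha s hs t ht) (by rw [hTu]; exact hz)
  exact ⟨e, by rw [he, hTu]⟩

theorem end_ap {K : Subgroup G} {M : Submodule (SgT ρ K) U} (e : Module.End (SgT ρ K) M)
    {s : Module.End (ZMod p) U} (hs : s ∈ Sg ρ K) (m : M) :
    (e ⟨s m.1, M.smul_mem (SgT.mk ρ s hs) m.2⟩ : U) = s (e m) :=
  congrArg Subtype.val (e.map_smul (SgT.mk ρ s hs) m)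

/-- `M ≠ E u` -/
theorem exists_not_Eu {K : Subgroup G} (hK : ⁅K, K⁆ = K) (M : Submodule (SgT ρ K) U)
    [IsSimpleModule (SgT ρ K) M] (hM : ∃ x ∈ K, ∃ m ∈ M, ρ x m ≠ m)
    {u : U} (hu : u ∈ M) (hu0 : u ≠ 0) :
    ∃ w : M, ∀ e : Module.End (SgT ρ K) M, e ⟨u, hu⟩ ≠ w := by
  by_contra hcon
  push Not at hcon
  apply hu0
  apply no_fix ρ M hM hu
  apply perfect_fix ρ hK
  intro x hx y hy
  obtain ⟨e, he⟩ := hcon ⟨ρ x u, rho_mem_of_mem ρ M hx hu⟩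
  obtain ⟨f, hf⟩ := hcon ⟨ρ y u, rho_mem_of_mem ρ M hy hu⟩
  have h1 : ρ x (ρ y u) = f (e ⟨u, hu⟩) := by
    rw [he]
    have h2 := end_ap ρ f (rho_mem ρ hx) ⟨u, hu⟩
    rw [hf] at h2
    exact h2.symm
  have h2 : ρ y (ρ x u) = e (f ⟨u, hu⟩) := by
    rw [hf]
    have h2 := end_ap ρ e (rho_mem ρ hy) ⟨u, hu⟩
    rw [he] at h2
    exact h2.symm
  rw [h1, h2]
  exact congrArg Subtype.val (end_comm_ap f e _)

/-- conjugation of endomorphisms -/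
theorem conj_end {K : Subgroup G} (M : Submodule (SgT ρ K) U) {b : G}
    (hb : b ∈ Subgroup.normalizer (K : Set G)) (hbM : ∀ m ∈ M, ρ b m ∈ M)
    (hbM' : ∀ m ∈ M, ρ b⁻¹ m ∈ M) (e : Module.End (SgT ρ K) M) :
    ∃ e' : Module.End (SgT ρ K) M, ∀ m : M, (e' m : U) = ρ b (e ⟨ρ b⁻¹ m.1, hbM' _ m.2⟩) := by
  refine ⟨{ toFun := fun m => ⟨ρ b (e ⟨ρ b⁻¹ m.1, hbM' _ m.2⟩), hbM _ (e _).2⟩
            map_add' := ?_
            map_smul' := ?_ }, fun m => rfl⟩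
  · intro m n
    apply Subtype.ext
    change ρ b (e ⟨ρ b⁻¹ (m.1 + n.1), _⟩) = ρ b (e ⟨ρ b⁻¹ m.1, _⟩) + ρ b (e ⟨ρ b⁻¹ n.1, _⟩)
    have : (⟨ρ b⁻¹ (m.1 + n.1), hbM' _ (m + n).2⟩ : M) =
        ⟨ρ b⁻¹ m.1, hbM' _ m.2⟩ + ⟨ρ b⁻¹ n.1, hbM' _ n.2⟩ := Subtype.ext (map_add _ _ _)
    rw [this, map_add, Submodule.coe_add, map_add]
  · intro s' m
    have hs := s'.op_mem
    apply Subtype.ext
    change ρ b (e ⟨ρ b⁻¹ (s'.op ρ m.1), _⟩) = s'.op ρ (ρ b (e ⟨ρ b⁻¹ m.1, _⟩))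
    have hs' : ρ b⁻¹ * s'.op ρ * ρ b ∈ Sg ρ K := by
      have := conj_Sg ρ (inv_mem hb) _ hs
      rwa [inv_inv] at this
    have h1 := end_ap ρ e hs' ⟨ρ b⁻¹ m.1, hbM' _ m.2⟩
    have h2 : (ρ b⁻¹ * s'.op ρ * ρ b) (ρ b⁻¹ m.1) = ρ b⁻¹ (s'.op ρ m.1) := by
      change ρ b⁻¹ (s'.op ρ (ρ b (ρ b⁻¹ m.1))) = _
      rw [ap_inv_ap]
    simp only [h2] at h1
    rw [h1]
    change ρ b (ρ b⁻¹ (s'.op ρ (ρ b (e ⟨ρ b⁻¹ m.1, _⟩)))) = _
    rw [ap_inv_ap]

/-- elements of `B` act `E`-linearly -/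
theorem lin_end {K A Q C : Subgroup G} (h : Cfg ρ K A Q C) (M : Submodule (SgT ρ K) U)
    [IsSimpleModule (SgT ρ K) M] (hM : ∃ x ∈ K, ∃ m ∈ M, ρ x m ≠ m)
    {u : U} (hu : u ∈ M) (hu0 : u ≠ 0) (huA : ∀ a ∈ A, ρ a u = u) {a₀ : G} (ha₀ : a₀ ∈ A)
    (ha₀K : a₀ ∉ Subgroup.normalizer (K : Set G)) {b : G} (hbQ : b ∈ Q)
    (hb : b ∈ Subgroup.normalizer (K : Set G)) (hbM : ∀ m ∈ M, ρ b m ∈ M)
    (hbM' : ∀ m ∈ M, ρ b⁻¹ m ∈ M) (e : Module.End (SgT ρ K) M) (m : M) :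
    ρ b (e m) = e ⟨ρ b m, hbM m m.2⟩ := by
  obtain ⟨e', he'⟩ := conj_end ρ M hb hbM hbM' e
  obtain ⟨w, hw⟩ := exists_not_Eu ρ h.perf M hM hu hu0
  -- `(b - 1) n ∈ E u`
  have hEu : ∀ n : M, ∃ f : Module.End (SgT ρ K) M, (f ⟨u, hu⟩ : U) = ρ b n - n := by
    intro n
    exact fix_in_Eu ρ M hu hu0 ((h.conj a₀ ha₀).resolve_left ha₀K) (huA a₀ ha₀)
      (M.sub_mem (hbM n n.2) n.2) (quad' ρ h hbQ ha₀ n)
  have hee : e' = e := by
    by_contra hne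
    have hne' : e' - e ≠ 0 := sub_ne_zero.2 hne
    obtain ⟨g, hg, _⟩ := end_surj hne'
    obtain ⟨f₁, hf₁⟩ := hEu (e w)
    obtain ⟨f₂, hf₂⟩ := hEu w
    apply hw (g * (f₁ - e' * f₂))
    have h1 : (e' - e) w = (f₁ - e' * f₂) ⟨u, hu⟩ := by
      apply Subtype.ext
      have h3 := he' ⟨ρ b w, hbM w w.2⟩
      have h4 : (⟨ρ b⁻¹ (ρ b w), hbM' _ (hbM w w.2)⟩ : M) = w := Subtype.ext (inv_ap_ap ρ b w.1)
      simp only at h3
      rw [h4] at h3
      -- e' (b w) = b (e w)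
      have h5 : (f₂ ⟨u, hu⟩ : M) = ⟨ρ b w, hbM w w.2⟩ - w := Subtype.ext hf₂
      change (e' w : U) - (e w : U) = (f₁ ⟨u, hu⟩ : U) - (e' (f₂ ⟨u, hu⟩) : U)
      rw [h5, map_sub, Submodule.coe_sub, h3, hf₁]
      abel
    have h2 : g ((e' - e) w) = w := LinearMap.congr_fun hg w
    change g ((f₁ - e' * f₂) ⟨u, hu⟩) = w
    rw [← h1, h2]
  rw [hee] at he'
  have h3 := he' ⟨ρ b m, hbM m m.2⟩
  have h4 : (⟨ρ b⁻¹ (ρ b m), hbM' _ (hbM m m.2)⟩ : M) = m := Subtype.ext (inv_ap_ap ρ b m.1)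
  simp only at h3
  rw [h4] at h3
  exact h3.symm

/-- index bound from a map with small fibres -/
theorem relIndex_le_of_fib {B C : Subgroup G} {X : Type*} [Finite X] (f : G → X)
    (hf : ∀ b ∈ B, ∀ b' ∈ B, f b = f b' → b⁻¹ * b' ∈ C) : C.relIndex B ≤ Nat.card X := by
  apply Nat.card_le_card_of_injective (fun q : B ⧸ C.subgroupOf B => f q.out.1)
  intro q q' hqq
  rw [← QuotientGroup.out_eq' q, ← QuotientGroup.out_eq' q', QuotientGroup.eq]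
  exact hf _ q.out.2 _ q'.out.2 hqq

theorem card_dual [Fact p.Prime] (W : Type*) [AddCommGroup W] [Module (ZMod p) W] [Finite W] :
    Nat.card (Module.Dual (ZMod p) W) = Nat.card W := by
  have : Module.Finite (ZMod p) W := Module.Finite.of_finite
  rw [Module.natCard_eq_pow_finrank (K := ZMod p), Module.natCard_eq_pow_finrank (K := ZMod p) (V := W),
    Subspace.dual_finrank_eq]

theorem card_mod_le [Fact p.Prime] (W N Y : Submodule (ZMod p) U) (h : W ≤ N ⊔ Y) :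
    Nat.card W ≤ Nat.card Y * Nat.card ↥(W ⊓ N) := by
  have h1 := card_sup_mul W N
  have h2 := card_sup_mul N Y
  have h3 : Nat.card ↥(W ⊔ N) ≤ Nat.card ↥(N ⊔ Y) := card_mono (sup_le h le_sup_left)
  have h4 : Nat.card ↥(N ⊔ Y) ≤ Nat.card N * Nat.card Y := by
    rw [← h2]
    exact Nat.le_mul_of_pos_right _ Nat.card_pos
  have h5 : Nat.card W * Nat.card N ≤ (Nat.card N * Nat.card Y) * Nat.card ↥(W ⊓ N) := by
    rw [← h1]
    exact Nat.mul_le_mul_right _ (h3.trans h4)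
  apply Nat.le_of_mul_le_mul_right _ (Nat.card_pos (α := N))
  calc _ ≤ _ := h5
    _ = _ := by ring

/-- the first count -/
theorem count1 [Fact p.Prime] {K A Q C : Subgroup G} (h : Cfg ρ K A Q C) (M : Submodule (SgT ρ K) U)
    [IsSimpleModule (SgT ρ K) M] (hM : ∃ x ∈ K, ∃ m ∈ M, ρ x m ≠ m)
    {u : U} (hu : u ∈ M) (hu0 : u ≠ 0) (huA : ∀ a ∈ A, ρ a u = u) {a₀ : G} (ha₀ : a₀ ∈ A)
    (ha₀K : a₀ ∉ Subgroup.normalizer (K : Set G))
    (hBM : ∀ b ∈ Q ⊓ Subgroup.normalizer (K : Set G), ∀ m ∈ M, ρ b m ∈ M) :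
    C.relIndex (Q ⊓ Subgroup.normalizer (K : Set G)) *
      Nat.card ↥(fx ρ (Q ⊓ Subgroup.normalizer (K : Set G)) ⊓ toSub ρ M) ≤ Nat.card M := by
  classical
  set B := Q ⊓ Subgroup.normalizer (K : Set G) with hB
  set Mf := toSub ρ M with hMf
  set CM := (fx ρ B).submoduleOf Mf with hCM
  have hcm : Nat.card CM = Nat.card ↥(fx ρ B ⊓ Mf) := by
    have : Nat.card CM = Nat.card (CM.map Mf.subtype) :=
      Nat.card_congr (Submodule.equivMapOfInjective Mf.subtype Mf.subtype_injective CM).toEquiv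
    rw [this, hCM, Submodule.submoduleOf, Submodule.map_comap_subtype, inf_comm]
  -- a functional not vanishing on `u`
  obtain ⟨lam, hlam⟩ : ∃ lam : Module.Dual (ZMod p) U, lam u ≠ 0 := by
    by_contra hcon
    push Not at hcon
    exact hu0 ((Module.forall_dual_apply_eq_zero_iff (ZMod p) u).1 hcon)
  have hfq : Finite (Mf ⧸ CM) := Finite.of_surjective _ CM.mkQ_surjective
  have hdf : Finite (Module.Dual (ZMod p) (Mf ⧸ CM)) := by
    unfold Module.Dual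
    exact DFunLike.finite _
  let f : G → Module.Dual (ZMod p) (Mf ⧸ CM) := fun b =>
    if hb : b ∈ B then CM.liftQ ((lam ∘ₗ (ρ b - 1)) ∘ₗ Mf.subtype) (by
      intro m hm
      rw [LinearMap.mem_ker]
      change lam (ρ b m.1 - m.1) = 0
      have : m.1 ∈ fx ρ B := hm
      rw [this b hb, sub_self, map_zero]) else 0
  have hf : ∀ b (hb : b ∈ B) (m : Mf), f b (CM.mkQ m) = lam (ρ b m.1 - m.1) := by
    intro b hb m
    simp only [f, dif_pos hb]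
    rfl
  have hrel := relIndex_le_of_fib (B := B) (C := C) f (by
    intro b hb b' hb' hbb
    have htB : b⁻¹ * b' ∈ B := mul_mem (inv_mem hb) hb'
    set t := b⁻¹ * b' with ht
    have h1 : ∀ m ∈ M, lam (ρ t m - m) = 0 := by
      intro m hm
      have h2 : f b (CM.mkQ ⟨m, hm⟩) = f b' (CM.mkQ ⟨m, hm⟩) := by rw [hbb]
      rw [hf b hb, hf b' hb'] at h2
      simp only at h2
      have h3 : ρ b (ρ t m - m) = ρ t m - m := quad' ρ h htB.1 (h.QA hb.1) m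
      have h4 : ρ b (ρ t m - m) = (ρ b' m - m) - (ρ b m - m) := by
        rw [map_sub, ← mul_ap, ht, mul_inv_cancel_left]; abel
      rw [← h3, h4, map_sub, h2, sub_self]
    apply h.faith t htB.1 htB.2 Mf (fun x hx m hm => rho_mem_of_mem ρ M hx hm) hM
    intro m hm
    by_contra hne
    have hEu := fix_in_Eu ρ M hu hu0 ((h.conj a₀ ha₀).resolve_left ha₀K) (huA a₀ ha₀)
      (M.sub_mem (hBM t htB m hm) hm) (quad' ρ h htB.1 ha₀ m)
    obtain ⟨e, he⟩ := hEu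
    have he0 : e ≠ 0 := by
      intro h0
      rw [h0] at he
      exact hne (sub_eq_zero.1 he.symm)
    obtain ⟨g, hg, _⟩ := end_surj he0
    have h2 := lin_end ρ h M hM hu hu0 huA ha₀ ha₀K htB.1 htB.2 (hBM t htB)
      (hBM t⁻¹ (inv_mem htB)) g ⟨m, hm⟩
    have h3 := h1 (g ⟨m, hm⟩) (g ⟨m, hm⟩).2
    rw [h2, ← Submodule.coe_sub, ← map_sub] at h3
    have h4 : (⟨ρ t m, hBM t htB m hm⟩ : M) - ⟨m, hm⟩ = e ⟨u, hu⟩ := Subtype.ext he.symm
    have h5 : g (e ⟨u, hu⟩) = ⟨u, hu⟩ := LinearMap.congr_fun hg _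
    simp only at h3
    rw [h4, h5] at h3
    exact hlam h3)
  rw [card_dual] at hrel
  have h6 : Nat.card M = Nat.card CM * Nat.card (Mf ⧸ CM) := Submodule.card_eq_card_quotient_mul_card CM
  rw [h6, hcm, mul_comm]
  exact Nat.mul_le_mul_left _ hrel

end Cfsg.Agent.H281.PGV
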