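import Cfsg.Agent.SolvableStructure.HallConverse

set_option autoImplicit false
set_option linter.unusedSectionVars false

/-! # P(G,V): a suitable `p'`-element of a perfect group -/

namespace Cfsg.Agent.H281.PGV

universe u

variable {G : Type u} [Group G]

theorem comm_top {K : Subgroup G} (hK : ⁅K, K⁆ = K) : commutator K = ⊤ := by
  apply Subgroup.map_injective K.subtype_injective
  rw [Subgroup.map_subtype_commutator, hK, ← MonoidHom.range_eq_map, Subgroup.range_subtype]

theorem not_solvable_of_perf {K : Type u} [Group K] (hK : commutator K = ⊤)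
    (hne : ∃ x y : K, x * y ≠ y * x) : ¬ Group.IsSolvable K := by
  intro hs
  obtain ⟨x, y, hxy⟩ := hne
  have : Nontrivial K := ⟨⟨x * y, y * x, hxy⟩⟩
  exact (Group.IsSolvable.commutator_lt_top_of_nontrivial K).ne hK

theorem exists_elt' {K : Type u} [Group K] [Finite K] (hK : commutator K = ⊤)
    (hne : ∃ x y : K, x * y ≠ y * x) {p : ℕ} (hp : p.Prime) :
    ∃ (r : ℕ) (x : K) (N : ℕ), r.Prime ∧ (5 ≤ r ∨ (3 ≤ r ∧ 5 ≤ p)) ∧ x ∉ Subgroup.center K ∧
      x ^ r ∈ Subgroup.center K ∧ x ^ N = 1 ∧ ¬ p ∣ N := by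
  classical
  have hns := not_solvable_of_perf hK hne
  have hns2 : ¬ Group.IsSolvable (K ⧸ Subgroup.center K) := by
    intro h
    apply hns
    rw [Group.isSolvable_iff_subgroup_quotient (Subgroup.center K)]
    refine ⟨Group.isSolvable_of_comm (fun a b => ?_), h⟩
    exact Subtype.ext (Subgroup.mem_center_iff.1 b.2 a.1)
  have h3 : 3 ≤ (Nat.card (K ⧸ Subgroup.center K)).primeFactors.card := by
    by_contra hcon
    exact hns2 (SolvableStructure.HallConverse.isSolvable_of_no_three_primes (by omega))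
  obtain ⟨r, hr, hrp, hr5⟩ : ∃ r, r ∈ (Nat.card (K ⧸ Subgroup.center K)).primeFactors ∧ r ≠ p ∧
      (5 ≤ r ∨ (3 ≤ r ∧ 5 ≤ p)) := by
    by_contra hcon
    push Not at hcon
    by_cases h5 : 5 ≤ p
    · have hsub : (Nat.card (K ⧸ Subgroup.center K)).primeFactors ⊆ {2, p} := by
        intro r hr
        by_cases h : r = p
        · simp [h]
        · have h1 := hcon r hr h
          have h2 := (Nat.prime_of_mem_primeFactors hr).two_le
          have h6 : r < 3 := by
            by_contra h7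
            exact absurd h5 (not_le.2 (h1.2 (not_lt.1 h7)))
          have : r = 2 := by omega
          simp [this]
      have := (Finset.card_le_card hsub).trans (Finset.card_le_two)
      omega
    · have hsub : (Nat.card (K ⧸ Subgroup.center K)).primeFactors ⊆ {2, 3} := by
        intro r hr
        have hr2 := Nat.prime_of_mem_primeFactors hr
        have h2 := hr2.two_le
        by_cases h : r = p
        · subst h
          have h4 : r ≠ 4 := by rintro rfl; exact absurd hr2 (by norm_num)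
          have : r = 2 ∨ r = 3 := by omega
          rcases this with rfl | rfl <;> simp
        · have h1 := (hcon r hr h).1
          have h4 : r ≠ 4 := by rintro rfl; exact absurd hr2 (by norm_num)
          have : r = 2 ∨ r = 3 := by omega
          rcases this with rfl | rfl <;> simp
      have := (Finset.card_le_card hsub).trans (Finset.card_le_two)
      omega
  have hrprime := Nat.prime_of_mem_primeFactors hr
  have : Fact r.Prime := ⟨hrprime⟩
  obtain ⟨y, hy⟩ := exists_prime_orderOf_dvd_card' r (Nat.dvd_of_mem_primeFactors hr)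
  obtain ⟨z, rfl⟩ := QuotientGroup.mk_surjective y
  have hz0 : orderOf z ≠ 0 := (orderOf_pos z).ne'
  obtain ⟨a, N, hpN, hN⟩ := Nat.exists_eq_pow_mul_and_not_dvd hz0 p hp.ne_one
  refine ⟨r, z ^ (p ^ a), N, hrprime, hr5, ?_, ?_, ?_, hpN⟩
  · intro h
    have h1 : ((z ^ (p ^ a) : K) : K ⧸ Subgroup.center K) = 1 := (QuotientGroup.eq_one_iff _).2 h
    rw [QuotientGroup.mk_pow] at h1
    have h2 := orderOf_dvd_of_pow_eq_one h1
    rw [hy] at h2
    have h3 := hrprime.dvd_of_dvd_pow h2
    exact hrp ((Nat.prime_dvd_prime_iff_eq hrprime hp).1 h3)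
  · have h1 : ((z ^ (p ^ a) : K) ^ r : K ⧸ Subgroup.center K) = 1 := by
      rw [QuotientGroup.mk_pow, ← pow_mul, mul_comm, pow_mul, ← hy, pow_orderOf_eq_one, one_pow]
    rw [← QuotientGroup.mk_pow] at h1
    exact (QuotientGroup.eq_one_iff _).1 h1
  · rw [← pow_mul, ← hN, pow_orderOf_eq_one]

/-- the element used in the orbit argument -/
theorem exists_elt [Finite G] {K : Subgroup G} (hK : ⁅K, K⁆ = K)
    (hne : ∃ x ∈ K, ∃ y ∈ K, x * y ≠ y * x) {p : ℕ} (hp : p.Prime) :
    ∃ (r : ℕ) (x : G) (N : ℕ), r.Prime ∧ (5 ≤ r ∨ (3 ≤ r ∧ 5 ≤ p)) ∧ x ∈ K ∧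
      (¬ ∀ k ∈ K, x * k = k * x) ∧ (∀ k ∈ K, x ^ r * k = k * x ^ r) ∧ x ^ N = 1 ∧ ¬ p ∣ N := by
  obtain ⟨x, hx, y, hy, hxy⟩ := hne
  obtain ⟨r, z, N, h1, h2, h3, h4, h5, h6⟩ := exists_elt' (comm_top hK)
    ⟨⟨x, hx⟩, ⟨y, hy⟩, fun h => hxy (congrArg Subtype.val h)⟩ hp
  refine ⟨r, z.1, N, h1, h2, z.2, ?_, ?_, ?_, h6⟩
  · intro h
    apply h3
    rw [Subgroup.mem_center_iff]
    intro g
    exact Subtype.ext (h g.1 g.2).symm
  · intro k hk
    rw [Subgroup.mem_center_iff] at h4
    exact (congrArg Subtype.val (h4 ⟨k, hk⟩)).symm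
  · exact congrArg Subtype.val h5

end Cfsg.Agent.H281.PGV
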