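import Cfsg.Agent.H281.PGV.Orbit
import Cfsg.Agent.H281.PGV.Elt

set_option autoImplicit false
set_option linter.unusedSectionVars false

/-! # P(G,V): the case where the quadratic part meets the normaliser in the centraliser -/

namespace Cfsg.Agent.H281.PGV

universe u v

variable {p : ℕ} {G : Type u} {U : Type v} [Group G] [AddCommGroup U] [Module (ZMod p) U]
variable (ρ : Representation (ZMod p) G U)

theorem isPGroup_of_exp [Fact p.Prime] {A : Subgroup G} (hA : ∀ a ∈ A, a ^ p = 1) : IsPGroup p A := by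
  intro a
  exact ⟨1, by rw [pow_one]; exact Subtype.ext (hA a.1 a.2)⟩

theorem closure_comm {S : Set G} (hS : ∀ a ∈ S, ∀ b ∈ S, a * b = b * a) :
    ∀ a ∈ Subgroup.closure S, ∀ b ∈ Subgroup.closure S, a * b = b * a := by
  have h1 : Subgroup.closure S ≤ Subgroup.centralizer S := by
    rw [Subgroup.closure_le]
    intro a ha
    exact Subgroup.mem_centralizer_iff.2 (fun b hb => hS b hb a ha)
  have h2 : Subgroup.closure S ≤ Subgroup.centralizer (Subgroup.closure S : Set G) := by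
    rw [Subgroup.closure_le]
    intro a ha
    rw [SetLike.mem_coe, Subgroup.mem_centralizer_iff]
    intro b hb
    exact (Subgroup.mem_centralizer_iff.1 (h1 hb) a ha).symm
  intro a ha b hb
  exact Subgroup.mem_centralizer_iff.1 (h2 hb) a ha

theorem closure_pow {S : Set G} (hS : ∀ a ∈ S, ∀ b ∈ S, a * b = b * a) {N : ℕ}
    (hN : ∀ a ∈ S, a ^ N = 1) : ∀ a ∈ Subgroup.closure S, a ^ N = 1 := by
  have hc := closure_comm hS
  intro a ha
  induction ha using Subgroup.closure_induction with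
  | mem x hx => exact hN x hx
  | one => exact one_pow _
  | mul x y hx hy h1 h2 =>
    have : Commute x y := hc x hx y hy
    rw [this.mul_pow, h1, h2, one_mul]
  | inv x _ h1 => rw [inv_pow, h1, inv_one]

theorem closure_cent {S : Set G} {y : G} (hS : ∀ a ∈ S, a * y = y * a) :
    ∀ a ∈ Subgroup.closure S, a * y = y * a := by
  intro a ha
  have h1 : Subgroup.closure S ≤ Subgroup.centralizer {y} := by
    rw [Subgroup.closure_le]
    intro a ha
    rw [SetLike.mem_coe, Subgroup.mem_centralizer_singleton_iff]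
    exact hS a ha
  have h2 := h1 ha
  rw [Subgroup.mem_centralizer_singleton_iff] at h2
  exact h2

variable [Finite G] [Finite U]

theorem card_relIndex {C Q : Subgroup G} (h : C ≤ Q) : C.relIndex Q * Nat.card C = Nat.card Q := by
  have h1 := Subgroup.card_eq_card_quotient_mul_card_subgroup (C.subgroupOf Q)
  rw [Nat.card_congr (Subgroup.subgroupOfEquivOfLe h).toEquiv] at h1
  exact h1.symm

theorem card_quot_le [Fact p.Prime] {K A Q C : Subgroup G} (h : Cfg ρ K A Q C) :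
    Nat.card (U ⧸ fx ρ Q) ≤ C.relIndex Q := by
  have h1 := h.off
  have h2 := card_relIndex h.CQ
  have h3 := Submodule.card_eq_card_quotient_mul_card (fx ρ Q)
  rw [← h2, h3] at h1
  have hpos : 0 < Nat.card C * Nat.card (fx ρ Q) := Nat.mul_pos Nat.card_pos Nat.card_pos
  apply Nat.le_of_mul_le_mul_right _ hpos
  calc _ = _ := ?_
    _ ≤ _ := h1
    _ = _ := ?_
  · ring
  · ring

theorem card_map_quot (Y : Submodule (ZMod p) U) (x : G) :
    Nat.card (U ⧸ Y.map (ρ x)) = Nat.card (U ⧸ Y) := by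
  have h3 := Submodule.card_eq_card_quotient_mul_card Y
  have h4 := Submodule.card_eq_card_quotient_mul_card (Y.map (ρ x))
  have h5 : Nat.card (Y.map (ρ x)) = Nat.card Y := by
    symm
    apply Nat.card_congr
    exact (Submodule.equivMapOfInjective (ρ x) (fun a b hab => ap_inj ρ x hab) Y).toEquiv
  rw [h5] at h4
  rw [h4] at h3
  exact Nat.eq_of_mul_eq_mul_left Nat.card_pos h3

theorem caseII [Fact p.Prime] {K A Q C : Subgroup G} (h : Cfg ρ K A Q C)
    (hne : ∃ x ∈ K, ∃ y ∈ K, x * y ≠ y * x) (hQC : ¬ Q ≤ C)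
    (hB : ∀ b ∈ Q, b ∉ C → ∀ x ∈ K, ∀ y ∈ K, (b * x * b⁻¹) * y = y * (b * x * b⁻¹)) : False := by
  classical
  have hp : p.Prime := Fact.out
  obtain ⟨r, x, N, hr, hr5, hxK, hxZ, hxr, hxN, hpN⟩ := exists_elt h.perf hne hp
  set C' := C.subgroupOf Q with hC'
  let τ : Q ⧸ C' → G := fun q => (q.out : G)
  have hτ : ∀ q, τ q ∈ Q := fun q => (q.out).2
  have hτne : ∀ q q' : Q ⧸ C', q ≠ q' → (τ q)⁻¹ * τ q' ∉ C := by
    intro q q' hqq hcon
    apply hqq
    rw [← QuotientGroup.out_eq' q, ← QuotientGroup.out_eq' q', QuotientGroup.eq]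
    exact hcon
  have hτ1 : ∀ q : Q ⧸ C', q ≠ ((1 : Q) : Q ⧸ C') → τ q ∉ C := by
    intro q hq hcon
    apply hq
    rw [← QuotientGroup.out_eq' q, eq_comm, QuotientGroup.eq, inv_one, one_mul]
    exact hcon
  -- conjugates commute
  have hcx : ∀ b ∈ Q, b ∉ C → ∀ y ∈ K, (b * x * b⁻¹) * y = y * (b * x * b⁻¹) :=
    fun b hb hbC y hy => hB b hb hbC x hxK y hy
  have hc1 : ∀ b ∈ Q, (b * x * b⁻¹) * x = x * (b * x * b⁻¹) := by
    intro b hb
    by_cases hbC : b ∈ C
    · rw [h.cK b hbC x hxK, mul_inv_cancel_right]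
    · exact hcx b hb hbC x hxK
  have hc2 : ∀ b ∈ Q, ∀ c ∈ Q, (b * x * b⁻¹) * (c * x * c⁻¹) = (c * x * c⁻¹) * (b * x * b⁻¹) := by
    intro b hb c hc
    have h1 := hc1 (c⁻¹ * b) (mul_mem (inv_mem hc) hb)
    have h2 : c * ((c⁻¹ * b * x * (c⁻¹ * b)⁻¹) * x) * c⁻¹ = c * (x * (c⁻¹ * b * x * (c⁻¹ * b)⁻¹)) * c⁻¹ := by
      rw [h1]
    have e1 : c * ((c⁻¹ * b * x * (c⁻¹ * b)⁻¹) * x) * c⁻¹ = (b * x * b⁻¹) * (c * x * c⁻¹) := by group
    have e2 : c * (x * (c⁻¹ * b * x * (c⁻¹ * b)⁻¹)) * c⁻¹ = (c * x * c⁻¹) * (b * x * b⁻¹) := by group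
    rw [← e1, ← e2, h2]
  let g : Q ⧸ C' → G := fun q => τ q * x * (τ q)⁻¹ * x⁻¹
  have hgg : ∀ a ∈ Set.range g, ∀ b ∈ Set.range g, a * b = b * a := by
    rintro _ ⟨q, rfl⟩ _ ⟨q', rfl⟩
    have c1 : Commute (τ q * x * (τ q)⁻¹) (τ q' * x * (τ q')⁻¹) := hc2 _ (hτ q) _ (hτ q')
    have c2 : Commute (τ q * x * (τ q)⁻¹) x := hc1 _ (hτ q)
    have c3 : Commute (τ q' * x * (τ q')⁻¹) x := hc1 _ (hτ q')
    exact ((c1.mul_right c2.inv_right).mul_left (c3.inv_right.symm.mul_right (Commute.refl _)))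
  have hgN : ∀ a ∈ Set.range g, a ^ N = 1 := by
    rintro _ ⟨q, rfl⟩
    have c2 : Commute (τ q * x * (τ q)⁻¹) x := hc1 _ (hτ q)
    change ((τ q * x * (τ q)⁻¹) * x⁻¹) ^ N = 1
    rw [c2.inv_right.mul_pow, inv_pow, hxN, conj_pow, hxN]
    simp
  -- the count
  have hcount : ∀ s : Finset (Q ⧸ C'), ((1 : Q) : Q ⧸ C') ∉ s →
      r ^ s.card ≤ (ρ '' (Subgroup.closure (g '' s) : Set G)).ncard := by
    intro s
    induction s using Finset.induction_on with
    | empty =>
      intro _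
      rw [Finset.card_empty, pow_zero]
      apply Nat.succ_le_of_lt
      rw [Set.ncard_pos (Set.toFinite _)]
      exact ⟨ρ 1, 1, one_mem _, rfl⟩
    | insert q s hqs ih =>
      intro h1
      have hq1 : q ≠ ((1 : Q) : Q ⧸ C') := fun hq => h1 (by rw [hq]; exact Finset.mem_insert_self _ _)
      have hs1 : ((1 : Q) : Q ⧸ C') ∉ s := fun hq => h1 (Finset.mem_insert_of_mem hq)
      have ih' := ih hs1
      rw [Finset.card_insert_of_notMem hqs, pow_succ]
      refine (Nat.mul_le_mul_right r ih').trans ?_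
      have hle : Subgroup.closure (g '' s) ≤ Subgroup.closure (g '' (insert q s : Finset _)) :=
        Subgroup.closure_mono (Set.image_mono (by rw [Finset.coe_insert]; exact Set.subset_insert _ _))
      have hgq : g q ∈ Subgroup.closure (g '' (insert q s : Finset _)) :=
        Subgroup.subset_closure ⟨q, by rw [Finset.coe_insert]; exact Set.mem_insert _ _, rfl⟩
      -- elements of `D_s` commute with `K^(τ q)`
      have hcent : ∀ d ∈ Subgroup.closure (g '' (s : Set (Q ⧸ C'))), ∀ k ∈ K,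
          d * (τ q * k * (τ q)⁻¹) = (τ q * k * (τ q)⁻¹) * d := by
        intro d hd k hk
        apply closure_cent _ d hd
        rintro _ ⟨q', hq', rfl⟩
        have hne' : q ≠ q' := fun hh => hqs (hh ▸ hq')
        have c1 : Commute (τ q' * x * (τ q')⁻¹) (τ q * k * (τ q)⁻¹) := by
          have h2 := hcx ((τ q)⁻¹ * τ q') (mul_mem (inv_mem (hτ q)) (hτ q')) (hτne q q' hne') k hk
          have h3 : τ q * ((((τ q)⁻¹ * τ q') * x * ((τ q)⁻¹ * τ q')⁻¹) * k) * (τ q)⁻¹ =
              τ q * (k * (((τ q)⁻¹ * τ q') * x * ((τ q)⁻¹ * τ q')⁻¹)) * (τ q)⁻¹ := by rw [h2]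
          have e1 : τ q * ((((τ q)⁻¹ * τ q') * x * ((τ q)⁻¹ * τ q')⁻¹) * k) * (τ q)⁻¹ =
              (τ q' * x * (τ q')⁻¹) * (τ q * k * (τ q)⁻¹) := by group
          have e2 : τ q * (k * (((τ q)⁻¹ * τ q') * x * ((τ q)⁻¹ * τ q')⁻¹)) * (τ q)⁻¹ =
              (τ q * k * (τ q)⁻¹) * (τ q' * x * (τ q')⁻¹) := by group
          change _ = _
          rw [← e1, ← e2, h3]
        have c2 : Commute x (τ q * k * (τ q)⁻¹) :=
          (hB _ (hτ q) (hτ1 q hq1) k hk x hxK).symm
        exact c1.mul_left c2.inv_left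
      have hx1 : ∀ k ∈ K, Commute x (τ q * k * (τ q)⁻¹) := fun k hk =>
        (hB _ (hτ q) (hτ1 q hq1) k hk x hxK).symm
      -- the crucial point
      have hkey : ∀ (k : ℕ), ∀ d ∈ Subgroup.closure (g '' (s : Set (Q ⧸ C'))),
          ρ (g q ^ k) = ρ d → r ∣ k := by
        intro k d hd hk
        have e1 : g q ^ k = τ q * x ^ k * (τ q)⁻¹ * (x ^ k)⁻¹ := by
          have c2 : Commute (τ q * x * (τ q)⁻¹) x := hc1 _ (hτ q)
          change ((τ q * x * (τ q)⁻¹) * x⁻¹) ^ k = _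
          rw [c2.inv_right.mul_pow, inv_pow, conj_pow]
        have e2 : ρ (τ q * x ^ k * (τ q)⁻¹) = ρ (d * x ^ k) := by
          rw [map_mul ρ d, ← hk, ← map_mul, e1, inv_mul_cancel_right]
        have e3 : ∀ y ∈ K, ρ (x ^ k * y) = ρ (y * x ^ k) := by
          intro y hy
          have f1 : Commute (d * x ^ k) (τ q * y * (τ q)⁻¹) :=
            Commute.mul_left (hcent d hd y hy) ((hx1 y hy).pow_left k)
          have f2 : ρ ((τ q * x ^ k * (τ q)⁻¹) * (τ q * y * (τ q)⁻¹)) =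
              ρ ((τ q * y * (τ q)⁻¹) * (τ q * x ^ k * (τ q)⁻¹)) := by
            rw [map_mul, e2, ← map_mul, f1.eq, map_mul, ← e2, ← map_mul]
          have f3 : x ^ k * y = (τ q)⁻¹ * ((τ q * x ^ k * (τ q)⁻¹) * (τ q * y * (τ q)⁻¹)) * τ q := by
            group
          have f4 : y * x ^ k = (τ q)⁻¹ * ((τ q * y * (τ q)⁻¹) * (τ q * x ^ k * (τ q)⁻¹)) * τ q := by
            group
          rw [f3, f4, map_mul, map_mul, f2, ← map_mul, ← map_mul]
        have e4 : ∀ y ∈ K, x ^ k * y = y * x ^ k := by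
          apply h.faithZ _ (pow_mem hxK k)
          intro y hy w
          rw [← mul_ap, e3 y hy, mul_ap]
        by_contra hrk
        have hcop : Nat.Coprime k r := ((Nat.Prime.coprime_iff_not_dvd hr).2 hrk).symm
        apply hxZ
        intro y hy
        have f1 : Commute (x ^ k) y := e4 y hy
        have f2 : Commute (x ^ r) y := hxr y hy
        have f3 : (1 : ℤ) = k * Nat.gcdA k r + r * Nat.gcdB k r := by
          rw [← Nat.gcd_eq_gcd_ab, hcop]; rfl
        have f4 : x = (x ^ k) ^ (Nat.gcdA k r) * (x ^ r) ^ (Nat.gcdB k r) := by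
          rw [← zpow_natCast x k, ← zpow_natCast x r, ← zpow_mul, ← zpow_mul, ← zpow_add, ← f3, zpow_one]
        change Commute x y
        rw [f4]
        exact (f1.zpow_left _).mul_left (f2.zpow_left _)
      rw [← Nat.card_coe_set_eq, ← Nat.card_coe_set_eq, mul_comm]
      nth_rewrite 1 [← Nat.card_fin r]
      rw [← Nat.card_prod]
      have hf : ∀ et : Fin r × (ρ '' (Subgroup.closure (g '' (s : Set (Q ⧸ C'))) : Set G)),
          ρ (g q ^ et.1.1) * et.2.1 ∈
            ρ '' (Subgroup.closure (g '' ((insert q s : Finset (Q ⧸ C')) : Set (Q ⧸ C'))) : Set G) := by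
        rintro ⟨e, _, d, hd, rfl⟩
        exact ⟨g q ^ e.1 * d, mul_mem (pow_mem hgq _) (hle hd), map_mul _ _ _⟩
      apply Nat.card_le_card_of_injective (fun et => ⟨_, hf et⟩)
      -- wlog
      have hinj : ∀ e e' : ℕ, e < r → e' < r → e' ≤ e →
          ∀ d ∈ Subgroup.closure (g '' (s : Set (Q ⧸ C'))),
          ∀ d' ∈ Subgroup.closure (g '' (s : Set (Q ⧸ C'))),
          ρ (g q ^ e) * ρ d = ρ (g q ^ e') * ρ d' → e = e' := by
        intro e e' he he' hee d hd d' hd' heq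
        have h2 : ρ (g q ^ (e - e')) = ρ (d' * d⁻¹) := by
          rw [← map_mul, ← map_mul] at heq
          have h3 : ρ ((g q ^ e')⁻¹ * (g q ^ e * d) * d⁻¹) = ρ ((g q ^ e')⁻¹ * (g q ^ e' * d') * d⁻¹) := by
            rw [map_mul, map_mul, heq, ← map_mul, ← map_mul]
          have h4 : (g q ^ e')⁻¹ * (g q ^ e * d) * d⁻¹ = g q ^ (e - e') := by
            obtain ⟨j, rfl⟩ := Nat.exists_eq_add_of_le hee
            rw [Nat.add_sub_cancel_left, pow_add]
            group
          have h5 : (g q ^ e')⁻¹ * (g q ^ e' * d') * d⁻¹ = d' * d⁻¹ := by group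
          rwa [h4, h5] at h3
        have h3 := hkey (e - e') _ (mul_mem hd' (inv_mem hd)) h2
        have h4 := Nat.eq_zero_of_dvd_of_lt h3 (by omega)
        omega
      rintro ⟨e, _, d, hd, rfl⟩ ⟨e', _, d', hd', rfl⟩ heq
      simp only [Subtype.mk.injEq] at heq
      have hee : e.1 = e'.1 := by
        rcases le_total e'.1 e.1 with hle' | hle'
        · exact hinj _ _ e.2 e'.2 hle' d hd d' hd' heq
        · exact (hinj _ _ e'.2 e.2 hle' d' hd' d hd heq.symm).symm
      have hee' : e = e' := Fin.ext hee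
      subst hee'
      refine Prod.ext rfl (Subtype.ext ?_)
      simp only
      have h2 : ρ ((g q ^ e.1)⁻¹) * (ρ (g q ^ e.1) * ρ d) = ρ ((g q ^ e.1)⁻¹) * (ρ (g q ^ e.1) * ρ d') := by
        rw [heq]
      rwa [← mul_assoc, ← mul_assoc, ← map_mul, inv_mul_cancel, map_one, one_mul, one_mul] at h2
  -- the fixed space
  have hfintype : Fintype (Q ⧸ C') := Fintype.ofFinite _
  set S : Finset (Q ⧸ C') := Finset.univ.erase ((1 : Q) : Q ⧸ C') with hS
  set D := Subgroup.closure (g '' (S : Set (Q ⧸ C'))) with hD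
  set m := C.relIndex Q with hm
  have hcardS : S.card = m - 1 := by
    rw [hS, Finset.card_erase_of_mem (Finset.mem_univ _), Finset.card_univ, ← Nat.card_eq_fintype_card]
    rfl
  have h1 := hcount S (by rw [hS]; exact Finset.notMem_erase _ _)
  rw [hcardS] at h1
  have hDcomm : ∀ a ∈ D, ∀ b ∈ D, a * b = b * a :=
    closure_comm (fun a ha b hb => hgg a (Set.image_subset_range _ _ ha) b (Set.image_subset_range _ _ hb))
  have hDN : ∀ a ∈ D, a ^ N = 1 :=
    closure_pow (fun a ha b hb => hgg a (Set.image_subset_range _ _ ha) b (Set.image_subset_range _ _ hb))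
      (fun a ha => hgN a (Set.image_subset_range _ _ ha))
  have h2 := card_le_quot ρ D hDcomm N hDN hpN (fx ρ Q ⊓ (fx ρ Q).map (ρ x)) (by
    have hle : D ≤ ⨅ w : (fx ρ Q ⊓ (fx ρ Q).map (ρ x) : Submodule (ZMod p) U), stab ρ (w : U) := by
      rw [hD, Subgroup.closure_le]
      rintro _ ⟨q, _, rfl⟩
      rw [SetLike.mem_coe, Subgroup.mem_iInf]
      rintro ⟨w, hw1, w', hw', rfl⟩
      rw [mem_stab]
      change ρ (τ q * x * (τ q)⁻¹ * x⁻¹) (ρ x w') = ρ x w'
      rw [mul_ap, mul_ap, mul_ap, inv_ap_ap, hw' _ (inv_mem (hτ q))]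
      exact hw1 _ (hτ q)
    intro d hd w hw
    have := hle hd
    rw [Subgroup.mem_iInf] at this
    exact this ⟨w, hw⟩)
  have h3 := card_quot_inf (fx ρ Q) ((fx ρ Q).map (ρ x))
  rw [card_map_quot] at h3
  have h4 := card_quot_le ρ h
  rw [← hm] at h4
  have h5 : r ^ (m - 1) ≤ m ^ 2 := by
    rw [pow_two]
    exact h1.trans (h2.trans (h3.trans (Nat.mul_le_mul h4 h4)))
  -- `p ≤ m`
  have hmp : ∃ k, m = p ^ k := by
    have hQp : IsPGroup p Q := isPGroup_of_exp (fun a ha => h.exp a (h.QA ha))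
    obtain ⟨n, hn⟩ := IsPGroup.iff_card.1 hQp
    have h6 : m ∣ Nat.card Q := Subgroup.relIndex_dvd_card _ _
    rw [hn] at h6
    obtain ⟨k, _, hk⟩ := (Nat.dvd_prime_pow hp).1 h6
    exact ⟨k, hk⟩
  obtain ⟨k, hk⟩ := hmp
  have hk0 : k ≠ 0 := by
    intro hk0
    rw [hk0, pow_zero] at hk
    exact hQC (Subgroup.relIndex_eq_one.1 hk)
  have hpm : p ≤ m := by
    rw [hk]
    exact Nat.le_self_pow hk0 p
  have h6 := numer (r := r) (m := m) (hp.two_le.trans hpm)
    (hr5.imp id (fun h => ⟨h.1, h.2.trans hpm⟩))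
  exact absurd h5 (not_le.2 h6)

end Cfsg.Agent.H281.PGV
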