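import Cfsg.Agent.SolvableStructure.HallConverse

set_option autoImplicit false
set_option linter.unusedSectionVars false

/-! # P(G,V): finite simple modules -/

namespace Cfsg.Agent.H281.PGV

universe u v

section factor

variable {R : Type*} [Ring R] {X Y Z : Type*} [AddCommGroup X] [AddCommGroup Y] [AddCommGroup Z]
  [Module R X] [Module R Y] [Module R Z]

theorem exists_factor (f : X →ₗ[R] Y) (g : X →ₗ[R] Z) (hf : Function.Surjective f)
    (h : LinearMap.ker f ≤ LinearMap.ker g) : ∃ φ : Y →ₗ[R] Z, ∀ x, φ (f x) = g x := by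
  let e := f.quotKerEquivOfSurjective hf
  refine ⟨(LinearMap.ker f).liftQ g h ∘ₗ e.symm.toLinearMap, fun x => ?_⟩
  have h1 : e.symm (f x) = (LinearMap.ker f).mkQ x := by
    rw [LinearEquiv.symm_apply_eq]
    rfl
  change (LinearMap.ker f).liftQ g h (e.symm (f x)) = g x
  rw [h1]
  rfl

end factor

section simple

variable {R : Type*} [Ring R] {U : Type*} [AddCommGroup U] [Module R U]

/-- Schur and Wedderburn -/
theorem end_comm {M : Type*} [AddCommGroup M] [Module R M] [Finite M] [IsSimpleModule R M]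
    (f g : Module.End R M) : f * g = g * f := by
  classical
  have : Finite (Module.End R M) := DFunLike.finite _
  have h := Finite.isField_of_domain (Module.End R M)
  exact h.mul_comm f g

theorem end_comm_ap {M : Type*} [AddCommGroup M] [Module R M] [Finite M] [IsSimpleModule R M]
    (f g : Module.End R M) (m : M) : f (g m) = g (f m) :=
  LinearMap.congr_fun (end_comm f g) m

theorem end_surj {M : Type*} [AddCommGroup M] [Module R M] [IsSimpleModule R M]
    {f : Module.End R M} (hf : f ≠ 0) : ∃ g : Module.End R M, g * f = 1 ∧ f * g = 1 := by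
  have h := LinearMap.bijective_of_ne_zero hf
  let e := LinearEquiv.ofBijective f h
  refine ⟨e.symm.toLinearMap, ?_, ?_⟩
  · apply LinearMap.ext
    intro x
    exact e.symm_apply_apply x
  · apply LinearMap.ext
    intro x
    exact e.apply_symm_apply x

theorem exists_smul_eq (M : Submodule R U) [IsSimpleModule R M] {u m : U} (hu : u ∈ M) (hu0 : u ≠ 0)
    (hm : m ∈ M) : ∃ s : R, s • u = m := by
  have h1 : Submodule.span R {(⟨u, hu⟩ : M)} = ⊤ := by
    rcases IsSimpleOrder.eq_bot_or_eq_top (Submodule.span R {(⟨u, hu⟩ : M)}) with h | h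
    · exfalso
      apply hu0
      rw [Submodule.span_singleton_eq_bot] at h
      exact congrArg Subtype.val h
    · exact h
  have h2 : (⟨m, hm⟩ : M) ∈ Submodule.span R {(⟨u, hu⟩ : M)} := h1 ▸ Submodule.mem_top
  obtain ⟨s, hs⟩ := Submodule.mem_span_singleton.1 h2
  exact ⟨s, congrArg Subtype.val hs⟩

/-- a homomorphism between cyclic modules from an inclusion of annihilators -/
theorem exists_hom {M : Type*} [AddCommGroup M] [Module R M] {N : Type*} [AddCommGroup N] [Module R N]
    (u : M) (hgen : ∀ m : M, ∃ s : R, s • u = m) (w : N) (h : ∀ y : R, y • u = 0 → y • w = 0) :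
    ∃ φ : M →ₗ[R] N, ∀ s : R, φ (s • u) = s • w := by
  obtain ⟨φ, hφ⟩ := exists_factor (LinearMap.toSpanSingleton R M u) (LinearMap.toSpanSingleton R N w)
    (fun m => by
      obtain ⟨s, hs⟩ := hgen m
      exact ⟨s, by rw [LinearMap.toSpanSingleton_apply, hs]⟩)
    (fun y hy => by
      rw [LinearMap.mem_ker, LinearMap.toSpanSingleton_apply] at hy ⊢
      exact h y hy)
  refine ⟨φ, fun s => ?_⟩
  have := hφ s
  rwa [LinearMap.toSpanSingleton_apply, LinearMap.toSpanSingleton_apply] at this

/-- if the annihilator of a generator of a finite simple module is two-sided, the ring acts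
commutatively -/
theorem comm_of_J1 [Finite U] (M : Submodule R U) [IsSimpleModule R M] {u : U} (hu : u ∈ M)
    (hu0 : u ≠ 0) (hJ : ∀ y x : R, y • u = 0 → y • x • u = 0) (x x' : R) :
    x • x' • u = x' • x • u := by
  have hgen : ∀ m : M, ∃ s : R, s • (⟨u, hu⟩ : M) = m := by
    intro m
    obtain ⟨s, hs⟩ := exists_smul_eq M hu hu0 m.2
    exact ⟨s, Subtype.ext hs⟩
  have hφ : ∀ x : R, ∃ φ : M →ₗ[R] M, ∀ s : R, φ (s • (⟨u, hu⟩ : M)) = s • x • (⟨u, hu⟩ : M) := by
    intro x
    apply exists_hom _ hgen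
    intro y hy
    apply Subtype.ext
    exact hJ y x (congrArg Subtype.val hy)
  obtain ⟨φ, h1⟩ := hφ x
  obtain ⟨ψ, h2⟩ := hφ x'
  have h3 := end_comm (R := R) (M := M) φ ψ
  have h4 : φ (ψ ((1 : R) • (⟨u, hu⟩ : M))) = ψ (φ ((1 : R) • (⟨u, hu⟩ : M))) :=
    LinearMap.congr_fun h3 _
  rw [h1, h2, one_smul, one_smul, h1, h2] at h4
  exact (congrArg Subtype.val h4).symm

theorem dvd_card_of_exp {H : Type*} [AddCommGroup H] [Finite H] {p : ℕ} (hp : p.Prime)
    (hexp : ∀ h : H, p • h = 0) {h : H} (hh : h ≠ 0) : p ∣ Nat.card H := by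
  have h1 : addOrderOf h ∣ p := addOrderOf_dvd_of_nsmul_eq_zero (hexp h)
  rcases (Nat.dvd_prime hp).1 h1 with h2 | h2
  · exact absurd (AddMonoid.addOrderOf_eq_one_iff.1 h2) hh
  · rw [← h2]; exact addOrderOf_dvd_natCard h

theorem range_eq_of_simple {M₀ : Type*} [AddCommGroup M₀] [Module R M₀] [IsSimpleModule R M₀]
    {e : Module.End R M₀} (he : e ≠ 0) : LinearMap.range e = ⊤ :=
  LinearMap.range_eq_top.2 (LinearMap.bijective_of_ne_zero he).2

/-- the number of submodules isomorphic to a given simple module is `1` modulo `p` -/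
theorem card_iso_submodules [Finite U] (M₀ : Submodule R U) [IsSimpleModule R M₀] {p : ℕ}
    (hp : p.Prime) (hexp : ∀ h : U, p • h = 0) :
    Nat.card {M : Submodule R U // Nonempty (M₀ ≃ₗ[R] M)} ≡ 1 [MOD p] := by
  classical
  have hfH : Finite (M₀ →ₗ[R] U) := DFunLike.finite _
  have hfE : Finite (Module.End R M₀) := DFunLike.finite _
  set 𝓜 := {M : Submodule R U // Nonempty (M₀ ≃ₗ[R] M)} with h𝓜
  let φ : ∀ M : 𝓜, M₀ ≃ₗ[R] M.1 := fun M => Classical.choice M.2
  have hnt : Nontrivial M₀ := IsSimpleModule.nontrivial R M₀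
  obtain ⟨m₀, hm₀⟩ := exists_ne (0 : M₀)
  -- the bijection
  have hrange : ∀ (M : 𝓜) (e : Module.End R M₀), e ≠ 0 →
      LinearMap.range (M.1.subtype ∘ₗ (φ M).toLinearMap ∘ₗ e) = M.1 := by
    intro M e he
    rw [LinearMap.range_comp, LinearMap.range_comp, range_eq_of_simple he, Submodule.map_top,
      LinearEquiv.range, Submodule.map_top, Submodule.range_subtype]
  have hne : ∀ (M : 𝓜) (e : Module.End R M₀), e ≠ 0 → M.1.subtype ∘ₗ (φ M).toLinearMap ∘ₗ e ≠ 0 := by
    intro M e he h0
    apply he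
    apply LinearMap.ext
    intro x
    have h1 := LinearMap.congr_fun h0 x
    have h2 : (φ M (e x) : U) = 0 := h1
    have h3 : φ M (e x) = 0 := Subtype.ext h2
    rw [LinearMap.zero_apply]
    exact (LinearEquiv.map_eq_zero_iff _).1 h3
  let F : 𝓜 × {e : Module.End R M₀ // e ≠ 0} → {h : M₀ →ₗ[R] U // h ≠ 0} :=
    fun Me => ⟨Me.1.1.subtype ∘ₗ (φ Me.1).toLinearMap ∘ₗ Me.2.1, hne _ _ Me.2.2⟩
  have hF : Function.Bijective F := by
    constructor
    · rintro ⟨M, e, he⟩ ⟨M', e', he'⟩ h
      have h1 : M.1.subtype ∘ₗ (φ M).toLinearMap ∘ₗ e = M'.1.subtype ∘ₗ (φ M').toLinearMap ∘ₗ e' :=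
        congrArg Subtype.val h
      have h2 : M = M' := by
        apply Subtype.ext
        rw [← hrange M e he, ← hrange M' e' he', h1]
      subst h2
      have h3 : e = e' := by
        apply LinearMap.ext
        intro x
        have h4 := LinearMap.congr_fun h1 x
        have h5 : φ M (e x) = φ M (e' x) := Subtype.ext h4
        exact (φ M).injective h5
      subst h3
      rfl
    · rintro ⟨h, hh⟩
      have hinj : Function.Injective h := LinearMap.injective_of_ne_zero hh
      let e₀ : M₀ ≃ₗ[R] LinearMap.range h := LinearEquiv.ofInjective h hinj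
      let M : 𝓜 := ⟨LinearMap.range h, ⟨e₀⟩⟩
      let e : Module.End R M₀ := (φ M).symm.toLinearMap ∘ₗ e₀.toLinearMap
      have he : e ≠ 0 := by
        intro h0
        have h1 : (φ M).symm (e₀ m₀) = 0 := LinearMap.congr_fun h0 m₀
        rw [LinearEquiv.map_eq_zero_iff, LinearEquiv.map_eq_zero_iff] at h1
        exact hm₀ h1
      refine ⟨⟨M, e, he⟩, ?_⟩
      apply Subtype.ext
      apply LinearMap.ext
      intro x
      change ((φ M ((φ M).symm (e₀ x)) : M.1) : U) = h x
      rw [LinearEquiv.apply_symm_apply]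
      rfl
  have hcard := Nat.card_congr (Equiv.ofBijective F hF)
  rw [Nat.card_prod] at hcard
  have hsub : ∀ (H : Type _) [AddCommGroup H] [Finite H], Nat.card {h : H // h ≠ 0} + 1 = Nat.card H := by
    intro H _ _
    have : Fintype H := Fintype.ofFinite H
    rw [Nat.card_eq_fintype_card, Nat.card_eq_fintype_card, Fintype.card_subtype_compl,
      Fintype.card_subtype_eq]
    exact Nat.sub_add_cancel Fintype.card_pos
  have hH := hsub (M₀ →ₗ[R] U)
  have hE : Nat.card {h : Module.End R M₀ // h ≠ 0} + 1 = Nat.card (Module.End R M₀) := by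
    have : Fintype (Module.End R M₀) := Fintype.ofFinite _
    rw [Nat.card_eq_fintype_card, Nat.card_eq_fintype_card, Fintype.card_subtype_compl,
      Fintype.card_subtype_eq]
    exact Nat.sub_add_cancel Fintype.card_pos
  have hpH : p ∣ Nat.card (M₀ →ₗ[R] U) := by
    apply dvd_card_of_exp hp (h := M₀.subtype)
    · intro h
      apply LinearMap.ext
      intro x
      rw [LinearMap.smul_apply, hexp, LinearMap.zero_apply]
    · intro h0
      apply hm₀
      have := LinearMap.congr_fun h0 m₀
      exact Subtype.ext this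
  have hpE : p ∣ Nat.card (Module.End R M₀) := by
    apply dvd_card_of_exp hp (h := (1 : Module.End R M₀))
    · intro h
      apply LinearMap.ext
      intro x
      apply Subtype.ext
      rw [LinearMap.smul_apply, LinearMap.zero_apply]
      exact hexp _
    · exact one_ne_zero
  rw [← hH, ← hcard] at hpH
  rw [← hE] at hpE
  -- arithmetic
  have h1 : (Nat.card 𝓜 * Nat.card {e : Module.End R M₀ // e ≠ 0} + 1) + Nat.card 𝓜 =
      Nat.card 𝓜 * (Nat.card {e : Module.End R M₀ // e ≠ 0} + 1) + 1 := by ring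
  have h2 : (Nat.card 𝓜 * Nat.card {e : Module.End R M₀ // e ≠ 0} + 1) + Nat.card 𝓜 ≡ 0 + Nat.card 𝓜 [MOD p] :=
    Nat.ModEq.add_right _ ((Nat.modEq_zero_iff_dvd).2 hpH)
  have h3 : Nat.card 𝓜 * (Nat.card {e : Module.End R M₀ // e ≠ 0} + 1) + 1 ≡ 0 + 1 [MOD p] :=
    Nat.ModEq.add_right _ ((Nat.modEq_zero_iff_dvd).2 (hpE.mul_left _))
  rw [h1] at h2
  have h4 := h2.symm.trans h3
  rwa [zero_add, zero_add] at h4

end simple

section perfect

theorem derived_top {K : Type*} [Group K] (hK : commutator K = ⊤) (n : ℕ) : derivedSeries K n = ⊤ := by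
  induction n with
  | zero => rfl
  | succ n ih => rw [derivedSeries_succ, ih]; exact hK

/-- homomorphisms of perfect groups into soluble groups are trivial -/
theorem hom_trivial {K P : Type*} [Group K] [Group P] (hK : commutator K = ⊤)
    (hP : Group.IsSolvable P) (f : K →* P) (x : K) : f x = 1 := by
  obtain ⟨n, hn⟩ := hP
  have h1 := map_derivedSeries_le_derivedSeries f n
  rw [derived_top hK n, hn, le_bot_iff] at h1
  have h2 : f x ∈ (⊤ : Subgroup K).map f := Subgroup.mem_map_of_mem f (Subgroup.mem_top x)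
  rw [h1] at h2
  exact Subgroup.mem_bot.1 h2

theorem perm_solvable {X : Type u} [Finite X] (hX : Nat.card X ≤ 4) : Group.IsSolvable (Equiv.Perm X) := by
  classical
  have : Fintype X := Fintype.ofFinite X
  apply SolvableStructure.HallConverse.isSolvable_of_no_three_primes
  have h1 : Nat.card (Equiv.Perm X) ∣ 24 := by
    rw [Nat.card_eq_fintype_card, Fintype.card_perm]
    rw [Nat.card_eq_fintype_card] at hX
    exact (Nat.factorial_dvd_factorial hX)
  have h2 : (Nat.card (Equiv.Perm X)).primeFactors ⊆ {2, 3} := by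
    refine (Nat.primeFactors_mono h1 (by norm_num)).trans ?_
    intro r hr
    have h3 := Nat.prime_of_mem_primeFactors hr
    have h4 := Nat.dvd_of_mem_primeFactors hr
    have h5 : (24 : ℕ) = 2 ^ 3 * 3 := by norm_num
    rw [h5] at h4
    rcases (Nat.Prime.dvd_mul h3).1 h4 with h6 | h6
    · have := (Nat.prime_dvd_prime_iff_eq h3 Nat.prime_two).1 (h3.dvd_of_dvd_pow h6)
      simp [this]
    · have := (Nat.prime_dvd_prime_iff_eq h3 Nat.prime_three).1 h6
      simp [this]
  exact (Finset.card_le_card h2).trans (Finset.card_le_two)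

end perfect

end Cfsg.Agent.H281.PGV
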