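import Cfsg.Agent.H281.PGV.CaseTwo
import Cfsg.Agent.H281.PGV.Simple

set_option autoImplicit false
set_option linter.unusedSectionVars false

/-! # P(G,V): the enveloping algebra of `K` -/

namespace Cfsg.Agent.H281.PGV

universe u v

variable {p : ℕ} {G : Type u} {U : Type v} [Group G] [AddCommGroup U] [Module (ZMod p) U]
variable (ρ : Representation (ZMod p) G U)

/-- the enveloping algebra -/
abbrev Sg (K : Subgroup G) : Subalgebra (ZMod p) (Module.End (ZMod p) U) :=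
  Algebra.adjoin (ZMod p) (ρ '' (K : Set G))

/-- the enveloping algebra as a type -/
def SgT (K : Subgroup G) : Type v := ↥(Sg ρ K)

instance SgT.ring (K : Subgroup G) : Ring (SgT ρ K) := inferInstanceAs (Ring ↥(Sg ρ K))

/-- constructor -/
def SgT.mk {K : Subgroup G} (s : Module.End (ZMod p) U) (hs : s ∈ Sg ρ K) : SgT ρ K :=
  (⟨s, hs⟩ : ↥(Sg ρ K))

/-- the underlying operator -/
def SgT.op {K : Subgroup G} (s : SgT ρ K) : Module.End (ZMod p) U := Subtype.val (show ↥(Sg ρ K) from s)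

theorem SgT.op_mem {K : Subgroup G} (s : SgT ρ K) : s.op ρ ∈ Sg ρ K := Subtype.property (show ↥(Sg ρ K) from s)

instance SgT.module (K : Subgroup G) : Module (SgT ρ K) U where
  smul s u := s.op ρ u
  one_smul _ := rfl
  mul_smul _ _ _ := rfl
  smul_zero s := map_zero (s.op ρ)
  smul_add s := map_add (s.op ρ)
  add_smul _ _ _ := rfl
  zero_smul _ := rfl

theorem SgT.mk_smul {K : Subgroup G} {s : Module.End (ZMod p) U} (hs : s ∈ Sg ρ K) (u : U) :
    SgT.mk ρ s hs • u = s u := rfl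

theorem SgT.smul_def {K : Subgroup G} (s : SgT ρ K) (u : U) : s • u = s.op ρ u := rfl

theorem rho_mem {K : Subgroup G} {k : G} (hk : k ∈ K) : ρ k ∈ Sg ρ K :=
  Algebra.subset_adjoin ⟨k, hk, rfl⟩

theorem commute_Sg {K : Subgroup G} {T : Module.End (ZMod p) U} (hT : ∀ k ∈ K, T * ρ k = ρ k * T) :
    ∀ s ∈ Sg ρ K, T * s = s * T := by
  intro s hs
  induction hs using Algebra.adjoin_induction with
  | mem x hx =>
    obtain ⟨k, hk, rfl⟩ := hx
    exact hT k hk
  | algebraMap r => exact (Algebra.commutes r T).symm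
  | add x y _ _ h1 h2 => rw [mul_add, add_mul, h1, h2]
  | mul x y _ _ h1 h2 => rw [← mul_assoc, h1, mul_assoc, h2, mul_assoc]

theorem rho_inv_mul (b : G) : ρ b⁻¹ * ρ b = 1 := by rw [← map_mul, inv_mul_cancel, map_one]

theorem rho_mul_inv (b : G) : ρ b * ρ b⁻¹ = 1 := by rw [← map_mul, mul_inv_cancel, map_one]

theorem conj_Sg {K : Subgroup G} {b : G} (hb : b ∈ Subgroup.normalizer (K : Set G)) :
    ∀ s ∈ Sg ρ K, ρ b * s * ρ b⁻¹ ∈ Sg ρ K := by
  intro s hs
  induction hs using Algebra.adjoin_induction with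
  | mem x hx =>
    obtain ⟨k, hk, rfl⟩ := hx
    rw [← map_mul, ← map_mul]
    exact rho_mem ρ ((Subgroup.mem_normalizer_iff.1 hb k).1 hk)
  | algebraMap r =>
    rw [← Algebra.commutes, mul_assoc, rho_mul_inv, mul_one]
    exact Subalgebra.algebraMap_mem _ r
  | add x y _ _ h1 h2 =>
    rw [mul_add, add_mul]
    exact add_mem h1 h2
  | mul x y _ _ h1 h2 =>
    have : ρ b * (x * y) * ρ b⁻¹ = (ρ b * x * ρ b⁻¹) * (ρ b * y * ρ b⁻¹) := by
      calc ρ b * (x * y) * ρ b⁻¹ = ρ b * x * (1 * (y * ρ b⁻¹)) := by rw [one_mul]; simp only [mul_assoc]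
        _ = ρ b * x * ((ρ b⁻¹ * ρ b) * (y * ρ b⁻¹)) := by rw [rho_inv_mul]
        _ = _ := by simp only [mul_assoc]
    rw [this]
    exact mul_mem h1 h2

theorem conj_comm {K : Subgroup G} {a : G}
    (ha : ∀ x ∈ K, ∀ y ∈ K, (a * x * a⁻¹) * y = y * (a * x * a⁻¹)) :
    ∀ s ∈ Sg ρ K, ∀ t ∈ Sg ρ K, (ρ a * s * ρ a⁻¹) * t = t * (ρ a * s * ρ a⁻¹) := by
  intro s hs
  apply commute_Sg
  intro k hk
  induction hs using Algebra.adjoin_induction with
  | mem x hx =>
    obtain ⟨x, hx, rfl⟩ := hx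
    rw [← map_mul, ← map_mul, ← map_mul, ← map_mul, ha x hx k hk]
  | algebraMap r =>
    rw [← Algebra.commutes, mul_assoc _ (ρ a), rho_mul_inv, mul_one]
    exact Algebra.commutes _ _
  | add x y _ _ h1 h2 => rw [mul_add, add_mul, add_mul, mul_add, h1, h2]
  | mul x y _ _ h1 h2 =>
    have : ρ a * (x * y) * ρ a⁻¹ = (ρ a * x * ρ a⁻¹) * (ρ a * y * ρ a⁻¹) := by
      calc ρ a * (x * y) * ρ a⁻¹ = ρ a * x * (1 * (y * ρ a⁻¹)) := by rw [one_mul]; simp only [mul_assoc]
        _ = ρ a * x * ((ρ a⁻¹ * ρ a) * (y * ρ a⁻¹)) := by rw [rho_inv_mul]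
        _ = _ := by simp only [mul_assoc]
    rw [this, mul_assoc, h2, ← mul_assoc, h1, mul_assoc]

/-- an operator commuting with the enveloping algebra as a linear map -/
def toLin {K : Subgroup G} (T : Module.End (ZMod p) U) (hT : ∀ s ∈ Sg ρ K, T * s = s * T) :
    U →ₗ[SgT ρ K] U where
  toFun := T
  map_add' := map_add T
  map_smul' := fun s u => LinearMap.congr_fun (hT (s.op ρ) s.op_mem) u

/-- a `K`-invariant subspace as a submodule for the enveloping algebra -/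
def ofInv {K : Subgroup G} (Y : Submodule (ZMod p) U) (hY : ∀ x ∈ K, ∀ y ∈ Y, ρ x y ∈ Y) :
    Submodule (SgT ρ K) U where
  carrier := Y
  add_mem' := fun {a b} ha hb => Y.add_mem ha hb
  zero_mem' := Y.zero_mem
  smul_mem' := by
    intro s' y hy
    have hs := s'.op_mem
    rw [SgT.smul_def]
    generalize s'.op ρ = s at hs
    induction hs using Algebra.adjoin_induction generalizing y with
    | mem x hx =>
      obtain ⟨k, hk, rfl⟩ := hx
      exact hY k hk y hy
    | algebraMap r =>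
      rw [Algebra.algebraMap_eq_smul_one]
      exact Y.smul_mem _ hy
    | add x z _ _ h1 h2 => exact Y.add_mem (h1 hy) (h2 hy)
    | mul x z _ _ h1 h2 => exact h1 (h2 hy)

theorem mem_ofInv {K : Subgroup G} {Y : Submodule (ZMod p) U} {hY : ∀ x ∈ K, ∀ y ∈ Y, ρ x y ∈ Y}
    {y : U} : y ∈ ofInv ρ Y hY ↔ y ∈ Y := Iff.rfl

/-- the underlying subspace -/
def toSub {K : Subgroup G} (M : Submodule (SgT ρ K) U) : Submodule (ZMod p) U where
  carrier := M
  add_mem' := fun {a b} ha hb => M.add_mem ha hb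
  zero_mem' := M.zero_mem
  smul_mem' := fun c x hx => by
    have := M.smul_mem (SgT.mk ρ (algebraMap (ZMod p) (Module.End (ZMod p) U) c)
      (Subalgebra.algebraMap_mem _ c)) hx
    rwa [SgT.mk_smul, Algebra.algebraMap_eq_smul_one] at this

theorem mem_toSub {K : Subgroup G} {M : Submodule (SgT ρ K) U} {y : U} : y ∈ toSub ρ M ↔ y ∈ M := Iff.rfl

theorem rho_mem_of_mem {K : Subgroup G} (M : Submodule (SgT ρ K) U) {k : G} (hk : k ∈ K) {m : U}
    (hm : m ∈ M) : ρ k m ∈ M := M.smul_mem (SgT.mk ρ (ρ k) (rho_mem ρ hk)) hm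

theorem le_or_disj {R : Type*} [Ring R] {U : Type*} [AddCommGroup U] [Module R U]
    (M N : Submodule R U) [hM : IsSimpleModule R M] : M ≤ N ∨ M ⊓ N = ⊥ := by
  have h1 := isSimpleModule_iff_isAtom.1 hM
  rcases (h1.le_iff (x := M ⊓ N)).1 inf_le_left with h | h
  · exact Or.inr h
  · exact Or.inl (h ▸ inf_le_right)

/-- no fixed vectors in a nontrivial simple module -/
theorem no_fix {K : Subgroup G} (M : Submodule (SgT ρ K) U) [IsSimpleModule (SgT ρ K) M]
    (hM : ∃ x ∈ K, ∃ m ∈ M, ρ x m ≠ m) {u : U} (hu : u ∈ M) (hfix : ∀ x ∈ K, ρ x u = u) : u = 0 := by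
  rcases le_or_disj M (ofInv ρ (fx ρ K) (fun x hx y hy => by rw [hy x hx]; exact hy)) with h | h
  · obtain ⟨x, hx, m, hm, hne⟩ := hM
    exact absurd (h hm x hx) hne
  · have h1 : u ∈ M ⊓ (ofInv ρ (fx ρ K) (fun x hx y hy => by rw [hy x hx]; exact hy)) := ⟨hu, hfix⟩
    rw [h] at h1
    exact (Submodule.mem_bot _).1 h1

/-- restriction of a commuting operator to a simple submodule -/
theorem restr {K : Subgroup G} (M : Submodule (SgT ρ K) U) [IsSimpleModule (SgT ρ K) M]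
    {u : U} (hu : u ∈ M) (hu0 : u ≠ 0) {T : Module.End (ZMod p) U}
    (hT : ∀ s ∈ Sg ρ K, T * s = s * T) (hTu : T u ∈ M) :
    ∃ e : Module.End (SgT ρ K) M, ∀ m : M, (e m : U) = T m := by
  have h1 : ∀ m ∈ M, toLin ρ T hT m ∈ M := by
    intro m hm
    obtain ⟨s, rfl⟩ := exists_smul_eq M hu hu0 hm
    rw [map_smul]
    exact M.smul_mem _ hTu
  exact ⟨(toLin ρ T hT).restrict h1, fun m => rfl⟩

end Cfsg.Agent.H281.PGV
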