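import Cfsg.Agent.H281.PGV.BetaTwo

set_option autoImplicit false
set_option linter.unusedSectionVars false

/-! # P(G,V): the configuration on a section is impossible -/

namespace Cfsg.Agent.H281.PGV

universe u v

variable {p : ℕ} {G : Type u} {U : Type v} [Group G] [AddCommGroup U] [Module (ZMod p) U]
variable (ρ : Representation (ZMod p) G U)

theorem inv_mem_of_tw {K : Subgroup G} {b : G} {hb : b ∈ Subgroup.normalizer (K : Set G)}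
    {M : Submodule (SgT ρ K) U} {y : U} (hy : y ∈ tw ρ b hb M) : ρ b⁻¹ y ∈ M := by
  obtain ⟨m, hm, rfl⟩ := hy
  rw [inv_ap_ap]; exact hm

theorem tw_smul {K : Subgroup G} {b : G} (hb : b ∈ Subgroup.normalizer (K : Set G))
    {M N : Submodule (SgT ρ K) U} (e : M →ₗ[SgT ρ K] N) (s : SgT ρ K) (y : U) (hy : ρ b⁻¹ y ∈ M)
    (hy' : ρ b⁻¹ (s • y) ∈ M) :
    ρ b (e ⟨ρ b⁻¹ (s • y), hy'⟩) = s • ρ b (e ⟨ρ b⁻¹ y, hy⟩) := by
  have hs' : ρ b⁻¹ * s.op ρ * ρ b ∈ Sg ρ K := by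
    have := conj_Sg ρ (inv_mem hb) _ s.op_mem
    rwa [inv_inv] at this
  have h1 : (⟨ρ b⁻¹ (s • y), hy'⟩ : M) = SgT.mk ρ _ hs' • ⟨ρ b⁻¹ y, hy⟩ := by
    apply Subtype.ext
    change ρ b⁻¹ (s.op ρ y) = ρ b⁻¹ (s.op ρ (ρ b (ρ b⁻¹ y)))
    rw [ap_inv_ap]
  rw [h1, map_smul]
  change ρ b (ρ b⁻¹ (s.op ρ (ρ b (e ⟨ρ b⁻¹ y, hy⟩)))) = _
  rw [ap_inv_ap]
  rfl

theorem tw_iso {K : Subgroup G} {b : G} (hb : b ∈ Subgroup.normalizer (K : Set G))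
    {M N : Submodule (SgT ρ K) U} (h : Nonempty (M ≃ₗ[SgT ρ K] N)) :
    Nonempty (tw ρ b hb M ≃ₗ[SgT ρ K] tw ρ b hb N) := by
  obtain ⟨e⟩ := h
  refine ⟨{ toFun := fun y => ⟨ρ b (e ⟨ρ b⁻¹ y.1, inv_mem_of_tw ρ y.2⟩), ⟨_, (e _).2, rfl⟩⟩
            map_add' := ?_
            map_smul' := ?_
            invFun := fun y => ⟨ρ b (e.symm ⟨ρ b⁻¹ y.1, inv_mem_of_tw ρ y.2⟩), ⟨_, (e.symm _).2, rfl⟩⟩
            left_inv := ?_
            right_inv := ?_ }⟩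
  · intro m n
    apply Subtype.ext
    have : (⟨ρ b⁻¹ (m.1 + n.1), inv_mem_of_tw ρ (m + n).2⟩ : M) =
        ⟨ρ b⁻¹ m.1, inv_mem_of_tw ρ m.2⟩ + ⟨ρ b⁻¹ n.1, inv_mem_of_tw ρ n.2⟩ :=
      Subtype.ext (map_add _ _ _)
    change ρ b (e ⟨ρ b⁻¹ (m.1 + n.1), _⟩) = ρ b (e ⟨ρ b⁻¹ m.1, _⟩) + ρ b (e ⟨ρ b⁻¹ n.1, _⟩)
    rw [this, map_add, Submodule.coe_add, map_add]
  · intro s m
    apply Subtype.ext
    exact tw_smul ρ hb e.toLinearMap s m.1 (inv_mem_of_tw ρ m.2) (inv_mem_of_tw ρ (s • m).2)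
  · intro y
    apply Subtype.ext
    change ρ b (e.symm ⟨ρ b⁻¹ (ρ b (e ⟨ρ b⁻¹ y.1, _⟩)), _⟩) = y.1
    have : (⟨ρ b⁻¹ (ρ b (e ⟨ρ b⁻¹ y.1, inv_mem_of_tw ρ y.2⟩)), inv_mem_of_tw (hb := hb) ρ ⟨_, (e _).2, rfl⟩⟩ : N) =
      e ⟨ρ b⁻¹ y.1, inv_mem_of_tw ρ y.2⟩ := Subtype.ext (inv_ap_ap ρ b _)
    rw [this, LinearEquiv.symm_apply_apply, ap_inv_ap]
  · intro y
    apply Subtype.ext
    change ρ b (e ⟨ρ b⁻¹ (ρ b (e.symm ⟨ρ b⁻¹ y.1, _⟩)), _⟩) = y.1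
    have : (⟨ρ b⁻¹ (ρ b (e.symm ⟨ρ b⁻¹ y.1, inv_mem_of_tw ρ y.2⟩)), inv_mem_of_tw (hb := hb) ρ ⟨_, (e.symm _).2, rfl⟩⟩ : M) =
      e.symm ⟨ρ b⁻¹ y.1, inv_mem_of_tw ρ y.2⟩ := Subtype.ext (inv_ap_ap ρ b _)
    rw [this, LinearEquiv.apply_symm_apply, ap_inv_ap]

variable [Finite G] [Finite U]

theorem exists_inv [Fact p.Prime] {K B : Subgroup G} (hBK : B ≤ Subgroup.normalizer (K : Set G))
    (hBp : IsPGroup p B) (M₀ : Submodule (SgT ρ K) U) [IsSimpleModule (SgT ρ K) M₀]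
    (hiso : ∀ b (hb : b ∈ B), Nonempty (M₀ ≃ₗ[SgT ρ K] tw ρ b (hBK hb) M₀)) :
    ∃ M : Submodule (SgT ρ K) U, Nonempty (M₀ ≃ₗ[SgT ρ K] M) ∧ ∀ b ∈ B, ∀ m ∈ M, ρ b m ∈ M := by
  classical
  have hp : p.Prime := Fact.out
  have hexp : ∀ u : U, p • u = 0 := by
    intro u
    rw [← Nat.cast_smul_eq_nsmul (ZMod p), ZMod.natCast_self, zero_smul]
  have hcard := card_iso_submodules (R := SgT ρ K) M₀ hp hexp
  let act : MulAction B {M : Submodule (SgT ρ K) U // Nonempty (M₀ ≃ₗ[SgT ρ K] M)} :=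
    { smul := fun b M => ⟨tw ρ b.1 (hBK b.2) M.1, by
        obtain ⟨e₁⟩ := hiso b.1 b.2
        obtain ⟨e₂⟩ := tw_iso ρ (hBK b.2) M.2
        exact ⟨e₁.trans e₂⟩⟩
      one_smul := fun M => Subtype.ext (tw_one ρ M.1 (one_mem _))
      mul_smul := fun a b M => Subtype.ext (tw_tw ρ (hb := hBK a.2) (hc := hBK b.2) M.1).symm }
  have hfin : Finite {M : Submodule (SgT ρ K) U // Nonempty (M₀ ≃ₗ[SgT ρ K] M)} := inferInstance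
  have h1 := hBp.card_modEq_card_fixedPoints {M : Submodule (SgT ρ K) U // Nonempty (M₀ ≃ₗ[SgT ρ K] M)}
  have h2 := h1.symm.trans hcard
  have h3 : Nat.card (MulAction.fixedPoints B {M : Submodule (SgT ρ K) U // Nonempty (M₀ ≃ₗ[SgT ρ K] M)}) ≠ 0 := by
    intro h0
    rw [h0] at h2
    have := (Nat.modEq_iff_dvd' (Nat.zero_le 1)).1 h2
    exact hp.one_lt.ne' (Nat.dvd_one.1 this)
  rw [Nat.card_ne_zero] at h3
  obtain ⟨⟨⟨M, hM⟩, hMf⟩⟩ := h3.1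
  refine ⟨M, hM, ?_⟩
  intro b hb m hm
  have h4 : tw ρ b (hBK hb) M = M := congrArg Subtype.val (hMf ⟨b, hb⟩)
  have h5 : ρ b m ∈ tw ρ b (hBK hb) M := ⟨m, hm, rfl⟩
  rwa [h4] at h5

/-- **the configuration on a section is impossible** -/
theorem main_U [Fact p.Prime] {K A Q C : Subgroup G} (h : Cfg ρ K A Q C) (M₀ : Submodule (SgT ρ K) U)
    [IsSimpleModule (SgT ρ K) M₀] (hM₀ : ∃ x ∈ K, ∃ m ∈ M₀, ρ x m ≠ m) {a₀ : G} (ha₀ : a₀ ∈ A)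
    (ha₀K : a₀ ∉ Subgroup.normalizer (K : Set G)) (hQC : ¬ Q ≤ C) : False := by
  classical
  by_cases hBC : Q ⊓ Subgroup.normalizer (K : Set G) ≤ C
  · apply caseII ρ h _ hQC
    · intro b hb hbC
      exact (h.conj b (h.QA hb)).resolve_left (fun h' => hbC (hBC ⟨hb, h'⟩))
    · by_contra hcon
      push Not at hcon
      obtain ⟨x, hx, m, hm, hne⟩ := hM₀
      apply hne
      apply perfect_fix ρ h.perf _ x hx
      intro x hx y hy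
      rw [← mul_ap, ← mul_ap, hcon x hx y hy]
  · obtain ⟨b₀, hb₀, hb₀C⟩ := SetLike.not_le_iff_exists.1 hBC
    by_cases hiso : ∀ b (hb : b ∈ Q ⊓ Subgroup.normalizer (K : Set G)),
        Nonempty (M₀ ≃ₗ[SgT ρ K] tw ρ b hb.2 M₀)
    · have hBp : IsPGroup p ↥(Q ⊓ Subgroup.normalizer (K : Set G)) :=
        isPGroup_of_exp (fun a ha => h.exp a (h.QA ha.1))
      obtain ⟨M, ⟨e⟩, hMinv⟩ := exists_inv ρ inf_le_right hBp M₀ hiso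
      have hMs : IsSimpleModule (SgT ρ K) M := IsSimpleModule.congr e.symm
      have hM : ∃ x ∈ K, ∃ m ∈ M, ρ x m ≠ m := by
        obtain ⟨x, hx, m, hm, hne⟩ := hM₀
        refine ⟨x, hx, e ⟨m, hm⟩, (e _).2, ?_⟩
        intro heq
        apply hne
        have h1 : e (SgT.mk ρ (ρ x) (rho_mem ρ hx) • ⟨m, hm⟩) = e ⟨m, hm⟩ := by
          rw [map_smul]
          exact Subtype.ext heq
        exact congrArg Subtype.val (e.injective h1)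
      exact beta1 ρ h M hM ha₀ ha₀K hMinv hb₀ hb₀C
    · push Not at hiso
      obtain ⟨b, hb, hn⟩ := hiso
      exact beta2 ρ h M₀ hM₀ hb (not_nonempty_iff.2 hn)

end Cfsg.Agent.H281.PGV
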