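import Cfsg.Agent.H281.PGV.Timm

set_option autoImplicit false
set_option linter.unusedSectionVars false

/-! # P(G,V): the case where the quadratic part meets the normaliser trivially -/

namespace Cfsg.Agent.H281.PGV

universe u v

variable {p : ℕ} {G : Type u} {U : Type v} [Group G] [AddCommGroup U] [Module (ZMod p) U]

/-- the configuration on the section `U` -/
structure Cfg (ρ : Representation (ZMod p) G U) (K A Q C : Subgroup G) : Prop where
  comm : ∀ a ∈ A, ∀ b ∈ A, a * b = b * a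
  exp : ∀ a ∈ A, a ^ p = 1
  QA : Q ≤ A
  CQ : C ≤ Q
  conj : ∀ a ∈ A, a ∈ Subgroup.normalizer (K : Set G) ∨
    (∀ x ∈ K, ∀ y ∈ K, (a * x * a⁻¹) * y = y * (a * x * a⁻¹))
  quad : ∀ b ∈ Q, ∀ a ∈ A, ∀ v, ρ b (ρ a v - v) = ρ a v - v
  perf : ⁅K, K⁆ = K
  cK : ∀ c ∈ C, ∀ x ∈ K, c * x = x * c
  cU : ∀ c ∈ C, ∀ v, ρ c v = v
  faith : ∀ b ∈ Q, b ∈ Subgroup.normalizer (K : Set G) → ∀ M : Submodule (ZMod p) U,
    (∀ x ∈ K, ∀ m ∈ M, ρ x m ∈ M) → (∃ x ∈ K, ∃ m ∈ M, ρ x m ≠ m) → (∀ m ∈ M, ρ b m = m) → b ∈ C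
  faithZ : ∀ y ∈ K, (∀ k ∈ K, ∀ v, ρ y (ρ k v) = ρ k (ρ y v)) → ∀ k ∈ K, y * k = k * y
  off : Nat.card C * Nat.card U ≤ Nat.card Q * Nat.card (fx ρ Q)

variable (ρ : Representation (ZMod p) G U)

/-- A vector in regular orbit (modulo the kernel) of an abelian `p'`-group. -/
theorem exists_regular [Fact p.Prime] [Finite G] [Finite U] (D : Subgroup G)
    (hD : ∀ a ∈ D, ∀ b ∈ D, a * b = b * a) (N : ℕ) (hN : ∀ a ∈ D, a ^ N = 1) (hpN : ¬ p ∣ N) :
    ∃ v : U, ∀ d ∈ D, ρ d v = v → ∀ w, ρ d w = w := by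
  classical
  have hNne : (N : ZMod p) ≠ 0 := by
    intro h
    exact hpN ((ZMod.natCast_eq_zero_iff N p).1 h)
  -- fixed vectors of the form `(t - 1) u` vanish
  have key : ∀ t ∈ D, ∀ u : U, ρ t (ρ t u - u) = ρ t u - u → ρ t u = u := by
    intro t ht u h
    have h1 : ∀ j : ℕ, ρ (t ^ j) u = u + (j : ZMod p) • (ρ t u - u) := by
      intro j
      induction j with
      | zero => simp
      | succ j ih =>
        rw [pow_succ', mul_ap, ih, map_add, map_smul, h]
        push_cast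
        rw [add_smul, one_smul]
        abel
    have h2 := h1 N
    rw [hN t ht, one_ap] at h2
    have h3 : (N : ZMod p) • (ρ t u - u) = 0 := by
      have : u + (N : ZMod p) • (ρ t u - u) = u + 0 := by rw [← h2, add_zero]
      exact add_left_cancel this
    have h4 := (smul_eq_zero.1 h3).resolve_left hNne
    exact sub_eq_zero.1 h4
  let f : U → ℕ := fun v => Nat.card (D ⊓ stab ρ v : Subgroup G)
  obtain ⟨v, hv⟩ : ∃ v, ∀ w, f v ≤ f w := by
    have hne : (Set.range f).Nonempty := ⟨f 0, 0, rfl⟩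
    obtain ⟨v, hv⟩ := Nat.sInf_mem hne
    exact ⟨v, fun w => by rw [hv]; exact Nat.sInf_le ⟨w, rfl⟩⟩
  refine ⟨v, ?_⟩
  intro t ht htv
  by_contra hcon
  push Not at hcon
  obtain ⟨u, hu⟩ := hcon
  -- `v + (t u - u)` has a smaller stabiliser
  have h1 : D ⊓ stab ρ (v + (ρ t u - u)) < D ⊓ stab ρ v := by
    have hle : D ⊓ stab ρ (v + (ρ t u - u)) ≤ D ⊓ stab ρ v := by
      rintro d ⟨hd, hdv⟩
      refine ⟨hd, ?_⟩
      change ρ d (v + (ρ t u - u)) = v + (ρ t u - u) at hdv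
      change ρ d v = v
      rw [map_add] at hdv
      -- c = d v - v = (t-1) u - d (t-1) u = (t - 1)(u - d u)
      have h2 : ρ d v - v = ρ t (u - ρ d u) - (u - ρ d u) := by
        have h3 : ρ d (ρ t u - u) = ρ t (ρ d u) - ρ d u := by
          rw [map_sub, ← mul_ap, hD d hd t ht, mul_ap]
        rw [h3] at hdv
        have h4 : ρ d v = v + (ρ t u - u) - (ρ t (ρ d u) - ρ d u) := by rw [← hdv]; abel
        rw [h4, map_sub]; abel
      have h5 : ρ t (ρ d v - v) = ρ d v - v := by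
        rw [map_sub, ← mul_ap, hD t ht d hd, mul_ap, htv]
      have h6 : ρ t (u - ρ d u) = u - ρ d u := by
        apply key t ht
        rw [← h2]; exact h5
      rw [h6, sub_self] at h2
      exact sub_eq_zero.1 h2
    refine lt_of_le_of_ne hle ?_
    intro heq
    have h2 : t ∈ D ⊓ stab ρ v := ⟨ht, htv⟩
    rw [← heq] at h2
    have h3 : ρ t (v + (ρ t u - u)) = v + (ρ t u - u) := h2.2
    rw [map_add, htv] at h3
    exact hu (key t ht u (add_left_cancel h3))
  have h2 : f (v + (ρ t u - u)) < f v := by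
    have := Set.ncard_lt_ncard (s := ((D ⊓ stab ρ (v + (ρ t u - u)) : Subgroup G) : Set G))
      (t := ((D ⊓ stab ρ v : Subgroup G) : Set G)) (SetLike.coe_ssubset_coe.2 h1) (Set.toFinite _)
    exact this
  exact absurd (hv (v + (ρ t u - u))) (not_le.2 h2)

/-- An abelian `p'`-group fixing `W` pointwise induces at most `|U / W|` operators. -/
theorem card_le_quot [Fact p.Prime] [Finite G] [Finite U] (D : Subgroup G)
    (hD : ∀ a ∈ D, ∀ b ∈ D, a * b = b * a) (N : ℕ) (hN : ∀ a ∈ D, a ^ N = 1) (hpN : ¬ p ∣ N)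
    (W : Submodule (ZMod p) U) (hW : ∀ d ∈ D, ∀ w ∈ W, ρ d w = w) :
    (ρ '' (D : Set G)).ncard ≤ Nat.card (U ⧸ W) := by
  classical
  have hfin : Finite (U ⧸ W) := Finite.of_surjective _ W.mkQ_surjective
  obtain ⟨v, hv⟩ := exists_regular ρ D hD N hN hpN
  have hNne : (N : ZMod p) ≠ 0 := by
    intro h
    exact hpN ((ZMod.natCast_eq_zero_iff N p).1 h)
  rw [← Nat.card_coe_set_eq]
  apply Nat.card_le_card_of_injective (fun T : (ρ '' (D : Set G)) => W.mkQ (T.1 v))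
  rintro ⟨_, d, hd, rfl⟩ ⟨_, d', hd', rfl⟩ h
  simp only at h
  have h1 : ρ d v - ρ d' v ∈ W := (Submodule.Quotient.eq W).1 h
  set t := d'⁻¹ * d with ht
  have htD : t ∈ D := mul_mem (inv_mem hd') hd
  have h2 : ρ t v = v + (ρ d v - ρ d' v) := by
    have h3 : ρ d'⁻¹ (ρ d v - ρ d' v) = ρ d v - ρ d' v := hW _ (inv_mem hd') _ h1
    rw [map_sub, inv_ap_ap, ← mul_ap] at h3
    rw [← h3]; abel
  have h3 : ∀ j : ℕ, ρ (t ^ j) v = v + (j : ZMod p) • (ρ d v - ρ d' v) := by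
    intro j
    induction j with
    | zero => simp
    | succ j ih =>
      rw [pow_succ', mul_ap, ih, map_add, map_smul, h2, hW t htD _ h1]
      push_cast
      rw [add_smul, one_smul]
      abel
  have h4 := h3 N
  rw [hN t htD, one_ap] at h4
  have h5 : (N : ZMod p) • (ρ d v - ρ d' v) = 0 := by
    have : v + (N : ZMod p) • (ρ d v - ρ d' v) = v + 0 := by rw [← h4, add_zero]
    exact add_left_cancel this
  have h6 := (smul_eq_zero.1 h5).resolve_left hNne
  rw [h6, add_zero] at h2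
  have h7 := hv t htD h2
  apply Subtype.ext
  simp only
  apply LinearMap.ext
  intro w
  have := h7 w
  rw [ht, mul_ap] at this
  have h8 : ρ d' (ρ d'⁻¹ (ρ d w)) = ρ d' w := by rw [this]
  rwa [ap_inv_ap] at h8

/-- numerical lemma -/
theorem numer {r m : ℕ} (hm : 2 ≤ m) (h : 5 ≤ r ∨ (3 ≤ r ∧ 5 ≤ m)) : m ^ 2 < r ^ (m - 1) := by
  rcases h with h | ⟨h, h5⟩
  · have h1 : m ^ 2 < 5 ^ (m - 1) := by
      obtain ⟨k, rfl⟩ := Nat.exists_eq_add_of_le hm
      clear hm
      induction k with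
      | zero => norm_num
      | succ k ih =>
        have e : 2 + (k + 1) - 1 = (2 + k - 1) + 1 := by omega
        rw [e, pow_succ 5]
        calc (2 + (k + 1)) ^ 2 ≤ (2 + k) ^ 2 * 5 := by ring_nf; nlinarith [Nat.zero_le k]
          _ < _ := Nat.mul_lt_mul_of_pos_right ih (by norm_num)
    exact h1.trans_le (Nat.pow_le_pow_left h _)
  · have h1 : m ^ 2 < 3 ^ (m - 1) := by
      obtain ⟨k, rfl⟩ := Nat.exists_eq_add_of_le h5
      clear hm h5
      induction k with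
      | zero => norm_num
      | succ k ih =>
        have e : 5 + (k + 1) - 1 = (5 + k - 1) + 1 := by omega
        rw [e, pow_succ 3]
        calc (5 + (k + 1)) ^ 2 ≤ (5 + k) ^ 2 * 3 := by ring_nf; nlinarith [Nat.zero_le k]
          _ < _ := Nat.mul_lt_mul_of_pos_right ih (by norm_num)
    exact h1.trans_le (Nat.pow_le_pow_left h _)

theorem card_quot_inf [Finite U] (Y Z : Submodule (ZMod p) U) :
    Nat.card (U ⧸ (Y ⊓ Z)) ≤ Nat.card (U ⧸ Y) * Nat.card (U ⧸ Z) := by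
  have hfy : Finite (U ⧸ Y) := Finite.of_surjective _ Y.mkQ_surjective
  have hfz : Finite (U ⧸ Z) := Finite.of_surjective _ Z.mkQ_surjective
  rw [← Nat.card_prod]
  apply Nat.card_le_card_of_injective (fun x : U ⧸ (Y ⊓ Z) =>
    ((Y ⊓ Z).mapQ Y LinearMap.id inf_le_left x, (Y ⊓ Z).mapQ Z LinearMap.id inf_le_right x))
  intro a b hab
  obtain ⟨a, rfl⟩ := (Y ⊓ Z).mkQ_surjective a
  obtain ⟨b, rfl⟩ := (Y ⊓ Z).mkQ_surjective b
  simp only [Submodule.mkQ_apply, Submodule.mapQ_apply, LinearMap.id_apply, Prod.mk.injEq,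
    Submodule.Quotient.eq] at hab ⊢
  exact hab

end Cfsg.Agent.H281.PGV
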