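import Cfsg.Agent.H281.PGV.Basic
import Cfsg.Agent.PLocal.Timmesfeld

set_option autoImplicit false
set_option linter.unusedSectionVars false

/-! # P(G,V): Timmesfeld replacement for representations over `F_p` -/

namespace Cfsg.Agent.H281.PGV

universe u v

variable {p : ℕ} {G : Type u} {V : Type v} [Group G] [AddCommGroup V] [Module (ZMod p) V]
variable (ρ : Representation (ZMod p) G V)

/-- the maximality condition `P(G,V)` -/
def Best (A : Subgroup G) : Prop :=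
  ∀ B : Subgroup G, B ≤ A → Nat.card B * Nat.card (fx ρ B) ≤ Nat.card A * Nat.card (fx ρ A)

/-- the elements of `A` centralising `[w, A]`, `w ∈ W` -/
def qq (A : Subgroup G) (W : Set V) : Subgroup G where
  carrier := {b | b ∈ A ∧ ∀ w ∈ W, ∀ a ∈ A, ρ b (ρ a w - w) = ρ a w - w}
  mul_mem' := by
    rintro b c ⟨hb, hb'⟩ ⟨hc, hc'⟩
    refine ⟨mul_mem hb hc, fun w hw a ha => ?_⟩
    rw [mul_ap, hc' w hw a ha, hb' w hw a ha]
  one_mem' := ⟨one_mem _, fun w _ a _ => one_ap ρ _⟩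
  inv_mem' := by
    rintro b ⟨hb, hb'⟩
    refine ⟨inv_mem hb, fun w hw a ha => ?_⟩
    conv_lhs => rw [← hb' w hw a ha]
    exact inv_ap_ap ρ _ _

theorem mem_qq {A : Subgroup G} {W : Set V} {b : G} :
    b ∈ qq ρ A W ↔ b ∈ A ∧ ∀ w ∈ W, ∀ a ∈ A, ρ b (ρ a w - w) = ρ a w - w := Iff.rfl

theorem qq_le (A : Subgroup G) (W : Set V) : qq ρ A W ≤ A := fun _ h => h.1

/-- `[w, A]` for `w ∈ W` -/
def br (A : Subgroup G) (W : Set V) : Submodule (ZMod p) V :=
  Submodule.span (ZMod p) {x : V | ∃ w ∈ W, ∃ a ∈ A, x = ρ a w - w}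

theorem br_le_fx (A : Subgroup G) (W : Set V) : br ρ A W ≤ fx ρ (qq ρ A W) := by
  rw [br, Submodule.span_le]
  rintro x ⟨w, hw, a, ha, rfl⟩ b hb
  exact hb.2 w hw a ha

variable [Finite G] [Finite V]

theorem card_single [Fact p.Prime] {A : Subgroup G} (hA : ∀ a ∈ A, ∀ b ∈ A, a * b = b * a) (v : V) :
    Nat.card A * Nat.card (fx ρ A) ≤
      Nat.card (qq ρ A {v}) * Nat.card ↥(br ρ A {v} ⊔ fx ρ A) := by
  classical
  have : Fintype A := Fintype.ofFinite A
  set N := fx ρ A with hN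
  let θ : A → V ⧸ N := fun a => N.mkQ (ρ a.1 v - v)
  -- fibres
  have hfib : ∀ a b : A, θ a = θ b → a.1⁻¹ * b.1 ∈ qq ρ A {v} := by
    intro a b hab
    have h1 : (ρ a.1 v - v) - (ρ b.1 v - v) ∈ N := (Submodule.Quotient.eq N).1 hab
    have h2 : ρ a.1 v - ρ b.1 v ∈ N := by
      have : (ρ a.1 v - v) - (ρ b.1 v - v) = ρ a.1 v - ρ b.1 v := by abel
      rwa [this] at h1
    refine ⟨mul_mem (inv_mem a.2) b.2, ?_⟩
    rintro w hw c hc
    rw [Set.mem_singleton_iff] at hw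
    subst hw
    -- t = a⁻¹ b, t w = w - n
    set t := a.1⁻¹ * b.1 with ht
    have htA : t ∈ A := mul_mem (inv_mem a.2) b.2
    have h3 : ρ t w = w - ρ a.1⁻¹ (ρ a.1 w - ρ b.1 w) := by
      rw [map_sub, inv_ap_ap, ← mul_ap]; abel
    have h4 : ρ a.1⁻¹ (ρ a.1 w - ρ b.1 w) = ρ a.1 w - ρ b.1 w := h2 _ (inv_mem a.2)
    rw [h4] at h3
    rw [map_sub, ← mul_ap, hA t htA c hc, mul_ap, h3, map_sub, h2 c hc]
    abel
  have h1 : Fintype.card A ≤ Nat.card (qq ρ A {v}) * (Finset.univ.image θ).card := by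
    rw [← Finset.card_univ]
    apply Finset.card_le_mul_card_image
    intro y hy
    obtain ⟨a₀, _, ha₀⟩ := Finset.mem_image.1 hy
    have : Fintype (qq ρ A {v}) := Fintype.ofFinite _
    rw [Nat.card_eq_fintype_card, ← Finset.card_univ]
    apply Finset.card_le_card_of_injOn
      (fun a => if h : θ a₀ = θ a then (⟨a₀.1⁻¹ * a.1, hfib a₀ a h⟩ : qq ρ A {v}) else 1)
    · intro a _; exact Finset.mem_coe.2 (Finset.mem_univ _)
    · intro a ha b hb hab
      have ha' : θ a₀ = θ a := by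
        rw [Finset.mem_coe, Finset.mem_filter] at ha; rw [ha₀, ha.2]
      have hb' : θ a₀ = θ b := by
        rw [Finset.mem_coe, Finset.mem_filter] at hb; rw [ha₀, hb.2]
      simp only [dif_pos ha', dif_pos hb', Subtype.mk.injEq, mul_right_inj] at hab
      exact Subtype.ext hab
  have h2 : (Finset.univ.image θ).card ≤ Nat.card ((br ρ A {v} ⊔ N).map N.mkQ) := by
    have : Finite (V ⧸ N) := Finite.of_surjective _ N.mkQ_surjective
    have : Fintype ((br ρ A {v} ⊔ N).map N.mkQ) := Fintype.ofFinite _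
    have h3 : (↑(Finset.univ.image θ) : Set (V ⧸ N)) ⊆ ((br ρ A {v} ⊔ N).map N.mkQ : Set (V ⧸ N)) := by
      intro y hy
      rw [Finset.mem_coe] at hy
      obtain ⟨a, _, ha⟩ := Finset.mem_image.1 hy
      rw [← ha]
      exact Submodule.mem_map_of_mem (Submodule.mem_sup_left
        (Submodule.subset_span ⟨v, rfl, a.1, a.2, rfl⟩))
    have h4 := Set.ncard_le_ncard h3 (Set.toFinite _)
    rw [Set.ncard_coe_finset] at h4
    exact h4
  have h3 : Nat.card ↥(br ρ A {v} ⊔ N) = Nat.card N * Nat.card ((br ρ A {v} ⊔ N).map N.mkQ) := by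
    have e1 := Submodule.card_eq_card_quotient_mul_card (N.submoduleOf (br ρ A {v} ⊔ N))
    have e2 : Nat.card (N.submoduleOf (br ρ A {v} ⊔ N)) = Nat.card N :=
      Nat.card_congr (Submodule.submoduleOfEquivOfLe le_sup_right).toEquiv
    have e3 : Nat.card (↥(br ρ A {v} ⊔ N) ⧸ N.submoduleOf (br ρ A {v} ⊔ N)) =
        Nat.card ((br ρ A {v} ⊔ N).map N.mkQ) := by
      have hk : LinearMap.ker (N.mkQ.domRestrict (br ρ A {v} ⊔ N)) = N.submoduleOf (br ρ A {v} ⊔ N) := by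
        ext x
        rw [LinearMap.mem_ker, LinearMap.domRestrict_apply, Submodule.mkQ_apply,
          Submodule.Quotient.mk_eq_zero]
        rfl
      have hr : LinearMap.range (N.mkQ.domRestrict (br ρ A {v} ⊔ N)) = (br ρ A {v} ⊔ N).map N.mkQ := by
        rw [LinearMap.domRestrict, LinearMap.range_comp, Submodule.range_subtype]
      rw [← hk, ← hr]
      exact Nat.card_congr (LinearMap.quotKerEquivRange _).toEquiv
    rw [e1, e2, e3]
  rw [Nat.card_eq_fintype_card (α := A), h3]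
  calc Fintype.card A * Nat.card N ≤ Nat.card (qq ρ A {v}) * (Finset.univ.image θ).card * Nat.card N :=
        Nat.mul_le_mul_right _ h1
    _ ≤ Nat.card (qq ρ A {v}) * Nat.card ((br ρ A {v} ⊔ N).map N.mkQ) * Nat.card N :=
        Nat.mul_le_mul_right _ (Nat.mul_le_mul_left _ h2)
    _ = _ := by ring

theorem card_mono {Y Z : Submodule (ZMod p) V} (h : Y ≤ Z) : Nat.card Y ≤ Nat.card Z :=
  Nat.card_le_card_of_injective (Submodule.inclusion h) (Submodule.inclusion_injective h)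

theorem eq_of_le_of_card {Y Z : Submodule (ZMod p) V} (h : Y ≤ Z) (hc : Nat.card Z ≤ Nat.card Y) :
    Y = Z := by
  apply SetLike.coe_injective
  exact Set.eq_of_subset_of_ncard_le h hc (Set.toFinite _)

/-- good subgroups of `A` -/
def Good (A B : Subgroup G) : Prop :=
  B ≤ A ∧ Nat.card B * Nat.card (fx ρ B) = Nat.card A * Nat.card (fx ρ A)

theorem good_inf [Fact p.Prime] {A B B' : Subgroup G} (hP : Best ρ A) (hB : Good ρ A B)
    (hB' : Good ρ A B') : Good ρ A (B ⊓ B') ∧ fx ρ (B ⊓ B') = fx ρ B ⊔ fx ρ B' := by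
  have hle : fx ρ B ⊔ fx ρ B' ≤ fx ρ (B ⊓ B') :=
    sup_le (fx_anti ρ inf_le_left) (fx_anti ρ inf_le_right)
  have h1 := PLocal.Timmesfeld.card_mul_card_le (B₁ := B) (B₂ := B') le_sup_left le_sup_right
  have h2 := card_sup_mul (fx ρ B) (fx ρ B')
  rw [← fx_sup] at h2
  have h3 := hP (B ⊔ B') (sup_le hB.1 hB'.1)
  set F := Nat.card A * Nat.card (fx ρ A) with hF
  have hFpos : 0 < F := Nat.mul_pos Nat.card_pos Nat.card_pos
  have h4 : F * F ≤ (Nat.card (B ⊓ B' : Subgroup G) * Nat.card ↥(fx ρ B ⊔ fx ρ B')) * F := by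
    calc F * F = (Nat.card B * Nat.card B') * (Nat.card (fx ρ B) * Nat.card (fx ρ B')) := by
          have e1 : F = Nat.card B * Nat.card (fx ρ B) := hB.2.symm
          have e2 : F = Nat.card B' * Nat.card (fx ρ B') := hB'.2.symm
          calc F * F = (Nat.card B * Nat.card (fx ρ B)) * (Nat.card B' * Nat.card (fx ρ B')) := by
                rw [← e1, ← e2]
            _ = _ := by ring
      _ ≤ (Nat.card (B ⊓ B' : Subgroup G) * Nat.card (B ⊔ B' : Subgroup G)) *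
          (Nat.card ↥(fx ρ B ⊔ fx ρ B') * Nat.card (fx ρ (B ⊔ B'))) := by
          rw [h2]; exact Nat.mul_le_mul_right _ h1
      _ = (Nat.card (B ⊓ B' : Subgroup G) * Nat.card ↥(fx ρ B ⊔ fx ρ B')) *
          (Nat.card (B ⊔ B' : Subgroup G) * Nat.card (fx ρ (B ⊔ B'))) := by ring
      _ ≤ _ := Nat.mul_le_mul_left _ h3
  have h5 : F ≤ Nat.card (B ⊓ B' : Subgroup G) * Nat.card ↥(fx ρ B ⊔ fx ρ B') :=
    Nat.le_of_mul_le_mul_right h4 hFpos
  have h6 : Nat.card ↥(fx ρ B ⊔ fx ρ B') ≤ Nat.card (fx ρ (B ⊓ B')) :=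
    card_mono hle
  have h7 := hP (B ⊓ B') (inf_le_left.trans hB.1)
  have h8 : Nat.card (B ⊓ B' : Subgroup G) * Nat.card ↥(fx ρ B ⊔ fx ρ B') ≤
      Nat.card (B ⊓ B' : Subgroup G) * Nat.card (fx ρ (B ⊓ B')) := Nat.mul_le_mul_left _ h6
  refine ⟨⟨inf_le_left.trans hB.1, le_antisymm h7 (h5.trans h8)⟩, ?_⟩
  symm
  apply eq_of_le_of_card hle
  apply Nat.le_of_mul_le_mul_left (h7.trans h5)
  exact Nat.card_pos

theorem good_single [Fact p.Prime] {A : Subgroup G} (hP : Best ρ A)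
    (hA : ∀ a ∈ A, ∀ b ∈ A, a * b = b * a) (v : V) :
    Good ρ A (qq ρ A {v}) ∧ fx ρ (qq ρ A {v}) = br ρ A {v} ⊔ fx ρ A := by
  have h1 := card_single ρ hA v
  have hle : br ρ A {v} ⊔ fx ρ A ≤ fx ρ (qq ρ A {v}) :=
    sup_le (br_le_fx ρ A {v}) (fx_anti ρ (qq_le ρ A {v}))
  have h2 : Nat.card ↥(br ρ A {v} ⊔ fx ρ A) ≤ Nat.card (fx ρ (qq ρ A {v})) :=
    card_mono hle
  have h3 := hP _ (qq_le ρ A {v})
  have h4 : Nat.card (qq ρ A {v}) * Nat.card ↥(br ρ A {v} ⊔ fx ρ A) ≤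
      Nat.card (qq ρ A {v}) * Nat.card (fx ρ (qq ρ A {v})) := Nat.mul_le_mul_left _ h2
  refine ⟨⟨qq_le ρ A _, le_antisymm h3 (h1.trans h4)⟩, ?_⟩
  symm
  apply eq_of_le_of_card hle
  exact Nat.le_of_mul_le_mul_left (h3.trans h1) Nat.card_pos

theorem good_finset [Fact p.Prime] {A : Subgroup G} (hP : Best ρ A)
    (hA : ∀ a ∈ A, ∀ b ∈ A, a * b = b * a) (W : Finset V) :
    Good ρ A (qq ρ A (W : Set V)) ∧ fx ρ (qq ρ A (W : Set V)) ≤ br ρ A (W : Set V) ⊔ fx ρ A := by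
  classical
  induction W using Finset.induction_on with
  | empty =>
    have : qq ρ A ((∅ : Finset V) : Set V) = A := by
      ext b
      rw [mem_qq]
      simp
    rw [this]
    exact ⟨⟨le_refl _, rfl⟩, le_sup_right⟩
  | insert v W _ ih =>
    have h0 : qq ρ A ((insert v W : Finset V) : Set V) = qq ρ A {v} ⊓ qq ρ A (W : Set V) := by
      ext b
      rw [Subgroup.mem_inf, mem_qq, mem_qq, mem_qq]
      constructor
      · rintro ⟨hb, h⟩
        refine ⟨⟨hb, fun w hw => h w ?_⟩, hb, fun w hw => h w ?_⟩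
        · rw [Set.mem_singleton_iff] at hw; subst hw; simp
        · rw [Finset.coe_insert]; exact Set.mem_insert_of_mem _ hw
      · rintro ⟨⟨hb, h1⟩, _, h2⟩
        refine ⟨hb, fun w hw => ?_⟩
        rw [Finset.coe_insert, Set.mem_insert_iff] at hw
        rcases hw with rfl | hw
        · exact h1 w rfl
        · exact h2 w hw
    rw [h0]
    obtain ⟨g1, e1⟩ := good_single ρ hP hA v
    obtain ⟨g2, e2⟩ := good_inf ρ hP g1 ih.1
    refine ⟨g2, ?_⟩
    rw [e2, e1]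
    refine sup_le (sup_le ?_ le_sup_right) (ih.2.trans (sup_le ?_ le_sup_right))
    · refine le_trans (Submodule.span_mono ?_) le_sup_left
      rintro x ⟨w, hw, a, ha, rfl⟩
      rw [Set.mem_singleton_iff] at hw
      exact ⟨w, by rw [hw]; simp, a, ha, rfl⟩
    · refine le_trans (Submodule.span_mono ?_) le_sup_left
      rintro x ⟨w, hw, a, ha, rfl⟩
      exact ⟨w, by rw [Finset.coe_insert]; exact Set.mem_insert_of_mem _ hw, a, ha, rfl⟩

/-- **Timmesfeld replacement.** -/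
theorem timmesfeld [Fact p.Prime] {A : Subgroup G} (hP : Best ρ A)
    (hA : ∀ a ∈ A, ∀ b ∈ A, a * b = b * a) (hAp : IsPGroup p A) :
    ∃ Q : Subgroup G, Q ≤ A ∧ (∀ b ∈ Q, ∀ a ∈ A, ∀ v, ρ b (ρ a v - v) = ρ a v - v) ∧
      Nat.card Q * Nat.card (fx ρ Q) = Nat.card A * Nat.card (fx ρ A) ∧
      (∀ a ∈ A, (∀ v, ρ a v = v) → a ∈ Q) ∧
      ((∀ b ∈ Q, ∀ v, ρ b v = v) → ∀ a ∈ A, ∀ v, ρ a v = v) := by
  classical
  have : Fintype V := Fintype.ofFinite V
  obtain ⟨h1, h2⟩ := good_finset ρ hP hA Finset.univ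
  refine ⟨qq ρ A ((Finset.univ : Finset V) : Set V), h1.1, ?_, h1.2, ?_, ?_⟩
  · intro b hb a ha v
    exact hb.2 v (by simp) a ha
  · intro a ha hfix
    exact ⟨ha, fun w _ c _ => hfix _⟩
  · intro htriv a ha v
    have h3 : fx ρ (qq ρ A ((Finset.univ : Finset V) : Set V)) = ⊤ := by
      rw [eq_top_iff]; intro v _ b hb; exact htriv b hb v
    have h4 : fx ρ A = ⊤ := by
      apply trivial_of_comm ρ hAp
      rw [eq_top_iff, ← h3]
      refine h2.trans (sup_le_sup_right ?_ _)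
      rw [br]
      apply Submodule.span_mono
      rintro x ⟨w, _, c, hc, rfl⟩
      exact ⟨c, hc, w, rfl⟩
    have : v ∈ fx ρ A := h4 ▸ Submodule.mem_top
    exact this a ha

end Cfsg.Agent.H281.PGV
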