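import Cfsg.Agent.H281.PGV.MainU

set_option autoImplicit false
set_option linter.unusedSectionVars false

/-! # P(G,V): reduction to the section -/

open scoped commutatorElement

namespace Cfsg.Agent.H281.PGV

universe u v

variable {p : ℕ} {G : Type u} {V : Type v} [Group G] [AddCommGroup V] [Module (ZMod p) V]
variable (ρ : Representation (ZMod p) G V)

/-- restriction to an invariant subspace -/
def resW (W : Submodule (ZMod p) V) (hW : ∀ g, ∀ w ∈ W, ρ g w ∈ W) : Representation (ZMod p) G W where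
  toFun g := (ρ g).restrict (hW g)
  map_one' := by
    ext w
    exact one_ap ρ w.1
  map_mul' := by
    intro a b
    ext w
    exact mul_ap ρ a b w.1

theorem resW_ap (W : Submodule (ZMod p) V) (hW : ∀ g, ∀ w ∈ W, ρ g w ∈ W) (g : G) (w : W) :
    (resW ρ W hW g w : V) = ρ g w := rfl

/-- the representation on a quotient -/
def quoW (W : Submodule (ZMod p) V) (hW : ∀ g, ∀ w ∈ W, ρ g w ∈ W) :
    Representation (ZMod p) G (V ⧸ W) where
  toFun g := W.mapQ W (ρ g) (hW g)
  map_one' := by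
    apply LinearMap.ext
    intro x
    obtain ⟨v, rfl⟩ := W.mkQ_surjective x
    change W.mkQ (ρ 1 v) = W.mkQ v
    rw [one_ap]
  map_mul' := by
    intro a b
    apply LinearMap.ext
    intro x
    obtain ⟨v, rfl⟩ := W.mkQ_surjective x
    change W.mkQ (ρ (a * b) v) = W.mkQ (ρ a (ρ b v))
    rw [mul_ap]

theorem quoW_ap (W : Submodule (ZMod p) V) (hW : ∀ g, ∀ w ∈ W, ρ g w ∈ W) (g : G) (v : V) :
    quoW ρ W hW g (W.mkQ v) = W.mkQ (ρ g v) := rfl

/-- invariance under generators -/
theorem inv_of_gen {A K : Subgroup G} (hgen : A ⊔ K = ⊤) (W : Submodule (ZMod p) V)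
    (hA : ∀ a ∈ A, ∀ w ∈ W, ρ a w ∈ W) (hK : ∀ a ∈ K, ∀ w ∈ W, ρ a w ∈ W) :
    ∀ g, ∀ w ∈ W, ρ g w ∈ W := by
  let S : Subgroup G :=
    { carrier := {g | (∀ w ∈ W, ρ g w ∈ W) ∧ ∀ w ∈ W, ρ g⁻¹ w ∈ W}
      mul_mem' := by
        rintro a b ⟨ha, ha'⟩ ⟨hb, hb'⟩
        refine ⟨fun w hw => by rw [mul_ap]; exact ha _ (hb _ hw), fun w hw => ?_⟩
        rw [mul_inv_rev, mul_ap]; exact hb' _ (ha' _ hw)
      one_mem' := by
        refine ⟨fun w hw => by rw [one_ap]; exact hw, fun w hw => by rw [inv_one, one_ap]; exact hw⟩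
      inv_mem' := by
        rintro a ⟨ha, ha'⟩
        exact ⟨ha', by rw [inv_inv]; exact ha⟩ }
  have h1 : A ⊔ K ≤ S := sup_le (fun a ha => ⟨hA a ha, hA _ (inv_mem ha)⟩)
    (fun a ha => ⟨hK a ha, hK _ (inv_mem ha)⟩)
  intro g w hw
  have : g ∈ S := h1 (hgen ▸ Subgroup.mem_top g)
  exact this.1 w hw

/-- the group-theoretic hypotheses -/
structure VD (p : ℕ) (K A : Subgroup G) : Prop where
  comm : ∀ a ∈ A, ∀ b ∈ A, a * b = b * a
  exp : ∀ a ∈ A, a ^ p = 1
  gen : A ⊔ K = ⊤
  conj : ∀ a ∈ A, a ∈ Subgroup.normalizer (K : Set G) ∨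
    (∀ x ∈ K, ∀ y ∈ K, (a * x * a⁻¹) * y = y * (a * x * a⁻¹))
  perf : ⁅K, K⁆ = K
  qs : ∀ N : Subgroup G, N ≤ K → (∀ x ∈ K, ∀ n ∈ N, x * n * x⁻¹ ∈ N) →
    N = K ∨ ∀ n ∈ N, ∀ k ∈ K, n * k = k * n

/-- the conjugate `a K a⁻¹` is perfect -/
theorem conj_perf {K : Subgroup G} (hK : ⁅K, K⁆ = K) (a : G) :
    ⁅K.map (MulAut.conj a).toMonoidHom, K.map (MulAut.conj a).toMonoidHom⁆ =
      K.map (MulAut.conj a).toMonoidHom := by
  rw [← Subgroup.map_commutator, hK]

variable [Finite G] [Finite V]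

theorem best_res [Fact p.Prime] {A : Subgroup G} (hP : Best ρ A) (W : Submodule (ZMod p) V)
    (hW : ∀ g, ∀ w ∈ W, ρ g w ∈ W) : Best (resW ρ W hW) A := by
  intro B hB
  have e1 : ∀ B : Subgroup G, Nat.card (fx (resW ρ W hW) B) = Nat.card ↥(fx ρ B ⊓ W) := by
    intro B
    apply Nat.card_congr
    refine ⟨fun x => ⟨x.1.1, fun b hb => congrArg Subtype.val (x.2 b hb), x.1.2⟩,
      fun y => ⟨⟨y.1, y.2.2⟩, fun b hb => Subtype.ext (y.2.1 b hb)⟩, fun x => rfl, fun y => rfl⟩
  rw [e1, e1]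
  have h1 := hP B hB
  have h2 := card_sup_mul (fx ρ A) (fx ρ B ⊓ W)
  have h3 : fx ρ A ⊓ (fx ρ B ⊓ W) = fx ρ A ⊓ W := by
    rw [← inf_assoc, inf_eq_left.2 (fx_anti ρ hB)]
  rw [h3] at h2
  have h4 : Nat.card ↥(fx ρ A ⊔ (fx ρ B ⊓ W)) ≤ Nat.card (fx ρ B) :=
    card_mono (sup_le (fx_anti ρ hB) inf_le_left)
  have hpos : 0 < Nat.card (fx ρ A) := Nat.card_pos
  apply Nat.le_of_mul_le_mul_right _ hpos
  calc Nat.card B * Nat.card ↥(fx ρ B ⊓ W) * Nat.card (fx ρ A) =
      Nat.card B * (Nat.card (fx ρ A) * Nat.card ↥(fx ρ B ⊓ W)) := by ring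
    _ = Nat.card B * (Nat.card ↥(fx ρ A ⊔ (fx ρ B ⊓ W)) * Nat.card ↥(fx ρ A ⊓ W)) := by rw [h2]
    _ ≤ Nat.card B * (Nat.card (fx ρ B) * Nat.card ↥(fx ρ A ⊓ W)) :=
      Nat.mul_le_mul_left _ (Nat.mul_le_mul_right _ h4)
    _ = (Nat.card B * Nat.card (fx ρ B)) * Nat.card ↥(fx ρ A ⊓ W) := by ring
    _ ≤ (Nat.card A * Nat.card (fx ρ A)) * Nat.card ↥(fx ρ A ⊓ W) := Nat.mul_le_mul_right _ h1
    _ = _ := by ring

/-- the common fixed points of the conjugates of `K` -/
def V1 (K A : Subgroup G) : Submodule (ZMod p) V where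
  carrier := {v | ∀ a ∈ A, ∀ x ∈ K, ρ (a * x * a⁻¹) v = v}
  add_mem' := fun {x y} hx hy a ha b hb => by rw [map_add, hx a ha b hb, hy a ha b hb]
  zero_mem' := fun _ _ _ _ => map_zero _
  smul_mem' := fun c x hx a ha b hb => by rw [map_smul, hx a ha b hb]

theorem mem_V1 {K A : Subgroup G} {v : V} :
    v ∈ V1 ρ K A ↔ ∀ a ∈ A, ∀ x ∈ K, ρ (a * x * a⁻¹) v = v := Iff.rfl

theorem V1_inv {K A : Subgroup G} (hgen : A ⊔ K = ⊤) : ∀ g, ∀ w ∈ V1 ρ K A, ρ g w ∈ V1 ρ K A := by
  apply inv_of_gen ρ hgen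
  · intro b hb w hw a ha x hx
    have h1 := hw (b⁻¹ * a) (mul_mem (inv_mem hb) ha) x hx
    have h2 : a * x * a⁻¹ * b = b * ((b⁻¹ * a) * x * (b⁻¹ * a)⁻¹) := by group
    rw [← mul_ap, h2, mul_ap, h1]
  · intro b hb w hw
    have h1 := hw 1 (one_mem _) b hb
    rw [one_mul, inv_one, mul_one] at h1
    rw [h1]; exact hw

/-- vectors fixed modulo `V1` are in `V1` -/
theorem mem_V1_of {K A : Subgroup G} (hK : ⁅K, K⁆ = K) {v : V}
    (h : ∀ a ∈ A, ∀ x ∈ K, ρ (a * x * a⁻¹) v - v ∈ V1 ρ K A) : v ∈ V1 ρ K A := by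
  intro a ha x hx
  have h1 := perfect_quad ρ (conj_perf hK a) (v := v) (by
    rintro _ ⟨x, hx, rfl⟩ _ ⟨y, hy, rfl⟩
    exact h a ha y hy a ha x hx)
  exact h1 _ ⟨x, hx, rfl⟩

/-- existence of a nontrivial simple submodule for `K` -/
theorem exists_simple {K A : Subgroup G}
    (hconj : ∀ a ∈ A, a ∈ Subgroup.normalizer (K : Set G) ∨
      (∀ x ∈ K, ∀ y ∈ K, (a * x * a⁻¹) * y = y * (a * x * a⁻¹)))
    (h0 : ∀ u : V, (∀ a ∈ A, ∀ x ∈ K, ρ (a * x * a⁻¹) u = u) → u = 0) (hV : ∃ v : V, v ≠ 0) :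
    ∃ M : Submodule (SgT ρ K) V, IsSimpleModule (SgT ρ K) M ∧ ∃ x ∈ K, ∃ m ∈ M, ρ x m ≠ m := by
  classical
  let 𝒳 : Set (Submodule (ZMod p) V) :=
    {X | X ≠ ⊥ ∧ ∀ a ∈ A, ∀ x ∈ K, ∀ u ∈ X, ρ (a * x * a⁻¹) u ∈ X}
  have hne : 𝒳.Nonempty := by
    refine ⟨⊤, ?_, fun _ _ _ _ _ _ => Submodule.mem_top⟩
    obtain ⟨v, hv⟩ := hV
    intro h
    apply hv
    have : v ∈ (⊤ : Submodule (ZMod p) V) := Submodule.mem_top
    rw [h] at this
    exact (Submodule.mem_bot _).1 this
  obtain ⟨X, ⟨hX0, hXinv⟩, hXmin⟩ := (Set.toFinite 𝒳).exists_minimal hne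
  obtain ⟨a, ha, hax⟩ : ∃ a ∈ A, ∃ x ∈ K, ∃ u ∈ X, ρ (a * x * a⁻¹) u ≠ u := by
    by_contra hcon
    push Not at hcon
    obtain ⟨u, hu, hu0⟩ := (Submodule.ne_bot_iff X).1 hX0
    exact hu0 (h0 u (fun a ha x hx => hcon a ha x hx u hu))
  set Ka := K.map (MulAut.conj a).toMonoidHom with hKa
  have hY : X ⊓ fx ρ Ka = ⊥ := by
    by_contra hne
    have hmem : X ⊓ fx ρ Ka ∈ 𝒳 := by
      refine ⟨hne, ?_⟩
      rintro b hb x hx u ⟨huX, huY⟩
      refine ⟨hXinv b hb x hx u huX, ?_⟩
      rcases hconj (a⁻¹ * b) (mul_mem (inv_mem ha) hb) with h1 | h1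
      · have h2 : (a⁻¹ * b) * x * (a⁻¹ * b)⁻¹ ∈ K := (Subgroup.mem_normalizer_iff.1 h1 x).1 hx
        have h3 : b * x * b⁻¹ ∈ Ka := by
          refine ⟨_, h2, ?_⟩
          simp only [MulEquiv.toMonoidHom_eq_coe, MonoidHom.coe_coe, MulAut.conj_apply]
          group
        rw [huY _ h3]
        exact huY
      · rintro _ ⟨y, hy, rfl⟩
        have h2 : (MulAut.conj a).toMonoidHom y * (b * x * b⁻¹) = (b * x * b⁻¹) * (MulAut.conj a).toMonoidHom y := by
          simp only [MulEquiv.toMonoidHom_eq_coe, MonoidHom.coe_coe, MulAut.conj_apply]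
          have h3 := h1 x hx y hy
          have h4 : a * y * a⁻¹ * (b * x * b⁻¹) = a * (y * ((a⁻¹ * b) * x * (a⁻¹ * b)⁻¹)) * a⁻¹ := by group
          have h5 : b * x * b⁻¹ * (a * y * a⁻¹) = a * (((a⁻¹ * b) * x * (a⁻¹ * b)⁻¹) * y) * a⁻¹ := by group
          rw [h4, h5, h3]
        rw [← mul_ap, h2, mul_ap, huY _ ⟨y, hy, rfl⟩]
    have h1 := hXmin hmem inf_le_left
    obtain ⟨x, hx, u, hu, hne'⟩ := hax
    exact hne' ((h1 hu).2 _ ⟨x, hx, rfl⟩)
  let 𝒴 : Set (Submodule (ZMod p) V) :=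
    {Y | Y ≠ ⊥ ∧ Y ≤ X ∧ ∀ x ∈ K, ∀ u ∈ Y, ρ (a * x * a⁻¹) u ∈ Y}
  obtain ⟨M, ⟨hM0, hMX, hMinv⟩, hMmin⟩ := (Set.toFinite 𝒴).exists_minimal
    ⟨X, hX0, le_refl _, fun x hx u hu => hXinv a ha x hx u hu⟩
  have hinv : ∀ x ∈ K, ∀ y ∈ M.map (ρ a⁻¹), ρ x y ∈ M.map (ρ a⁻¹) := by
    rintro x hx _ ⟨m, hm, rfl⟩
    refine ⟨ρ (a * x * a⁻¹) m, hMinv x hx m hm, ?_⟩
    rw [← mul_ap, ← mul_ap]
    congr 2
    group
  refine ⟨ofInv ρ (M.map (ρ a⁻¹)) hinv, ?_, ?_⟩
  · rw [isSimpleModule_iff_isAtom]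
    constructor
    · intro hbot
      obtain ⟨m, hm, hm0⟩ := (Submodule.ne_bot_iff M).1 hM0
      have h1 : ρ a⁻¹ m ∈ ofInv ρ (M.map (ρ a⁻¹)) hinv := ⟨m, hm, rfl⟩
      rw [hbot, Submodule.mem_bot] at h1
      exact hm0 (ap_inj ρ a⁻¹ (by rw [h1, map_zero]))
    · intro N hN
      by_contra hN0
      have hNle : ∀ n ∈ N, ∃ m ∈ M, ρ a⁻¹ m = n := fun n hn => hN.le hn
      have hmem : (toSub ρ N).map (ρ a) ∈ 𝒴 := by
        refine ⟨?_, ?_, ?_⟩
        · intro hbot
          apply hN0
          rw [eq_bot_iff]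
          intro n hn
          have h1 : ρ a n ∈ (toSub ρ N).map (ρ a) := Submodule.mem_map_of_mem hn
          rw [hbot, Submodule.mem_bot] at h1
          exact (Submodule.mem_bot _).2 (ap_inj ρ a (by rw [h1, map_zero]))
        · rintro _ ⟨n, hn, rfl⟩
          obtain ⟨m, hm, rfl⟩ := hNle n hn
          rw [ap_inv_ap]
          exact hMX hm
        · rintro x hx _ ⟨n, hn, rfl⟩
          refine ⟨ρ x n, rho_mem_of_mem ρ N hx hn, ?_⟩
          rw [← mul_ap, ← mul_ap]
          congr 2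
          group
      have hle : (toSub ρ N).map (ρ a) ≤ M := by
        rintro _ ⟨n, hn, rfl⟩
        obtain ⟨m, hm, rfl⟩ := hNle n hn
        rw [ap_inv_ap]
        exact hm
      have h1 := hMmin hmem hle
      apply hN.not_ge
      rintro _ ⟨m, hm, rfl⟩
      obtain ⟨n, hn, rfl⟩ := h1 hm
      rw [inv_ap_ap]
      exact hn
  · by_contra hcon
    push Not at hcon
    obtain ⟨m, hm, hm0⟩ := (Submodule.ne_bot_iff M).1 hM0
    apply hm0
    have h1 : m ∈ X ⊓ fx ρ Ka := by
      refine ⟨hMX hm, ?_⟩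
      rintro _ ⟨x, hx, rfl⟩
      change ρ (a * x * a⁻¹) m = m
      rw [mul_ap, mul_ap, hcon x hx _ ⟨m, hm, rfl⟩, ap_inv_ap]
    rw [hY, Submodule.mem_bot] at h1
    exact h1

/-- **reduction**: in the minimal configuration `K` acts trivially -/
theorem main_V [Fact p.Prime] {K A : Subgroup G} (hD : VD p K A) {a₀ : G} (ha₀ : a₀ ∈ A)
    (ha₀K : a₀ ∉ Subgroup.normalizer (K : Set G)) : ∀ (n : ℕ) (V : Type v) [AddCommGroup V]
    [Module (ZMod p) V] [Finite V] (ρ : Representation (ZMod p) G V), Nat.card V ≤ n → Best ρ A →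
      ∀ x ∈ K, ∀ v, ρ x v = v := by
  classical
  intro n
  induction n with
  | zero =>
    intro V _ _ _ ρ hn
    exact absurd (Nat.card_pos (α := V)) (by omega)
  | succ n ih =>
    intro V _ _ _ ρ hn hP
    by_contra hnt
    have hnt' : ∃ x ∈ K, ∃ v, ρ x v ≠ v := by push Not at hnt; exact hnt
    have hAp : IsPGroup p A := isPGroup_of_exp hD.exp
    -- proper invariant subspaces
    have hprop : ∀ W : Submodule (ZMod p) V, (∀ g, ∀ w ∈ W, ρ g w ∈ W) → W ≠ ⊤ →
        ∀ x ∈ K, ∀ w ∈ W, ρ x w = w := by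
      intro W hW hWt x hx w hw
      have hlt : Nat.card W < Nat.card V := by
        by_contra hcon
        apply hWt
        apply eq_of_le_of_card le_top
        have : Nat.card (⊤ : Submodule (ZMod p) V) = Nat.card V :=
          Nat.card_congr (Submodule.topEquiv).toEquiv
        rw [this]
        exact not_lt.1 hcon
      have := ih W (resW ρ W hW) (by omega) (best_res ρ hP W hW) x hx ⟨w, hw⟩
      exact congrArg Subtype.val this
    -- `C` acts trivially
    set C : Subgroup G := A ⊓ Subgroup.centralizer (K : Set G) with hC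
    have hcK : ∀ c ∈ C, ∀ x ∈ K, c * x = x * c := by
      intro c hc x hx
      exact (Subgroup.mem_centralizer_iff.1 hc.2 x hx).symm
    have hCfx : fx ρ C = ⊤ := by
      by_contra hne
      have hinv : ∀ g, ∀ w ∈ fx ρ C, ρ g w ∈ fx ρ C := by
        apply inv_of_gen ρ hD.gen
        · intro a ha w hw c hc
          rw [← mul_ap, hD.comm c hc.1 a ha, mul_ap, hw c hc]
        · intro a ha w hw c hc
          rw [← mul_ap, hcK c hc a ha, mul_ap, hw c hc]
      have h1 := hprop _ hinv hne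
      have hCp : IsPGroup p C := isPGroup_of_exp (fun a ha => hD.exp a ha.1)
      have h2 := perfect_AxB ρ hCp hD.perf hcK (fun v hv x hx => h1 x hx v hv)
      obtain ⟨x, hx, v, hv⟩ := hnt'
      exact hv (h2 v x hx)
    have hCV : ∀ c ∈ C, ∀ v, ρ c v = v := by
      intro c hc v
      have : v ∈ fx ρ C := hCfx ▸ Submodule.mem_top
      exact this c hc
    -- the quotient
    set W := V1 ρ K A with hWdef
    have hWinv : ∀ g, ∀ w ∈ W, ρ g w ∈ W := V1_inv ρ hD.gen
    set σ := quoW ρ W hWinv with hσ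
    have hfU : Finite (V ⧸ W) := Finite.of_surjective _ W.mkQ_surjective
    have hWK : ∀ w ∈ W, ∀ x ∈ K, ρ x w = w := by
      intro w hw x hx
      have := hw 1 (one_mem _) x hx
      rwa [one_mul, inv_one, mul_one] at this
    have hU0 : ∀ u : V ⧸ W, (∀ a ∈ A, ∀ x ∈ K, σ (a * x * a⁻¹) u = u) → u = 0 := by
      intro u hu
      obtain ⟨v, rfl⟩ := W.mkQ_surjective u
      have h1 : v ∈ W := by
        apply mem_V1_of ρ hD.perf
        intro a ha x hx
        have := hu a ha x hx
        rw [hσ, quoW_ap] at this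
        exact (Submodule.Quotient.eq W).1 this
      exact (Submodule.Quotient.mk_eq_zero W).2 h1
    have hKU : (∀ x ∈ K, ∀ u, σ x u = u) → False := by
      intro hKu
      obtain ⟨x, hx, v, hv⟩ := hnt'
      apply hv
      apply perfect_quad ρ hD.perf _ x hx
      intro x hx y hy
      apply hWK _ _ x hx
      have := hKu y hy (W.mkQ v)
      rw [hσ, quoW_ap] at this
      exact (Submodule.Quotient.eq W).1 this
    have hUne : ∃ v : V ⧸ W, v ≠ 0 := by
      by_contra hcon
      push Not at hcon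
      exact hKU (fun x _ u => by rw [hcon u, map_zero])
    obtain ⟨M, hMs, hMnt⟩ := exists_simple σ hD.conj hU0 hUne
    -- the quadratic subgroup
    obtain ⟨Q, hQA, hquad, hQcard, hAQ, hQtriv⟩ := timmesfeld ρ hP hD.comm hAp
    have hCQ : C ≤ Q := fun c hc => hAQ c hc.1 (hCV c hc)
    have hQC : ¬ Q ≤ C := by
      intro hle
      have h1 := hQtriv (fun b hb => hCV b (hle hb))
      obtain ⟨x, hx, v, hv⟩ := hnt'
      apply hv
      apply perfect_fix ρ hD.perf _ x hx
      intro x hx y hy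
      have h2 := (hD.conj a₀ ha₀).resolve_left ha₀K x hx y hy
      have h3 : ∀ w, ρ (a₀ * x * a₀⁻¹) w = ρ x w := by
        intro w
        rw [mul_ap, mul_ap, h1 a₀ ha₀, h1 a₀⁻¹ (inv_mem ha₀)]
      rw [← h3 (ρ y v), ← mul_ap, h2, mul_ap, h3]
    have hcfg : Cfg σ K A Q C :=
      { comm := hD.comm
        exp := hD.exp
        QA := hQA
        CQ := hCQ
        conj := hD.conj
        quad := by
          intro b hb a ha u
          obtain ⟨v, rfl⟩ := W.mkQ_surjective u
          rw [hσ, quoW_ap, ← map_sub, quoW_ap, hquad b hb a ha v]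
        perf := hD.perf
        cK := hcK
        cU := by
          intro c hc u
          obtain ⟨v, rfl⟩ := W.mkQ_surjective u
          rw [hσ, quoW_ap, hCV c hc]
        faith := by
          intro b hb hbN M hMinv hMnt hbM
          -- `N` the kernel on `M`
          let N : Subgroup G :=
            { carrier := {x | x ∈ K ∧ ∀ m ∈ M, σ x m = m}
              mul_mem' := by
                rintro x y ⟨hx, hx'⟩ ⟨hy, hy'⟩
                exact ⟨mul_mem hx hy, fun m hm => by rw [mul_ap, hy' m hm, hx' m hm]⟩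
              one_mem' := ⟨one_mem _, fun m _ => one_ap σ m⟩
              inv_mem' := by
                rintro x ⟨hx, hx'⟩
                refine ⟨inv_mem hx, fun m hm => ?_⟩
                conv_lhs => rw [← hx' m hm]
                exact inv_ap_ap σ x m }
          have hNZ : ∀ n ∈ N, ∀ k ∈ K, n * k = k * n := by
            rcases hD.qs N (fun x hx => hx.1) (by
              rintro x hx n ⟨hn, hn'⟩
              refine ⟨mul_mem (mul_mem hx hn) (inv_mem hx), fun m hm => ?_⟩
              rw [mul_ap, mul_ap, hn' _ (hMinv _ (inv_mem hx) m hm), ap_inv_ap]) with h1 | h1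
            · exfalso
              obtain ⟨x, hx, m, hm, hne⟩ := hMnt
              have h2 : x ∈ N := h1 ▸ hx
              exact hne (h2.2 m hm)
            · exact h1
          have hbinv : ∀ m ∈ M, σ b⁻¹ m = m := by
            intro m hm
            conv_lhs => rw [← hbM m hm]
            exact inv_ap_ap σ b m
          have hcomm : ∀ x ∈ K, b * x * b⁻¹ * x⁻¹ ∈ N := by
            intro x hx
            refine ⟨mul_mem ((Subgroup.mem_normalizer_iff.1 hbN x).1 hx) (inv_mem hx), fun m hm => ?_⟩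
            rw [mul_ap, mul_ap, mul_ap, hbinv _ (hMinv _ (inv_mem hx) m hm), ap_inv_ap, hbM m hm]
          -- the stabiliser of the identity under the homomorphism `x ↦ [b, x]`
          have hbK : ∀ x ∈ K, b * x * b⁻¹ * x⁻¹ = 1 := by
            let Z : Subgroup G :=
              { carrier := {x | x ∈ K ∧ b * x * b⁻¹ * x⁻¹ = 1}
                mul_mem' := by
                  rintro x y ⟨hx, hx'⟩ ⟨hy, hy'⟩
                  refine ⟨mul_mem hx hy, ?_⟩
                  have h1 : b * (x * y) * b⁻¹ * (x * y)⁻¹ = (b * x * b⁻¹) * (b * y * b⁻¹ * y⁻¹) * x⁻¹ := by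
                    group
                  rw [h1, hy', mul_one, hx']
                one_mem' := ⟨one_mem _, by group⟩
                inv_mem' := by
                  rintro x ⟨hx, hx'⟩
                  refine ⟨inv_mem hx, ?_⟩
                  have h1 : b * x⁻¹ * b⁻¹ * x⁻¹⁻¹ = x⁻¹ * (b * x * b⁻¹ * x⁻¹)⁻¹ * x := by
                    group
                  rw [h1, hx']; group }
            have hle : ⁅K, K⁆ ≤ Z := by
              rw [Subgroup.commutator_le]
              intro x hx y hy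
              refine ⟨by rw [← hD.perf]; exact Subgroup.commutator_mem_commutator hx hy, ?_⟩
              -- [b,x] =: c, [b,y] =: d central
              set c := b * x * b⁻¹ * x⁻¹ with hc
              set d := b * y * b⁻¹ * y⁻¹ with hd
              have e1 : b * x * b⁻¹ = c * x := by rw [hc]; group
              have e2 : b * y * b⁻¹ = d * y := by rw [hd]; group
              have cc : ∀ k ∈ K, c * k = k * c := hNZ c (hcomm x hx)
              have dd : ∀ k ∈ K, d * k = k * d := hNZ d (hcomm y hy)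
              have hcK : c ∈ K := (hcomm x hx).1
              have hdK : d ∈ K := (hcomm y hy).1
              have e3 : b * ⁅x, y⁆ * b⁻¹ = ⁅b * x * b⁻¹, b * y * b⁻¹⁆ := by
                rw [commutatorElement_def, commutatorElement_def]; group
              have e4 : ⁅c * x, d * y⁆ = ⁅x, y⁆ := by
                rw [commutatorElement_def, commutatorElement_def]
                calc c * x * (d * y) * (c * x)⁻¹ * (d * y)⁻¹
                    = c * (x * d) * y * x⁻¹ * c⁻¹ * y⁻¹ * d⁻¹ := by group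
                  _ = c * (d * x) * y * x⁻¹ * c⁻¹ * y⁻¹ * d⁻¹ := by rw [dd x hx]
                  _ = (c * d) * (x * y * x⁻¹) * c⁻¹ * y⁻¹ * d⁻¹ := by group
                  _ = (d * c) * (x * y * x⁻¹) * c⁻¹ * y⁻¹ * d⁻¹ := by rw [cc d hdK]
                  _ = d * (c * (x * y * x⁻¹)) * c⁻¹ * y⁻¹ * d⁻¹ := by group
                  _ = d * ((x * y * x⁻¹) * c) * c⁻¹ * y⁻¹ * d⁻¹ := by
                      rw [cc (x * y * x⁻¹) (mul_mem (mul_mem hx hy) (inv_mem hx))]
                  _ = d * (x * y * x⁻¹ * y⁻¹) * d⁻¹ := by group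
                  _ = (x * y * x⁻¹ * y⁻¹) * d * d⁻¹ := by
                      rw [dd (x * y * x⁻¹ * y⁻¹) (mul_mem (mul_mem (mul_mem hx hy) (inv_mem hx)) (inv_mem hy))]
                  _ = _ := by group
              rw [e3, e1, e2, e4, mul_inv_cancel]
            intro x hx
            rw [hD.perf] at hle
            exact (hle hx).2
          refine ⟨hQA hb, Subgroup.mem_centralizer_iff.2 (fun x hx => ?_)⟩
          have h1 := hbK x hx
          have h2 : b * x = (b * x * b⁻¹ * x⁻¹) * (x * b) := by group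
          rw [h2, h1, one_mul]
        faithZ := by
          intro y hy hyc
          let N : Subgroup G :=
            { carrier := {y | y ∈ K ∧ ∀ k ∈ K, ∀ u, σ y (σ k u) = σ k (σ y u)}
              mul_mem' := by
                rintro x y ⟨hx, hx'⟩ ⟨hy, hy'⟩
                refine ⟨mul_mem hx hy, fun k hk u => ?_⟩
                rw [mul_ap, hy' k hk, hx' k hk, mul_ap]
              one_mem' := ⟨one_mem _, fun k _ u => by rw [one_ap, one_ap]⟩
              inv_mem' := by
                rintro x ⟨hx, hx'⟩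
                refine ⟨inv_mem hx, fun k hk u => ?_⟩
                apply ap_inj σ x
                rw [ap_inv_ap, hx' k hk, ap_inv_ap] }
          rcases hD.qs N (fun x hx => hx.1) (by
            rintro x hx n ⟨hn, hn'⟩
            refine ⟨mul_mem (mul_mem hx hn) (inv_mem hx), fun k hk u => ?_⟩
            have h1 : x⁻¹ * k * x ∈ K := mul_mem (mul_mem (inv_mem hx) hk) hx
            have h2 := hn' _ h1 (σ x⁻¹ u)
            have h3 : σ (x * n * x⁻¹) (σ k u) = σ x (σ n (σ (x⁻¹ * k * x) (σ x⁻¹ u))) := by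
              rw [← mul_ap, ← mul_ap, ← mul_ap, ← mul_ap]
              congr 2
              group
            have h4 : σ k (σ (x * n * x⁻¹) u) = σ x (σ (x⁻¹ * k * x) (σ n (σ x⁻¹ u))) := by
              rw [← mul_ap, ← mul_ap, ← mul_ap, ← mul_ap]
              congr 2
              group
            rw [h3, h4, h2]) with h1 | h1
          · exfalso
            apply hKU
            intro x hx u
            apply perfect_fix σ hD.perf _ x hx
            intro x hx y hy
            have : x ∈ N := h1 ▸ hx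
            exact this.2 y hy u
          · exact h1 y ⟨hy, hyc⟩
        off := by
          have h1 := hP C inf_le_left
          rw [← hQcard, hCfx] at h1
          have h2 : Nat.card (⊤ : Submodule (ZMod p) V) = Nat.card W * Nat.card (V ⧸ W) := by
            rw [Nat.card_congr (Submodule.topEquiv (R := ZMod p) (M := V)).toEquiv]
            exact Submodule.card_eq_card_quotient_mul_card W
          have h3 : Nat.card (fx ρ Q) ≤ Nat.card W * Nat.card (fx σ Q) := by
            have e1 : (fx ρ Q).map W.mkQ ≤ fx σ Q := by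
              rintro _ ⟨v, hv, rfl⟩ b hb
              rw [hσ, quoW_ap, hv b hb]
            have e2 := Submodule.card_eq_card_quotient_mul_card (W.submoduleOf (fx ρ Q))
            have e3 : Nat.card (↥(fx ρ Q) ⧸ W.submoduleOf (fx ρ Q)) =
                Nat.card ((fx ρ Q).map W.mkQ) := by
              have hk : LinearMap.ker (W.mkQ.domRestrict (fx ρ Q)) = W.submoduleOf (fx ρ Q) := by
                ext x
                rw [LinearMap.mem_ker, LinearMap.domRestrict_apply, Submodule.mkQ_apply,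
                  Submodule.Quotient.mk_eq_zero]
                rfl
              have hr : LinearMap.range (W.mkQ.domRestrict (fx ρ Q)) = (fx ρ Q).map W.mkQ := by
                rw [LinearMap.domRestrict, LinearMap.range_comp, Submodule.range_subtype]
              rw [← hk, ← hr]
              exact Nat.card_congr (LinearMap.quotKerEquivRange _).toEquiv
            have e4 : Nat.card (W.submoduleOf (fx ρ Q)) ≤ Nat.card W :=
              Nat.card_le_card_of_injective (fun x : W.submoduleOf (fx ρ Q) => (⟨x.1.1, x.2⟩ : W))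
                (fun x y hxy => by
                  have h2 := congrArg (fun t : ↥W => (t : V)) hxy
                  have h1 : (x.1.1 : V) = y.1.1 := h2
                  exact Subtype.ext (Subtype.ext h1))
            rw [e2, e3]
            exact Nat.mul_le_mul e4 (card_mono e1)
          rw [h2] at h1
          have hpos : 0 < Nat.card W := Nat.card_pos
          apply Nat.le_of_mul_le_mul_right _ hpos
          calc Nat.card C * Nat.card (V ⧸ W) * Nat.card W = Nat.card C * (Nat.card W * Nat.card (V ⧸ W)) := by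
                ring
            _ ≤ Nat.card Q * Nat.card (fx ρ Q) := h1
            _ ≤ Nat.card Q * (Nat.card W * Nat.card (fx σ Q)) := Nat.mul_le_mul_left _ h3
            _ = _ := by ring }
    exact main_U σ hcfg M hMnt ha₀ ha₀K hQC

end Cfsg.Agent.H281.PGV
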